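/-
A simple group of order 50232960: data and intermediate statements.
-/
import Cfsg.Agent.Spor.MOLink2
import Cfsg.Agent.Spor.MOEnum2

set_option autoImplicit false

open Cfsg Subgroup CL.Spor CL.Spor.MO

namespace CL.J3O

universe u

/-- normaliser of a subgroup -/
scoped notation "𝒩(" H ")" => Subgroup.normalizer (SetLike.coe H)
/-- centraliser of a subgroup -/
scoped notation "𝒞(" H ")" => Subgroup.centralizer (SetLike.coe H)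
/-- centraliser of an element -/
scoped notation "𝒵(" y ")" => Subgroup.centralizer (@Singleton.singleton _ (Set (type_of% y)) _ y)

variable {G : Type u} [Group G]

/-- The index of `N_X(⟨x⟩)` in `X` (the number of Sylow 5-subgroups of `X`). -/
noncomputable def n5 (x : G) (X : Subgroup G) : ℕ := (𝒩(zpowers x)).relIndex X

/-- `L` is quasisimple with `|L : Z(L)| = n`, contains `x` and has `m` conjugates of `⟨x⟩`. -/
structure Cp (x : G) (L : Subgroup G) (n m : ℕ) : Prop where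
  mem : x ∈ L
  perf : ⁅L, L⁆ = L
  qs : ∀ N : Subgroup G, N ≤ L → L ≤ 𝒩(N) → N = L ∨ N ≤ 𝒞(L)
  idx : (𝒞(L)).relIndex L = n
  num : n5 x L = m
  inv : ∃ u ∈ L, u * x * u⁻¹ = x⁻¹

/-- Local structure of `{2,3,5}`-groups with Sylow 5-subgroup of order 5. -/
def LS : Prop := ∀ (G : Type u) [Group G] [Finite G] (X : Subgroup G) (x : G), x ∈ X → orderOf x = 5 →
  Nat.card X ∣ 155520 → X ≤ 𝒩(zpowers x) ∨
    (∃ (p : ℕ) (Q : Subgroup G), (p = 2 ∨ p = 3) ∧ Q ≤ X ∧ IsPGroup p Q ∧ X ≤ 𝒩(Q) ∧ x ∉ 𝒞(Q)) ∨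
    ∃ L : Subgroup G, L ≤ X ∧ X ≤ 𝒩(L) ∧ (Cp x L 60 6 ∨ Cp x L 360 36 ∨ Cp x L 25920 1296)

/-- Counting Sylow 5-subgroups. -/
structure Bas1 (G : Type u) [Group G] (x : G) : Prop where
  md : ∀ X : Subgroup G, x ∈ X → n5 x X % 5 = 1
  dv : ∀ (X Q : Subgroup G) (p : ℕ), (p = 2 ∨ p = 3) → x ∈ X → Q ≤ X → IsPGroup p Q → X ≤ 𝒩(Q) → x ∉ 𝒞(Q) →
    p ^ 4 ∣ n5 x X ∧ p ^ 4 * Nat.card ↥(Q ⊓ 𝒵(x)) ∣ Nat.card Q
  nl : ∀ X L : Subgroup G, x ∈ L → L ≤ X → X ≤ 𝒩(L) →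
    n5 x X = n5 x L ∧ ∀ n ∈ X, ∃ l ∈ L, ∃ w ∈ X ⊓ 𝒩(zpowers x), n = l * w
  eq : ∀ (X L : Subgroup G) (n m : ℕ), Cp x L n m → L ≤ X → n5 x X = m → X ≤ 𝒩(L)
  cj : ∀ (L : Subgroup G) (n m : ℕ) (g : G), Cp x L n m → L.map (MulAut.conj g).toMonoidHom ≤ 𝒩(L) → g ∈ 𝒩(L)
  ce : ∀ (L : Subgroup G) (n m : ℕ) (g : G), Cp x L n m → g ∈ 𝒩(L) → (∀ l ∈ L, g * l * g⁻¹ * l⁻¹ ∈ 𝒞(L)) → g ∈ 𝒞(L)
  le : ∀ (L L₁ : Subgroup G) (n m : ℕ), Cp x L n m → x ∈ L₁ → L ≤ 𝒩(L₁) → L ≤ L₁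

def B1 : Prop := ∀ (G : Type u) [Group G] [Finite G] (x : G), orderOf x = 5 → ¬ 25 ∣ Nat.card G → Bas1 G x

/-- Automorphisms of the components of type `A₅`, `A₆` that centralise `x`. -/
structure Bas2 (G : Type u) [Group G] (x : G) : Prop where
  a5 : ∀ (L : Subgroup G) (g : G), Cp x L 60 6 → g ∈ 𝒩(L) → g * x = x * g → ∃ i : ℕ, g * x ^ i ∈ 𝒞(L)
  a6 : ∀ (L : Subgroup G) (g : G), Cp x L 360 36 → g ∈ 𝒩(L) → g * x = x * g → (∃ k : ℕ, g ^ 3 ^ k = 1) → g ∈ 𝒞(L)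
  a56 : ∀ (L L₁ : Subgroup G) (g : G), Cp x L 60 6 → Cp x L₁ 360 36 → L ≤ L₁ → g ∈ 𝒩(L₁) → g ∈ 𝒞(L) →
    g * g = 1 → g ∈ 𝒞(L₁)

def B2 : Prop := ∀ (G : Type u) [Group G] [Finite G] (x : G), orderOf x = 5 → ¬ 25 ∣ Nat.card G → Bas2 G x

/-- Two principal blocks for primes `p ≠ q` without elements of order `p q` have a common character with opposite
signs. -/
def Cross : Prop := ∀ (G : Type u) [Group G] [Finite G] [IsSimpleGroup G] (g p q : ℕ) (a : PBk G g p) (b : PBk G g q),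
  p ≠ q → ¬ q ∣ a.v → ∃ χ ∈ a.S, χ ∈ b.S ∧ sn p a.e (dg χ) * sn q b.e (dg χ) = -1

/-- The three principal blocks. -/
structure Nu (G : Type u) [Group G] where
  a : PBk G 50232960 19
  b : PBk G 50232960 17
  c : PBk G 50232960 5
  ae : a.e = 9
  av : a.v = 1
  hb : b.e = 8 ∧ b.v = 1 ∨ b.e = 16 ∧ b.v = 9

/-- The degrees of the nontrivial characters of the principal 5-block. -/
def Pat (c : PBk G 50232960 5) (l : List ℕ) : Prop := c.e = 4 ∧ c.S.val.map (fun χ => dg χ) = (l : Multiset ℕ)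

/-- The case that the automiser of the Sylow 5-subgroup has order 2. -/
def Two (c : PBk G 50232960 5) : Prop :=
  c.e = 2 ∧ c.c = [324] ∧ c.F = -323 ∧ (c.v = 1 ∨ c.v = 6 ∨ c.v = 16 ∨ c.v = 96)

/-- All possibilities for the principal 5-block. -/
def Pats (D : Nu G) : Prop := Two D.c ∨
  (D.b.e = 8 ∧ D.b.v = 1) ∧ (Pat D.c [76, 76, 171, 324] ∨ Pat D.c [76, 76, 816, 969]) ∨
  Pat D.c [324, 969, 2584, 3876] ∨
  Pat D.c [171, 324, 2584, 2736] ∧ (D.c.v = 3 ∨ D.c.v = 8) ∨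
  Pat D.c [324, 646, 646, 969] ∧ (D.c.v = 3 ∨ D.c.v = 8 ∨ D.c.v = 48) ∨
  Pat D.c [816, 969, 2584, 2736] ∧ (D.c.v = 3 ∨ D.c.v = 8 ∨ D.c.v = 18 ∨ D.c.v = 108)

/-- Group theoretic data. -/
structure Gp (x : G) (v e : ℕ) : Prop where
  card : Nat.card G = 50232960
  hx : orderOf x = 5
  hc : Nat.card 𝒵(x) = 5 * v
  hn : Nat.card 𝒩(zpowers x) = e * (5 * v)
  inv : ∀ r : G, orderOf r = 2 → Nat.card 𝒵(r) ∣ 155520

/-- The structure of the centraliser of a 2-central involution. -/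
structure St (z y : G) (Q : Subgroup G) : Prop where
  hy : orderOf y = 5
  zy : y ∈ 𝒵(z)
  zQ : z ∈ Q
  le : Q ≤ 𝒵(z)
  card : Nat.card Q = 32
  fix : ∀ q ∈ Q, q * y = y * q → q = 1 ∨ q = z
  iso : ∃ φ : 𝒵(z) →* alternatingGroup (Fin 5), Function.Surjective φ ∧ φ.ker = Q.subgroupOf 𝒵(z)

/-- The configuration for `|C(x)| = 480`. -/
structure S96 (x : G) (L R : Subgroup G) (z : G) : Prop where
  cp : Cp x L 60 6
  nw : ∀ n ∈ 𝒩(L), ∃ l ∈ L, ∃ w ∈ 𝒞(L), n = l * w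
  RW : R ≤ 𝒞(L)
  cR : Nat.card R = 32
  zR : z ∈ R
  hz : orderOf z = 2
  zc : R ≤ 𝒵(z)
  cz : 𝒵(z) ≤ 𝒩(L)

/-- The configuration for `|C(x)| = 540`. -/
structure S108 (x : G) (L Y : Subgroup G) (c : G) : Prop where
  cp : Cp x L 360 36
  YW : Y ≤ 𝒞(L)
  cY : Nat.card Y = 27
  cm : c ∈ Y
  hc : orderOf c = 3
  cc' : Y ≤ 𝒵(c)
  cz : 𝒵(c) ≤ 𝒩(L)

/-- Centralisers of elements of order 3. -/
def H17 (G : Type u) [Group G] : Prop :=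
  ∀ k : G, orderOf k = 3 → 405 ∣ Nat.card 𝒵(k) → Nat.card 𝒵(k) ∣ 155520

/-- Subgroups of small index induce the full automiser on `⟨x⟩`. -/
def IL (x : G) : Prop := ∀ H : Subgroup G, x ∈ H → H.index ≤ 816 → 4 ∣ Nat.card ↥(H ⊓ 𝒩(zpowers x))

/-- An involution inverting an element of order 17. -/
def HJ (G : Type u) [Group G] : Prop := ∃ j : G, orderOf j = 2 ∧
  ∀ (χ : IrrCharacter G) (a : ℤ), 17 ∣ dg χ → (χ : G → ℂ) j = a → 17 * a.natAbs ≤ dg χ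

theorem Nu.inv_dvd [Finite G] (D : Nu G) {r : G} (hr : orderOf r = 2) : cc r ∣ 155520 := by
  have h1 : ¬ 19 ∣ cc r := fun h => by
    have := D.a.dvd_v Nat.prime_two (by norm_num) hr h
    rw [D.av] at this
    omega
  have h2 : ¬ 17 ∣ cc r := fun h => by
    have := D.b.dvd_v Nat.prime_two (by norm_num) hr h
    rcases D.hb with ⟨-, e⟩ | ⟨-, e⟩ <;> rw [e] at this <;> omega
  have h3 : cc r ∣ 155520 * 17 * 19 := by
    have := Subgroup.card_subgroup_dvd_card 𝒵(r)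
    rwa [D.a.card] at this
  refine Nat.Coprime.dvd_of_dvd_mul_right ?_ (Nat.Coprime.dvd_of_dvd_mul_right ?_ h3)
  · exact ((Nat.Prime.coprime_iff_not_dvd (by norm_num)).2 h2).symm
  · exact ((Nat.Prime.coprime_iff_not_dvd (by norm_num)).2 h1).symm

theorem Nu.gp [Finite G] (D : Nu G) : Gp D.c.x D.c.v D.c.e :=
  ⟨D.c.card, D.c.hx, D.c.hv, by rw [← D.c.hv]; exact D.c.B.card_N, fun _ h => D.inv_dvd h⟩

end CL.J3O
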