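/-
A simple group of order 50232960: the component of type `A₆` when `|C(x)| = 540`.
-/
import Cfsg.Agent.J3O.Defs
import Cfsg.Agent.Grp.SylowIn
import Cfsg.Agent.Grp.PGroupBasic

set_option autoImplicit false
set_option linter.unusedSectionVars false

open Cfsg Subgroup CL.Spor CL.Spor.MO

namespace CL.J3O

universe u

variable {G : Type u} [Group G] [Finite G]

theorem A108_cen {P Y : Subgroup G} (hP : Nat.card P = 243) (hY : Nat.card Y = 27) (le : Y ≤ P) :
    ∃ c ∈ Y, orderOf c = 3 ∧ P ≤ 𝒵(c) := by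
  have := Fact.mk Nat.prime_three
  have p3 : IsPGroup 3 P := IsPGroup.of_card (n := 5) hP
  have := p3.isNilpotent
  set Z := Y.subgroupOf P
  have i9 : Z.index = 9 := by
    have := Z.card_mul_index
    rw [Nat.card_congr (subgroupOfEquivOfLe le).toEquiv, hY, hP] at this
    omega
  have h : Z.normalCore.index ∣ Nat.factorial Z.index := by
    rw [normalCore_eq_ker, index_ker, index_eq_card, ← Nat.card_perm]
    exact card_subgroup_dvd_card (MulAction.toPermHom P (P ⧸ Z)).range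
  have ne : Z.normalCore ≠ ⊥ := fun e => by
    rw [e, index_bot, hP, i9] at h
    exact absurd h (by decide)
  have n2 := CL.Grp.inf_center_ne_bot ne
  obtain ⟨k, hk⟩ := IsPGroup.iff_card.1 (p3.to_subgroup (Z.normalCore ⊓ center P))
  obtain ⟨c, hc⟩ := exists_prime_orderOf_dvd_card' (G := ↥(Z.normalCore ⊓ center P)) 3 (by
    rw [hk]; exact dvd_pow_self 3 fun e => n2 (card_eq_one.1 (by rw [hk, e, pow_zero])))
  exact ⟨c.1.1, Z.normalCore_le c.2.1, by rw [orderOf_coe, orderOf_coe, hc],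
    fun g hg => mem_centralizer_singleton_iff.2 (congrArg Subtype.val (mem_center_iff.1 c.2.2 ⟨g, hg⟩))⟩

theorem A108_num {n h m i : ℕ} (h1 : h ∣ 155520) (h2 : 243 ∣ h) (h3 : 5 ∣ h) (m1 : m ∣ 2160) (m2 : 27 ∣ m) (m3 : 5 ∣ m)
    (e : m * n = h) (md : n % 5 = 1) (ei : h * i = 50232960) (il : i ≤ 816 → 4 ∣ m) : n = 36 := by
  obtain ⟨a, rfl⟩ := Nat.Coprime.mul_dvd_of_dvd_of_dvd (by norm_num) h2 h3
  obtain ⟨b, rfl⟩ := Nat.Coprime.mul_dvd_of_dvd_of_dvd (by norm_num) m2 m3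
  obtain ⟨k, hk, rfl⟩ := (Nat.dvd_prime_pow Nat.prime_two).1
    (Nat.dvd_of_mul_dvd_mul_left (by norm_num) h1 : a ∣ 2 ^ 7)
  obtain ⟨j, hj, rfl⟩ := (Nat.dvd_prime_pow Nat.prime_two).1
    (Nat.dvd_of_mul_dvd_mul_left (by norm_num) m1 : b ∣ 2 ^ 4)
  interval_cases k <;> interval_cases j <;> omega

variable [IsSimpleGroup G]

theorem s108_of (hL : LS.{u}) (h1 : B1.{u}) (h2 : B2.{u}) {x : G} (h : Gp x 108 4) (h17 : H17 G) (hI : IL x) :
    ∃ L Y c, S108 x L Y c := by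
  have := Fact.mk Nat.prime_three
  have n25 : ¬ 25 ∣ Nat.card G := by rw [h.card]; decide
  have b1 := h1 G x h.hx n25
  have b2 := h2 G x h.hx n25
  obtain ⟨Y, hY⟩ := CL.Grp.exists_isSylowIn (p := 3) 𝒵(x)
  obtain ⟨P, hP, le⟩ := CL.Grp.exists_isSylowIn_ge hY.isPGroup le_top
  have cY : Nat.card Y = 27 := by rw [hY.card_eq_pow, h.hc]; decide +kernel
  have cP : Nat.card P = 243 := by rw [hP.card_eq_pow, card_top, h.card]; decide +kernel
  obtain ⟨c, cm, c3, Pc⟩ := A108_cen cP cY le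
  have xc : x ∈ 𝒵(c) := mem_centralizer_singleton_iff.2 (mem_centralizer_singleton_iff.1 (hY.le cm)).symm
  have d243 : 243 ∣ Nat.card 𝒵(c) := cP ▸ card_dvd_of_le Pc
  have d5 : 5 ∣ Nat.card 𝒵(c) := h.hx ▸ Subgroup.orderOf_dvd_natCard _ xc
  have hd := h17 c c3 (Nat.Coprime.mul_dvd_of_dvd_of_dvd (m := 81) (n := 5) (by norm_num) (Dvd.dvd.trans (by norm_num) d243) d5)
  have YN : Y ≤ 𝒩(zpowers x) := hY.le.trans (by
    rw [← centralizer_closure, ← zpowers_eq_closure]; exact centralizer_le_normalizer _)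
  have n36 : n5 x 𝒵(c) = 36 :=
    A108_num (m := Nat.card ↥(𝒵(c) ⊓ 𝒩(zpowers x))) hd d243 d5 ((card_dvd_of_le inf_le_right).trans (h.hn ▸ dvd_rfl))
      (cY ▸ card_dvd_of_le (le_inf (le.trans Pc) YN))
      (h.hx ▸ Subgroup.orderOf_dvd_natCard _ (mem_inf.2 ⟨xc, le_normalizer (mem_zpowers x)⟩))
      (by rw [n5, ← inf_relIndex_left, relIndex, ← Nat.card_congr (subgroupOfEquivOfLe inf_le_left).toEquiv,
        card_mul_index]) (b1.md _ xc) (by rw [card_mul_index, h.card]) (hI _ xc)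
  rcases hL G _ x xc h.hx hd with k | ⟨p, Q, hp, q1, q2, q3, q4⟩ | ⟨L, l1, l2, k⟩
  · rw [n5, relIndex_eq_one.2 k] at n36
    exact absurd n36 (by decide)
  · have := (b1.dv _ Q p hp xc q1 q2 q3 q4).1
    rw [n36] at this
    rcases hp with rfl | rfl <;> exact absurd this (by decide)
  · have e : ∀ {n m}, Cp x L n m → m = 36 := fun k => by rw [← k.num, ← (b1.nl _ L k.mem l1 l2).1, n36]
    rcases k with k | k | k
    · exact absurd (e k) (by decide)
    · refine ⟨L, Y, c, k, fun g hg => ?_, cY, cm, c3, le.trans Pc, l2⟩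
      obtain ⟨n, hn⟩ := hY.isPGroup ⟨g, hg⟩
      exact b2.a6 L g k (l2 (Pc (le hg))) (mem_centralizer_singleton_iff.1 (hY.le hg)) ⟨n, congrArg Subtype.val hn⟩
    · exact absurd (e k) (by decide)

end CL.J3O
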