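/-
A simple group of order 50232960: an involution centraliser of order 1920 is an extension of a group of order 32
by `A₅`.
-/
import Cfsg.Agent.J3O.Defs
import Cfsg.Agent.Grp.Primitive
import Cfsg.Agent.S0494

set_option autoImplicit false

open Cfsg Subgroup CL.Spor CL.Spor.MO CL.Grp
open scoped Pointwise

namespace CL.J3O

universe u

variable {G : Type u} [Group G] [Finite G]

omit [Finite G] in
theorem A6_cz (x : G) : 𝒞(zpowers x) = 𝒵(x) := by rw [zpowers_eq_closure, centralizer_closure]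

omit [Finite G] in
theorem A6_conj {x : G} {v e : ℕ} (h : Gp x v e) (g : G) : Gp (g * x * g⁻¹) v e := by
  have e1 : zpowers (g * x * g⁻¹) = MulAut.conj g • zpowers x := by
    rw [conj_smul_eq_map, MonoidHom.map_zpowers]; rfl
  refine ⟨h.card, ((MulAut.conj g).orderOf_eq x).trans h.hx, ?_, ?_, h.inv⟩
  · rw [← A6_cz, e1, centralizer_conj_smul, card_conj_smul, A6_cz, h.hc]
  · rw [e1, normalizer_conj_smul, card_conj_smul, h.hn]

theorem A6_pg {x : G} (h : orderOf x = 5) : IsPGroup 5 (zpowers x) :=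
  IsPGroup.of_card (n := 1) (by rw [Nat.card_zpowers, h, pow_one])

theorem A6_simple (hL : LS.{u}) (h1 : B1.{u}) (hc : Nat.card G = 60) {b : G} (hb : orderOf b = 5)
    (hn : ¬ (zpowers b).Normal) : IsSimpleGroup G := by
  have : Nontrivial G := Finite.one_lt_card_iff_nontrivial.1 (by omega)
  have B := h1 G b hb (by rw [hc]; decide)
  rcases hL G ⊤ b (mem_top b) hb (by rw [card_top, hc]; decide) with h | ⟨p, Q, hp, k1, k2, k3, k4⟩ | ⟨L, -, -, h⟩
  · exact absurd (normalizer_eq_top_iff.1 (top_le_iff.1 h)) hn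
  · have := (Dvd.intro _ rfl).trans ((B.dv ⊤ Q p hp (mem_top b) k1 k2 k3 k4).2.trans (hc ▸ Q.card_subgroup_dvd_card))
    rcases hp with rfl | rfl <;> exact absurd this (by decide)
  have k : ∀ {n m}, Cp b L n m → n ∣ Nat.card L := fun h => h.idx ▸ relIndex_dvd_card _ _
  have k' := hc ▸ L.card_subgroup_dvd_card
  rcases h with h | h | h
  · obtain rfl : L = ⊤ := eq_top_of_card_eq L ((Nat.dvd_antisymm k' (k h)).trans hc.symm)
    have h2 := card_mul_relIndex (le_top : 𝒞((⊤ : Subgroup G)) ≤ ⊤)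
    rw [h.idx, card_top, hc] at h2
    have h3 : 𝒞((⊤ : Subgroup G)) = ⊥ := card_eq_one.1 (by omega)
    exact ⟨fun N _ => (h.qs N le_top le_normalizer_of_normal).symm.imp_left fun e => le_bot_iff.1 (h3 ▸ e)⟩
  · exact absurd ((k h).trans k') (by decide)
  · exact absurd ((k h).trans k') (by decide)

theorem st_of [IsSimpleGroup G] (hL : LS.{u}) (h1 : B1.{u}) {x : G} (h : Gp x 6 2) {z : G} (hz : orderOf z = 2)
    (hc : cc z = 1920) : ∃ y Q, St z y Q := by
  have : Fact (Nat.Prime 5) := ⟨by norm_num⟩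
  obtain ⟨y, hy, h⟩ : ∃ y ∈ 𝒵(z), Gp y 6 2 := by
    obtain ⟨y, hy⟩ := exists_prime_orderOf_dvd_card' (G := 𝒵(z)) 5 (by rw [hc]; decide)
    rw [← orderOf_coe] at hy
    have h2 := card_mul_relIndex (le_top : zpowers (y : G) ≤ ⊤)
    rw [Nat.card_zpowers, hy, card_top, h.card] at h2
    have hS : IsSylowIn 5 (zpowers (y : G)) ⊤ := ⟨le_top, A6_pg hy, by omega⟩
    obtain ⟨g, -, hg⟩ := hS.exists_conj_le (A6_pg h.hx) le_top
    exact ⟨_, zpowers_le.2 y.2 (hg (conj_mem_conj_smul g (mem_zpowers x))), A6_conj h g⟩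
  have B := h1 G y h.hx (by rw [h.card]; decide)
  have a1 := card_inf_mul_relIndex 𝒩(zpowers y) 𝒵(z)
  have a2 : Nat.card ↥(𝒩(zpowers y) ⊓ 𝒵(z)) ∣ 60 := (card_dvd_of_le inf_le_left).trans h.hn.dvd
  have a3 := B.md _ hy
  rw [hc] at a1
  change _ * n5 y 𝒵(z) = _ at a1
  have a4 : Nat.card ↥(𝒩(zpowers y) ⊓ 𝒵(z)) = 20 ∧ n5 y 𝒵(z) = 96 := by
    generalize Nat.card ↥(𝒩(zpowers y) ⊓ 𝒵(z)) = a at a1 a2
    have := Nat.le_of_dvd (by norm_num) a2
    interval_cases a <;> omega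
  have zH : z ∈ 𝒵(z) := mem_centralizer_singleton_iff.2 rfl
  have cH : ∀ K : Subgroup G, K ≤ 𝒵(z) → zpowers z ≤ 𝒞(K) := fun K hK =>
    le_centralizer_iff.1 (hK.trans (A6_cz z).ge)
  obtain ⟨Q, hQ, zQ, pQ, nQ, yQ⟩ : ∃ Q : Subgroup G, Q ≤ 𝒵(z) ∧ z ∈ Q ∧ IsPGroup 2 Q ∧ 𝒵(z) ≤ 𝒩(Q) ∧ y ∉ 𝒞(Q) := by
    rcases hL G 𝒵(z) y hy h.hx (by rw [hc]; decide) with k | ⟨p, Q, hp, k1, k2, k3, k4⟩ | ⟨L, k1, k2, k⟩
    · have := relIndex_eq_one.2 k
      change n5 y 𝒵(z) = 1 at this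
      omega
    · rcases hp with rfl | rfl
      · refine ⟨zpowers z ⊔ Q, sup_le (zpowers_le.2 zH) k1, mem_sup_left (mem_zpowers z), IsPGroup.to_sup_of_normal_right'
          (IsPGroup.of_card (n := 1) (by rw [Nat.card_zpowers, hz, pow_one])) k2
          ((cH Q k1).trans (centralizer_le_normalizer _)),
          (le_inf ((A6_cz z).ge.trans (centralizer_le_normalizer _)) k3).trans
            (normalizer_inf_normalizer_le_normalizer_sup _ _),
          fun e => k4 (centralizer_le (le_sup_right : Q ≤ zpowers z ⊔ Q) e)⟩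
      · have := (B.dv _ Q 3 (.inr rfl) hy k1 k2 k3 k4).1
        rw [a4.2] at this
        exact absurd this (by decide)
    · rcases k with k | k | k <;>
      · have := (B.nl _ L k.mem k1 k2).1
        rw [k.num] at this
        omega
  have zy : z ∈ 𝒵(y) := mem_centralizer_singleton_iff.2 (mem_centralizer_singleton_iff.1 hy).symm
  have hle : zpowers z ≤ Q ⊓ 𝒵(y) := zpowers_le.2 ⟨zQ, zy⟩
  have b1 : Nat.card ↥(Q ⊓ 𝒵(y)) = 2 := by
    obtain ⟨n, hn⟩ := IsPGroup.iff_card.1 (pQ.to_le (inf_le_left : Q ⊓ 𝒵(y) ≤ Q))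
    have c1 : Nat.card ↥(Q ⊓ 𝒵(y)) ∣ 30 := (card_dvd_of_le inf_le_right).trans h.hc.dvd
    have c2 := card_dvd_of_le hle
    rw [Nat.card_zpowers, hz] at c2
    rcases n with _ | _ | n
    · omega
    · exact hn
    · rw [hn, pow_succ, pow_succ, mul_assoc] at c1
      exact absurd ((Dvd.intro_left _ rfl).trans c1) (by decide)
  have b2 : Nat.card Q = 32 := by
    obtain ⟨n, hn⟩ := IsPGroup.iff_card.1 pQ
    have c1 := (B.dv _ Q 2 (.inl rfl) hy hQ pQ nQ yQ).2
    have c2 := card_modEq_card_inf_centralizer (A6_pg h.hx) (zpowers_le.2 (nQ hy))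
    have c3 : Nat.card Q ∣ 1920 := hc ▸ card_dvd_of_le hQ
    rw [A6_cz, b1, hn] at c2
    rw [b1, hn] at c1
    rw [hn] at c3 ⊢
    have c4 : n < 8 := lt_of_not_ge fun k => absurd ((pow_dvd_pow 2 k).trans c3) (by decide)
    interval_cases n <;> first | rfl | exact absurd c1 (by decide) | exact absurd c2 (by decide)
  have e : zpowers z = Q ⊓ 𝒵(y) := eq_of_le_of_card_ge hle (by rw [b1, Nat.card_zpowers, hz])
  have := (normal_subgroupOf_iff_le_normalizer hQ).2 nQ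
  have cB : Nat.card (𝒵(z) ⧸ Q.subgroupOf 𝒵(z)) = 60 := by
    have := card_mul_relIndex hQ
    rw [b2, hc] at this
    change Q.relIndex 𝒵(z) = 60
    omega
  let π := QuotientGroup.mk' (Q.subgroupOf 𝒵(z))
  have hπ : Function.Surjective π := QuotientGroup.mk'_surjective _
  have hb : orderOf (π ⟨y, hy⟩) = 5 := by
    refine orderOf_eq_prime ?_ fun k => ?_
    · rw [← map_pow, show (⟨y, hy⟩ : 𝒵(z)) ^ 5 = 1 from Subtype.ext (h.hx ▸ pow_orderOf_eq_one y), map_one]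
    · have := Q.orderOf_dvd_natCard (mem_subgroupOf.1 ((QuotientGroup.eq_one_iff (⟨y, hy⟩ : 𝒵(z))).1 k))
      rw [b2, show orderOf _ = 5 from h.hx] at this
      exact absurd this (by decide)
  have := A6_simple hL h1 cB hb fun hn => by
    have k1 := (zpowers (π ⟨y, hy⟩)).card_mul_index
    have k2 := ((zpowers (π ⟨y, hy⟩)).comap π).card_mul_index
    rw [index_comap_of_surjective _ hπ, hc] at k2
    rw [Nat.card_zpowers, hb, cB] at k1
    have k3 := (B.nl 𝒵(z) (((zpowers (π ⟨y, hy⟩)).comap π).map 𝒵(z).subtype) ⟨⟨y, hy⟩, mem_zpowers _, rfl⟩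
      (map_subtype_le _) fun g hg => mem_normalizer_fintype (by
        rintro _ ⟨k, hk, rfl⟩
        exact ⟨_, (hn.comap π).conj_mem k hk ⟨g, hg⟩, rfl⟩)).1
    have k4 := relIndex_dvd_card 𝒩(zpowers y) (((zpowers (π ⟨y, hy⟩)).comap π).map 𝒵(z).subtype)
    rw [card_map_of_injective 𝒵(z).subtype_injective, show Nat.card ((zpowers (π ⟨y, hy⟩)).comap π) = 160 by
      rw [show (zpowers (π ⟨y, hy⟩)).index = 12 by omega] at k2; omega] at k4
    rw [a4.2] at k3
    exact absurd (k3 ▸ k4 : 96 ∣ 160) (by decide)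
  obtain ⟨f⟩ := Cfsg.Agent.S0494.result cB
  refine ⟨y, Q, h.hx, hy, zQ, hQ, b2, fun q hq k => ?_, f.toMonoidHom.comp π, f.surjective.comp hπ, ?_⟩
  · obtain ⟨n, rfl⟩ := e.ge (⟨hq, mem_centralizer_singleton_iff.2 k⟩ : q ∈ Q ⊓ 𝒵(y))
    have h2 : z ^ (2 : ℤ) = 1 := by rw [zpow_ofNat, ← hz, pow_orderOf_eq_one]
    rcases Int.even_or_odd' n with ⟨m, rfl | rfl⟩
    · left; simp only [zpow_mul, h2, one_zpow]
    · right; simp only [zpow_add, zpow_mul, h2, one_zpow, zpow_one, one_mul]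
  · rw [← MonoidHom.comap_ker, (MonoidHom.ker_eq_bot_iff _).2 f.injective, MonoidHom.comap_bot,
      QuotientGroup.ker_mk']

end CL.J3O
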