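/-
A simple group of order 50232960: the component of type `A₅` when `|C(x)| = 480` (job J3O-96A).
-/
import Cfsg.Agent.J3O.Defs
import Cfsg.Agent.Grp.PGroupBasic

set_option autoImplicit false

open Cfsg Subgroup CL.Spor CL.Spor.MO CL.Grp
open scoped commutatorElement

namespace CL.J3O

universe u

variable {G : Type u} [Group G] [Finite G]

omit [Finite G] in
private theorem a96_norm {x g : G} (h : g * x * g⁻¹ = x ∨ g * x * g⁻¹ = x⁻¹) : g ∈ 𝒩(zpowers x) := by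
  rw [← conj_smul_eq_self_iff, conj_smul_eq_map, MonoidHom.map_zpowers]
  rcases h with h | h
  · exact congrArg zpowers h
  · exact (congrArg zpowers h).trans zpowers_inv

/-- a subgroup of index four of a group of order `128` contains a central involution -/
private theorem a96_central {R S : Subgroup G} (hS : IsPGroup 2 S) (h : R ≤ S) (cR : Nat.card R = 32)
    (cS : Nat.card S = 128) : ∃ z ∈ R, orderOf z = 2 ∧ S ≤ 𝒵(z) := by
  have h4 : (R.subgroupOf S).index = 4 := by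
    have := card_mul_relIndex h
    rw [cR, cS, relIndex] at this
    omega
  have h1 : (R.subgroupOf S).normalCore.index ∣ (R.subgroupOf S).index.factorial := by
    rw [normalCore_eq_ker, index_ker, index_eq_card, ← Nat.card_perm]
    exact card_subgroup_dvd_card (MulAction.toPermHom S (S ⧸ R.subgroupOf S)).range
  obtain ⟨z, z1, z2, z3, z4⟩ := exists_central_mod_of_not_le hS (N := ⊥) (M := (R.subgroupOf S).normalCore) fun e => by
    rw [le_bot_iff.1 e, index_bot, h4, cS] at h1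
    exact absurd h1 (by decide)
  refine ⟨z, normalCore_le (R.subgroupOf S) z1, ?_, fun g hg => mem_centralizer_singleton_iff.2 ?_⟩
  · rw [orderOf_coe]; exact orderOf_eq_prime z3 z2
  · exact (congrArg Subtype.val (commutatorElement_eq_one_iff_mul_comm.1 (z4 ⟨g, hg⟩))).symm

theorem s96_of (hL : LS.{u}) (h1 : B1.{u}) (h2 : B2.{u}) {x : G} (h : Gp x 96 2)
    (h81 : ∀ r : G, orderOf r = 2 → 5 ∣ cc r → ¬ 81 ∣ cc r) : ∃ L R z, S96 x L R z := by
  have b1 := h1 G x h.hx (by rw [h.card]; decide)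
  have b2 := h2 G x h.hx (by rw [h.card]; decide)
  have CN : 𝒵(x) ≤ 𝒩(zpowers x) := fun g hg =>
    a96_norm (Or.inl (by rw [mem_centralizer_singleton_iff.1 hg, mul_inv_cancel_right]))
  have i2 : (𝒵(x).subgroupOf 𝒩(zpowers x)).index = 2 := by
    have := card_mul_relIndex CN
    rw [h.hc, h.hn, relIndex] at this
    omega
  obtain ⟨T, hT⟩ := exists_isSylowIn 2 𝒩(zpowers x)
  have hR := hT.inf_of_normalized CN ((normal_subgroupOf_iff_le_normalizer CN).1 (normal_of_index_eq_two i2))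
  obtain ⟨S, hS, TS⟩ := exists_isSylowIn_ge hT.isPGroup le_top
  have cT : Nat.card T = 64 := by rw [hT.card_eq_pow, h.hn]; decide +kernel
  have cR : Nat.card ↥(T ⊓ 𝒵(x)) = 32 := by rw [hR.card_eq_pow, h.hc]; decide +kernel
  have cS : Nat.card S = 128 := by rw [hS.card_eq_pow, card_top, h.card]; decide +kernel
  obtain ⟨z, zR, hz, Sz⟩ := a96_central hS.isPGroup (inf_le_left.trans TS) cR cS
  have xz : x ∈ 𝒵(z) := mem_centralizer_singleton_iff.2 (mem_centralizer_singleton_iff.1 zR.2).symm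
  have n6 : n5 x 𝒵(z) = 6 := by
    have e := card_mul_relIndex (inf_le_right : 𝒩(zpowers x) ⊓ 𝒵(z) ≤ 𝒵(z))
    rw [inf_relIndex_right] at e
    have d1 : 64 ∣ Nat.card ↥(𝒩(zpowers x) ⊓ 𝒵(z)) := cT ▸ card_dvd_of_le (le_inf hT.le (TS.trans Sz))
    have d2 : 5 ∣ Nat.card ↥(𝒩(zpowers x) ⊓ 𝒵(z)) :=
      h.hx ▸ orderOf_dvd_natCard _ ⟨le_normalizer (mem_zpowers x), xz⟩
    have d3 : Nat.card ↥(𝒩(zpowers x) ⊓ 𝒵(z)) ∣ 960 := (card_dvd_of_le inf_le_left).trans h.hn.dvd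
    have d4 : 128 ∣ Nat.card 𝒵(z) := cS ▸ card_dvd_of_le Sz
    have d5 := h.inv z hz
    have d6 := h81 z hz (h.hx ▸ orderOf_dvd_natCard _ xz)
    have d7 := b1.md _ xz
    change ¬ 81 ∣ Nat.card 𝒵(z) at d6
    rw [← e] at d4 d5 d6
    change _ * n5 x 𝒵(z) ∣ _ at d5
    change _ ∣ _ * n5 x 𝒵(z) at d4
    change ¬ _ ∣ _ * n5 x 𝒵(z) at d6
    generalize n5 x 𝒵(z) = k at *
    generalize Nat.card ↥(𝒩(zpowers x) ⊓ 𝒵(z)) = a at *
    have a1 : a = 320 ∨ a = 960 := (by decide +kernel : ∀ a ∈ Nat.divisors 960, 64 ∣ a → 5 ∣ a → a = 320 ∨ a = 960) a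
      (Nat.mem_divisors.2 ⟨d3, by decide⟩) d1 d2
    refine (by decide +kernel : ∀ k ∈ Nat.divisors 486, 2 ∣ k → k % 5 = 1 → ¬ 81 ∣ k → k = 6) k
      (Nat.mem_divisors.2 ⟨?_, by decide⟩) (by rcases a1 with rfl | rfl <;> omega) d7 fun m => d6 (m.mul_left a)
    refine Nat.dvd_of_mul_dvd_mul_left (show 0 < 320 by decide) (Dvd.dvd.trans (Nat.mul_dvd_mul_right ?_ k) d5)
    omega
  obtain ⟨L, LH, HL, cp⟩ : ∃ L : Subgroup G, L ≤ 𝒵(z) ∧ 𝒵(z) ≤ 𝒩(L) ∧ Cp x L 60 6 := by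
    rcases hL G _ x xz h.hx (h.inv z hz) with m | ⟨p, Q, hp, q1, q2, q3, q4⟩ | ⟨L, l1, l2, m⟩
    · exact absurd ((relIndex_eq_one.2 m).symm.trans n6) (by decide)
    · have := (b1.dv _ Q p hp xz q1 q2 q3 q4).1
      rw [n6] at this
      rcases hp with rfl | rfl <;> exact absurd this (by decide)
    · refine ⟨L, l1, l2, m.resolve_right ?_⟩
      rintro (m | m) <;> exact absurd (n6.symm.trans ((b1.nl _ L m.mem l1 l2).1.trans m.num)) (by decide)
  have k1 : ∀ g ∈ 𝒩(L), g ∈ 𝒵(x) → ∃ l ∈ L, ∃ w ∈ 𝒞(L), g = l * w := fun g hg hx => by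
    obtain ⟨i, hi⟩ := b2.a5 L g cp hg (mem_centralizer_singleton_iff.1 hx)
    refine ⟨(x ^ i)⁻¹, inv_mem (pow_mem cp.mem i), _, hi, ?_⟩
    rw [hi _ (inv_mem (pow_mem cp.mem i)), mul_inv_cancel_right]
  refine ⟨L, _, z, cp, fun n hn => ?_, fun r hr => ?_, cR, zR, hz, (inf_le_left.trans TS).trans Sz, HL⟩
  · obtain ⟨l, hl, w, hw, rfl⟩ := (b1.nl _ L cp.mem le_normalizer le_rfl).2 n hn
    by_cases hx : w ∈ 𝒵(x)
    · obtain ⟨l', hl', c, hc, rfl⟩ := k1 w hw.1 hx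
      exact ⟨_, mul_mem hl hl', c, hc, (mul_assoc _ _ _).symm⟩
    obtain ⟨u, hu, e⟩ := cp.inv
    have ux : u⁻¹ ∉ 𝒵(x) := fun m => by
      rw [mem_centralizer_singleton_iff.1 (inv_mem_iff.1 m), mul_inv_cancel_right, eq_inv_iff_mul_eq_one, ← sq] at e
      exact absurd (h.hx ▸ orderOf_dvd_of_pow_eq_one e) (by decide)
    obtain ⟨l', hl', c, hc, e'⟩ := k1 (u⁻¹ * w) (mul_mem (inv_mem (le_normalizer hu)) hw.1)
      ((mul_mem_iff_of_index_two i2 (a := ⟨u⁻¹, inv_mem (a96_norm (Or.inr e))⟩) (b := ⟨w, hw.2⟩)).2 (iff_of_false ux hx))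
    exact ⟨_, mul_mem hl (mul_mem hu hl'), c, hc, by rw [mul_assoc, mul_assoc, ← e', mul_inv_cancel_left]⟩
  · have c : Commute r x := mem_centralizer_singleton_iff.1 hr.2
    obtain ⟨i, hi⟩ := b2.a5 L r cp (HL (Sz (TS hr.1))) c
    have h5 := pow_mem hi 5
    rw [(c.pow_right i).mul_pow, ← pow_mul, mul_comm i, pow_mul, ← h.hx, pow_orderOf_eq_one, one_pow, mul_one,
      h.hx] at h5
    obtain ⟨m, hm⟩ := exists_pow_eq_self_of_coprime (x := r) (n := 5)
      (Nat.Coprime.coprime_dvd_right (cR ▸ orderOf_dvd_natCard _ hr) (by decide))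
    exact hm ▸ pow_mem h5 m

end CL.J3O
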