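/-
A simple group of order 50232960: counting Sylow 5-subgroups.
-/
import Cfsg.Agent.J3O.Defs
import Cfsg.Agent.Even.Amb2
import Cfsg.Agent.Grp.Primitive

set_option autoImplicit false

namespace CL.J3B1

open Cfsg Subgroup CL.Even CL.Grp
open CL.J3O (n5 Cp)
open scoped commutatorElement Pointwise

universe u

variable {G : Type u} [Group G] [Finite G] {x : G} {X L Q : Subgroup G} {n m : ℕ}

local instance fact5 : Fact (Nat.Prime 5) := ⟨Nat.prime_five⟩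

omit [Finite G] in
theorem ncard_cj (H K : Subgroup G) : {L : Subgroup G | ∃ g ∈ H, cj g K = L}.ncard = 𝒩(K).relIndex H := by
  let _ : MulAction H (Subgroup G) := MulAction.compHom (Subgroup G) ((MulAut.conj : G →* MulAut G).comp H.subtype)
  have h := MulAction.index_stabilizer H K
  have e1 : MulAction.stabilizer H K = 𝒩(K).subgroupOf H := by
    ext h
    rw [MulAction.mem_stabilizer_iff, mem_subgroupOf, ← cj_eq_iff_mem]; rfl
  have e2 : MulAction.orbit H K = {L : Subgroup G | ∃ g ∈ H, cj g K = L} := by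
    ext y
    exact ⟨fun ⟨h, e⟩ => ⟨h, h.2, e⟩, fun ⟨h, hh, e⟩ => ⟨⟨h, hh⟩, e⟩⟩
  rw [e1, e2] at h
  exact h.symm

theorem ri {M : Subgroup G} (h : M ≤ 𝒩(Q)) : M.relIndex (M ⊔ Q) = M.relIndex Q := by
  have h1 := card_sup_mul_card_inf h
  rw [← card_mul_relIndex (le_sup_left : M ≤ M ⊔ Q), ← card_inf_mul_relIndex M Q, mul_assoc, mul_comm (M.relIndex _)] at h1
  exact Nat.eq_of_mul_eq_mul_left Nat.card_pos (Nat.eq_of_mul_eq_mul_left Nat.card_pos h1)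

omit [Finite G] in
theorem ce (c : Cp x L n m) {g : G} (hg : g ∈ 𝒩(L)) (h : ∀ l ∈ L, g * l * g⁻¹ * l⁻¹ ∈ 𝒞(L)) : g ∈ 𝒞(L) := by
  have h1 : ⁅L, L⁆ ≤ centralizer {g} := commutator_le.2 fun a ha b hb => by
    have hd : g * b * g⁻¹ * b⁻¹ ∈ L := mul_mem (conj_mem hg hb) (inv_mem hb)
    have e1 := conj_eq_of_mem (h a ha) (mul_mem (mul_mem (mul_mem ha hd) hb) (inv_mem ha))
    have e2 := conj_eq_of_mem (h b hb) (mul_mem (mul_mem (mul_mem ha hb) (inv_mem ha)) (inv_mem hb))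
    have e3 := comm_of_mem (h b hb) ha
    rw [mem_centralizer_singleton_iff, eq_comm, ← mul_inv_eq_iff_eq_mul, commutatorElement_def]
    calc _ = g * a * g⁻¹ * a⁻¹ * (a * (g * b * g⁻¹ * b⁻¹) * b * a⁻¹) * (g * a * g⁻¹ * a⁻¹)⁻¹ * b⁻¹ *
          (g * b * g⁻¹ * b⁻¹)⁻¹ := by group
      _ = g * b * g⁻¹ * b⁻¹ * (a * b * a⁻¹ * b⁻¹) * (g * b * g⁻¹ * b⁻¹)⁻¹ := by rw [e1, e3]; group
      _ = _ := e2
  rw [c.perf] at h1
  exact fun l hl => mem_centralizer_singleton_iff.1 (h1 hl)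

variable (hx : orderOf x = 5)
include hx

omit [Finite G] in
theorem p5 : IsPGroup 5 (zpowers x) := IsPGroup.of_card (n := 1) (by rw [Nat.card_zpowers, hx, pow_one])

omit [Finite G] in
theorem le (c : Cp x L n m) {L₁ : Subgroup G} (h : x ∈ L₁) (hn : L ≤ 𝒩(L₁)) : L ≤ L₁ := by
  refine (c.qs (L ⊓ L₁) inf_le_left (le_norm_inf le_normalizer hn)).elim (fun e => e.ge.trans inf_le_right) fun e => ?_
  obtain ⟨u, hu, e1⟩ := c.inv
  rw [comm_of_mem (e ⟨c.mem, h⟩) hu, mul_inv_cancel_right, eq_inv_iff_mul_eq_one, ← pow_two] at e1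
  exact absurd (hx ▸ orderOf_dvd_of_pow_eq_one e1) (by norm_num)

theorem dv {p : ℕ} (hp : p = 2 ∨ p = 3) (h : x ∈ X) (hQ : Q ≤ X) (hP : IsPGroup p Q) (hn : X ≤ 𝒩(Q)) (hc : x ∉ 𝒞(Q)) :
    p ^ 4 ∣ n5 x X ∧ p ^ 4 * Nat.card ↥(Q ⊓ centralizer {x}) ∣ Nat.card Q := by
  have pp : Fact p.Prime := ⟨by rcases hp with rfl | rfl <;> norm_num⟩
  have h5 : (5 : ℕ).Coprime p := by rcases hp with rfl | rfl <;> norm_num
  have e1 : 𝒩(zpowers x) ⊓ Q = Q ⊓ centralizer {x} := by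
    refine le_antisymm ?_ (le_inf (inf_le_right.trans ?_) inf_le_left)
    · refine fun q hq => ⟨hq.2, ?_⟩
      have h1 : q * x * q⁻¹ * x⁻¹ ∈ zpowers x := mul_mem (conj_mem hq.1 (mem_zpowers x)) (inv_mem (mem_zpowers x))
      have h2 : q * x * q⁻¹ * x⁻¹ ∈ Q := by
        rw [mul_assoc, mul_assoc, ← mul_assoc x]; exact mul_mem hq.2 (conj_mem (hn h) (inv_mem hq.2))
      have := eq_one_of_coprime_of_mem hP (h5.coprime_dvd_left (hx ▸ orderOf_dvd_of_mem_zpowers h1)) h2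
      exact mem_centralizer_singleton_iff.2 (mul_inv_eq_iff_eq_mul.1 (mul_inv_eq_one.1 this))
    · rw [← centralizer_closure, ← zpowers_eq_closure]; exact cent_le_norm _
  have e2 := card_inf_mul_relIndex 𝒩(zpowers x) Q
  have e3 := card_modEq_card_inf_centralizer (p5 hx) (zpowers_le.2 (hn h))
  rw [zpowers_eq_closure, centralizer_closure, ← e2, e1] at e3
  rw [e1] at e2
  obtain ⟨k, hk⟩ := hP.index (𝒩(zpowers x).subgroupOf Q)
  obtain ⟨j, hj⟩ := (hP.to_le (inf_le_left (b := centralizer {x}))).exists_card_eq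
  have e4 : 𝒩(zpowers x).relIndex Q ≡ 1 [MOD 5] :=
    Nat.ModEq.cancel_left_of_coprime (hj ▸ h5.pow_right j) (by rwa [mul_one])
  have e5 : p ^ 4 ∣ 𝒩(zpowers x).relIndex Q := by
    have h0 : 𝒩(zpowers x).relIndex Q ≠ 1 := fun e => hc fun q hq =>
      mem_centralizer_singleton_iff.1 (e1.le ⟨relIndex_eq_one.1 e hq, hq⟩).2
    rw [relIndex, hk] at h0 e4 ⊢
    refine pow_dvd_pow p (not_lt.1 fun h4 => ?_)
    rcases hp with rfl | rfl <;> interval_cases k <;> simp_all [Nat.ModEq]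
  refine ⟨e5.trans ?_, by rw [← e2, mul_comm]; exact Nat.mul_dvd_mul_left _ e5⟩
  rw [n5, ← inf_relIndex_right _ X, ← relIndex_mul_relIndex _ _ X (le_sup_left (b := Q)) (sup_le inf_le_right hQ),
    ri (inf_le_right.trans hn), ← inf_relIndex_right (_ ⊓ X), inf_assoc, inf_eq_right.2 hQ, inf_relIndex_right]
  exact dvd_mul_right _ _

theorem eq (c : Cp x L n m) (hL : L ≤ X) (h : n5 x X = m) : X ≤ 𝒩(L) := by
  have e1 : {K : Subgroup G | ∃ g ∈ L, cj g (zpowers x) = K} = {K : Subgroup G | ∃ g ∈ X, cj g (zpowers x) = K} :=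
    Set.eq_of_subset_of_ncard_le (fun _ ⟨g, hg, e⟩ => ⟨g, hL hg, e⟩) (by
      rw [ncard_cj, ncard_cj]; exact (h.trans c.num.symm).le)
  have h1 : X ≤ 𝒩(closure {y | ∃ g ∈ X, g * x * g⁻¹ = y}) := by
    rw [le_normalizer_closure_iff]
    rintro g hg _ ⟨k, hk, rfl⟩
    exact subset_closure ⟨g * k, mul_mem hg hk, by group⟩
  have h2 : x ∈ closure {y | ∃ g ∈ X, g * x * g⁻¹ = y} := Subgroup.subset_closure ⟨1, one_mem _, by group⟩
  rwa [le_antisymm (le hx c h2 (hL.trans h1)) ((closure_le _).2 ?_)]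
  rintro _ ⟨g, hg, rfl⟩
  obtain ⟨l, hl, e⟩ := e1.ge ⟨g, hg, rfl⟩
  exact cj_le_of_mem (zpowers_le.2 c.mem) hl (e.ge (conj_mem_cj g (mem_zpowers x)))

variable (h25 : ¬ 25 ∣ Nat.card G)
include h25

omit [Finite G] in
theorem syl (h : x ∈ X) : IsSylowIn 5 (zpowers x) X := by
  refine ⟨zpowers_le.2 h, p5 hx, fun hd => h25 (Dvd.dvd.trans ?_ (card_subgroup_dvd_card X))⟩
  rw [← card_mul_relIndex (zpowers_le.2 h), Nat.card_zpowers, hx]
  exact Nat.mul_dvd_mul_left 5 hd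

theorem md (h : x ∈ X) : n5 x X % 5 = 1 := by
  have h1 := card_sylow_modEq_one 5 X
  rwa [Sylow.card_eq_index_normalizer (syl hx h25 h).toSylow, ← Sylow.coe_coe, IsSylowIn.coe_toSylow,
    ← subgroupOf_normalizer_eq (zpowers_le.2 h)] at h1

theorem nl (h : x ∈ L) (hL : L ≤ X) (hn : X ≤ 𝒩(L)) :
    n5 x X = n5 x L ∧ ∀ n ∈ X, ∃ l ∈ L, ∃ w ∈ X ⊓ 𝒩(zpowers x), n = l * w := by
  have h1 : ∀ n ∈ X, ∃ l ∈ L, ∃ w ∈ X ⊓ 𝒩(zpowers x), n = l * w := fun n hn' => by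
    obtain ⟨l, hl, e⟩ := (syl hx h25 h).frattini hn hn'
    exact ⟨l⁻¹, inv_mem hl, l * n, ⟨mul_mem (hL hl) hn', e⟩, by group⟩
  refine ⟨?_, h1⟩
  rw [n5, n5, ← ncard_cj, ← ncard_cj]
  congr 1
  refine Set.Subset.antisymm (fun _ ⟨g, hg, e⟩ => ?_) fun _ ⟨g, hg, e⟩ => ⟨g, hL hg, e⟩
  obtain ⟨l, hl, w, hw, rfl⟩ := h1 g hg
  exact ⟨l, hl, by rwa [cj_mul, cj_eq hw.2] at e⟩

theorem cj' (c : Cp x L n m) {g : G} (h : cj g L ≤ 𝒩(L)) : g ∈ 𝒩(L) := by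
  obtain ⟨k, hk, e⟩ := syl_conj_le (syl hx h25 (le_normalizer c.mem)) (isPGroup_cj (p5 hx) g)
    ((cj_mono g (zpowers_le.2 c.mem)).trans h)
  have h1 : cj g (zpowers x) ≤ L :=
    (cj_le_iff.1 (e.trans (zpowers_le.2 c.mem))).trans (cj_eq (inv_mem hk)).le
  exact mem_norm_of_cj_le (cj_le_iff.2 (le hx c (cj_le_iff.1 h1 (mem_zpowers x)) (by rwa [← cj_norm, ← cj_le_iff])))

end CL.J3B1

namespace CL.J3O

universe u

open J3B1 in
theorem b1 : B1.{u} := fun _ _ _ _ hx h25 =>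
  ⟨fun _ h => md hx h25 h, fun _ _ _ hp h hQ hP hn hc => dv hx hp h hQ hP hn hc, fun _ _ h hL hn => nl hx h25 h hL hn,
    fun _ _ _ _ c hL h => eq hx c hL h, fun _ _ _ _ c h => cj' hx h25 c h, fun _ _ _ _ c hg h => ce c hg h,
    fun _ _ _ _ c h hn => le hx c h hn⟩

end CL.J3O
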