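/-
Automorphisms of components of type `A₅`, `A₆` that centralise an element of order 5.
-/
import Cfsg.Agent.J3O.Defs

set_option autoImplicit false

open Cfsg Subgroup CL.Spor CL.Spor.MO MulAction

namespace CL.J3O

universe u

variable {G : Type u} [Group G] [Finite G] {x g : G} {L : Subgroup G} {n m : ℕ}

omit [Finite G] in
theorem b2_nc (hx : orderOf x = 5) (hL : Cp x L n m) : x ∉ 𝒞(L) := fun h => by
  obtain ⟨u, hu, e⟩ := hL.inv
  rw [mem_centralizer_iff.1 h u hu, mul_inv_cancel_right] at e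
  have : orderOf x ∣ 2 := orderOf_dvd_of_pow_eq_one (by rw [pow_two]; exact mul_eq_one_iff_eq_inv.2 e)
  rw [hx] at this
  omega

omit [Finite G] in
/-- An element of a subgroup `K` normalised by `L` and not containing `L` that normalises `L` centralises `L`. -/
theorem b2_ker (H : Bas1 G x) (hL : Cp x L n m) {K : Subgroup G} (h1 : L ≤ 𝒩(K)) (h2 : ¬ L ≤ K) (hg : g ∈ 𝒩(L))
    (hK : g ∈ K) : g ∈ 𝒞(L) := by
  have h3 : L ⊓ K ≤ 𝒞(L) := (hL.qs _ inf_le_left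
    ((le_inf le_normalizer h1).trans inf_normalizer_le_normalizer_inf)).resolve_left fun e => h2 (inf_eq_left.1 e)
  refine H.ce L n m g hL hg fun l hl => h3 ⟨L.mul_mem ((mem_normalizer_iff.1 hg l).1 hl) (L.inv_mem hl), ?_⟩
  rw [mul_assoc, mul_assoc, ← mul_assoc l]
  exact mul_mem hK ((mem_normalizer_iff.1 (h1 hl) _).1 (inv_mem hK))

/-- The action on at most six points. -/
theorem b2_six (hx : orderOf x = 5) (H : Bas1 G x) (hL : Cp x L n m) {M : Subgroup G} (h1 : M.relIndex L ≤ 6)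
    (h2 : ¬ L ≤ M) (hxM : x ∈ M) (hM : g ∈ M) (hg : g ∈ 𝒩(L)) (hc : g * x = x * g) :
    ∃ y ∈ zpowers x, g * y ∈ 𝒞(L) := by
  set p : G ⧸ M := ((1 : G) : G ⧸ M) with hp
  have hs : ∀ a : G, a • p = p ↔ a ∈ M := fun a => by rw [← mem_stabilizer_iff, hp, stabilizer_quotient]
  have hO : (orbit L p).ncard ≤ 6 := by
    rw [← index_stabilizer]
    refine le_of_eq_of_le (congrArg _ ?_) h1
    ext a
    exact hs a
  have hI : ∀ {h : G}, h ∈ 𝒩(L) → h • p ∈ orbit L p → ∀ a ∈ orbit L p, h • a ∈ orbit L p := by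
    rintro h k1 ⟨l', k2⟩ _ ⟨l, rfl⟩
    refine ⟨⟨h * l * h⁻¹, (mem_normalizer_iff.1 k1 l).1 l.2⟩ * l', ?_⟩
    change (l' : G) • p = h • p at k2
    change (h * l * h⁻¹ * l') • p = h • (l : G) • p
    rw [mul_smul, k2, mul_smul, inv_smul_smul, mul_smul]
  have hI' : ∀ {h : G}, h ∈ L → ∀ a ∈ orbit L p, h • a ∈ orbit L p := fun k =>
    hI (le_normalizer k) ⟨⟨_, k⟩, rfl⟩
  have hK : ∀ {h : G}, h ∈ 𝒩(L) → (∀ a ∈ orbit L p, h • a = a) → h ∈ 𝒞(L) := fun k1 k2 => by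
    refine b2_ker H hL (K := fixingSubgroup G (orbit L p)) (fun l hl => mem_normalizer_iff.2 fun y => ?_)
      (fun e => h2 fun l hl => (hs l).1 ((mem_fixingSubgroup_iff G).1 (e hl) p (mem_orbit_self p))) k1
      ((mem_fixingSubgroup_iff G).2 k2)
    simp only [mem_fixingSubgroup_iff, mul_smul]
    refine ⟨fun e a ha => by rw [e _ (hI' (inv_mem hl) a ha), smul_inv_smul], fun e a ha => ?_⟩
    simpa using e _ (hI' hl a ha)
  obtain ⟨a, ha, hxa⟩ : ∃ a ∈ orbit L p, x • a ≠ a := by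
    by_contra! e
    exact b2_nc hx hL (hK (le_normalizer hL.mem) e)
  have hz : zpowers x ≤ M := zpowers_le.2 hxM
  have h5 : (orbit (zpowers x) a).ncard = 5 := by
    rw [← index_stabilizer]
    have := (stabilizer (zpowers x) a).index_dvd_card
    rw [Nat.card_zpowers, hx] at this
    refine ((Nat.dvd_prime (by norm_num)).1 this).resolve_left fun e => hxa ?_
    exact mem_stabilizer_iff.1 ((index_eq_one.1 e).ge (mem_top (⟨x, mem_zpowers x⟩ : zpowers x)))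
  have hne : ∀ {h : G}, h ∈ M → h • a ≠ p := fun k e => hxa (by
    rw [← eq_inv_smul_iff, (hs _).2 (inv_mem k)] at e
    rw [e, (hs _).2 hxM])
  have hT : insert p (orbit (zpowers x) a) = orbit L p := by
    refine Set.eq_of_subset_of_ncard_le (Set.insert_subset (mem_orbit_self p) ?_) ?_
    · rintro _ ⟨y, rfl⟩
      exact hI' (zpowers_le.2 hL.mem y.2) a ha
    · rw [Set.ncard_insert_of_notMem (by rintro ⟨y, e⟩; exact hne (hz y.2) e), h5]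
      exact hO
  obtain ⟨y, hy⟩ := (hT.symm ▸ hI hg (by rw [(hs g).2 hM]; exact mem_orbit_self p) a ha :
    g • a ∈ insert p (orbit (zpowers x) a)).resolve_left (hne hM)
  have hc' : ∀ z ∈ zpowers x, Commute g z := by
    rintro _ ⟨i, rfl⟩
    exact Commute.zpow_right hc i
  refine ⟨y⁻¹, inv_mem y.2, hK (mul_mem hg (le_normalizer (zpowers_le.2 hL.mem (inv_mem y.2)))) fun b hb => ?_⟩
  rcases (hT.symm ▸ hb : b ∈ insert p (orbit (zpowers x) a)) with rfl | ⟨z, rfl⟩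
  · exact (hs _).2 (mul_mem hM (hz (inv_mem y.2)))
  · have e1 : g * (y : G)⁻¹ * z = z * ((y : G)⁻¹ * g) := by
      rw [mul_assoc, (hc' _ (mul_mem (inv_mem y.2) z.2)).eq, ← mul_assoc]
      exact congrArg (· * g) (congrArg Subtype.val (mul_comm' y⁻¹ z))
    change (y : G) • a = g • a at hy
    change (g * (y : G)⁻¹) • (z : G) • a = (z : G) • a
    rw [smul_smul, e1, mul_smul, mul_smul, ← hy, inv_smul_smul]

theorem b2_six' (hx : orderOf x = 5) (H : Bas1 G x) (hL : Cp x L n m) {M : Subgroup G} (h1 : M.relIndex L ≤ 6)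
    (h2 : ¬ L ≤ M) (hxM : x ∈ M) (hM : g ∈ M) (hg : g ∈ 𝒩(L)) (hc : g * x = x * g) {k : ℕ} (hk : k.Coprime 5)
    (hk' : g ^ k = 1) : g ∈ 𝒞(L) := by
  obtain ⟨y, ⟨i, rfl⟩, h3⟩ := b2_six hx H hL h1 h2 hxM hM hg hc
  have h4 := pow_mem h3 k
  rw [(Commute.zpow_right hc i).mul_pow, hk', one_mul] at h4
  have h5 : orderOf (x ^ i) ∣ 5 := hx ▸ orderOf_dvd_of_mem_zpowers ⟨i, rfl⟩
  exact (mul_mem_cancel_right (zpowers_le.2 h4 (mem_zpowers_pow_iff.2 (hk.coprime_dvd_right h5)))).1 h3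

omit [Finite G] in
theorem b2_mem (hc : g * x = x * g) : g ∈ 𝒩(zpowers x) :=
  centralizer_le_normalizer _ (centralizer_zpowers_eq x ▸ mem_centralizer_singleton_iff.2 hc)

theorem b2_a5 (hx : orderOf x = 5) (H : Bas1 G x) (hL : Cp x L 60 6) (hg : g ∈ 𝒩(L)) (hc : g * x = x * g) :
    ∃ i : ℕ, g * x ^ i ∈ 𝒞(L) := by
  obtain ⟨y, h1, h2⟩ := b2_six hx H hL (M := 𝒩(zpowers x)) hL.num.le
    (fun e => absurd ((relIndex_eq_one.2 e).symm.trans hL.num) (by norm_num)) (b2_mem rfl) (b2_mem hc) hg hc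
  obtain ⟨i, rfl⟩ := mem_powers_iff_mem_zpowers.2 h1
  exact ⟨i, h2⟩

theorem b2_a56 (hx : orderOf x = 5) (H : Bas1 G x) {L₁ : Subgroup G} (hL : Cp x L 60 6) (hL₁ : Cp x L₁ 360 36)
    (hle : L ≤ L₁) (hg : g ∈ 𝒩(L₁)) (hc : g ∈ 𝒞(L)) (h2 : g * g = 1) : g ∈ 𝒞(L₁) := by
  have hC : 𝒞(L₁) ≤ 𝒞(L) := centralizer_le hle
  refine b2_six' hx H hL₁ (M := 𝒩(L)) ?_ (fun e => ?_) (le_normalizer hL.mem) (centralizer_le_normalizer _ hc) hg
    (mem_centralizer_iff.1 hc x hL.mem).symm (k := 2) (by norm_num) (by rwa [pow_two])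
  · have h3 := relIndex_inf_mul_relIndex 𝒞(L₁) 𝒩(L) L₁
    rw [inf_eq_left.2 (hC.trans (centralizer_le_normalizer _)), hL₁.idx] at h3
    have h4 : 𝒞(L₁).relIndex (𝒩(L) ⊓ L₁) ≠ 0 := fun e => by simp [e] at h3
    have h5 := relIndex_le_of_le_right (le_inf le_normalizer hle) h4
    have h6 := relIndex_le_of_le_left hC (L := L) (fun e => h4 (relIndex_eq_zero_of_le_right (le_inf le_normalizer hle) e))
    rw [hL.idx] at h6
    have h7 := Nat.mul_le_mul_right (𝒩(L).relIndex L₁) (h6.trans h5)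
    omega
  · rcases hL₁.qs L hle e with rfl | e
    · exact absurd (hL.idx.symm.trans hL₁.idx) (by norm_num)
    · exact b2_nc hx hL₁ (e hL.mem)

/-- The elements of the normaliser that commute with a 3-element modulo the centraliser. -/
theorem b2_fix (hg : g ∈ 𝒩(L)) {k : ℕ} (hk : g ^ 3 ^ k = 1) : ∃ M : Subgroup G,
    (∀ l, l ∈ M ↔ l ∈ 𝒩(L) ∧ g * l * g⁻¹ * l⁻¹ ∈ 𝒞(L)) ∧
    ∀ X : Subgroup G, X ≤ 𝒩(L) → g ∈ 𝒩(X) → 𝒞(L).relIndex X ≡ 𝒞(L).relIndex (M ⊓ X) [MOD 3] := by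
  have : Fact (Nat.Prime 3) := ⟨Nat.prime_three⟩
  set φ := L.normalizerMonoidHom with hφ
  have h0 : ∀ X : Subgroup G, X ≤ 𝒩(L) → 𝒞(L).relIndex X = Nat.card ((X.subgroupOf 𝒩(L)).map φ) := fun X hX => by
    rw [← relIndex_ker, hφ, normalizerMonoidHom_ker, relIndex_subgroupOf hX]
  refine ⟨((𝒵(φ ⟨g, hg⟩)).comap φ).map 𝒩(L).subtype, fun l => ?_, fun X hX hX' => ?_⟩
  · have key : ∀ l : 𝒩(L), l ∈ (𝒵(φ ⟨g, hg⟩)).comap φ ↔ g * l * g⁻¹ * (l : G)⁻¹ ∈ 𝒞(L) := fun l => by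
      rw [mem_comap, mem_centralizer_singleton_iff, eq_comm, ← mul_inv_eq_one, mul_inv_rev, ← mul_assoc, ← map_inv,
        ← map_inv, ← map_mul, ← map_mul, ← map_mul, ← MonoidHom.mem_ker, hφ, normalizerMonoidHom_ker]
      rfl
    exact ⟨by rintro ⟨l, h, rfl⟩; exact ⟨l.2, (key l).1 h⟩, fun h => ⟨⟨l, h.1⟩, (key _).2 h.2, rfl⟩⟩
  · have h1 : orderOf (φ ⟨g, hg⟩) ∣ 3 ^ k := orderOf_dvd_of_pow_eq_one (by
      rw [← map_pow, show (⟨g, hg⟩ : 𝒩(L)) ^ 3 ^ k = 1 from Subtype.ext hk, map_one])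
    obtain ⟨j, -, hj⟩ := (Nat.dvd_prime_pow Nat.prime_three).1 h1
    have h2 := CL.Grp.card_modEq_card_inf_centralizer (K := (X.subgroupOf 𝒩(L)).map φ)
      (IsPGroup.of_card ((Nat.card_zpowers _).trans hj))
      (zpowers_le.2 (le_normalizer_map φ ⟨_, le_normalizer_comap _ hX', rfl⟩))
    rw [h0 X hX, h0 _ (inf_le_right.trans hX)]
    refine h2.trans (congrArg (· % 3) (congrArg (fun Y : Subgroup (MulAut L) => Nat.card Y) ?_))
    rw [centralizer_zpowers_eq]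
    ext a
    constructor
    · rintro ⟨⟨l, h3, rfl⟩, h4⟩
      exact ⟨l, ⟨⟨l, h4, rfl⟩, h3⟩, rfl⟩
    · rintro ⟨l, ⟨⟨l', h3, h5⟩, h4⟩, rfl⟩
      obtain rfl : l' = l := Subtype.ext h5
      exact ⟨⟨l', h4, rfl⟩, h3⟩

theorem b2_a6 (hx : orderOf x = 5) (H : Bas1 G x) (hL : Cp x L 360 36) (hg : g ∈ 𝒩(L)) (hc : g * x = x * g) {k : ℕ}
    (hk : g ^ 3 ^ k = 1) : g ∈ 𝒞(L) := by
  obtain ⟨M, hM, hm⟩ := b2_fix hg hk
  by_cases h1 : L ≤ M
  · exact H.ce L _ _ g hL hg fun l hl => ((hM l).1 (h1 hl)).2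
  have hxM : x ∈ M := (hM x).2 ⟨le_normalizer hL.mem, by rw [hc, mul_inv_cancel_right, mul_inv_cancel]; exact one_mem _⟩
  refine b2_six' hx H hL ?_ h1 hxM ((hM g).2 ⟨hg, by simp⟩) hg hc (Nat.Coprime.pow_left k (by norm_num)) hk
  have hN : 𝒞(L) ≤ 𝒩(zpowers x) := fun a ha => b2_mem (mem_centralizer_iff.1 ha x hL.mem).symm
  have hC : 𝒞(L) ≤ M := fun a ha => (hM a).2 ⟨centralizer_le_normalizer _ ha,
    mul_mem ((normal_subgroupOf_centralizer_normalizer (L : Set G)).conj_mem ⟨a, centralizer_le_normalizer _ ha⟩ ha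
      ⟨g, hg⟩) (inv_mem ha)⟩
  have e1 := relIndex_inf_mul_relIndex 𝒞(L) 𝒩(zpowers x) L
  have e2 := relIndex_inf_mul_relIndex 𝒞(L) M (𝒩(zpowers x) ⊓ L)
  have e3 := relIndex_inf_mul_relIndex 𝒞(L) M L
  have e4 := relIndex_inf_mul_relIndex 𝒞(L) 𝒩(zpowers x) (M ⊓ L)
  have e5 := hm L le_normalizer hg
  have e6 := hm (𝒩(zpowers x) ⊓ L) (inf_le_right.trans le_normalizer)
    (inf_normalizer_le_normalizer_inf ⟨le_normalizer (b2_mem hc), hg⟩)
  have e7 : 𝒩(zpowers x).relIndex (M ⊓ L) % 5 = 1 := H.md (M ⊓ L) ⟨hxM, hL.mem⟩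
  have e8 : 𝒩(zpowers x).relIndex L = 36 := hL.num
  have e9 : 𝒞(L).relIndex (M ⊓ (𝒩(zpowers x) ⊓ L)) ≠ 1 := fun e =>
    b2_nc hx hL (relIndex_eq_one.1 e ⟨hxM, b2_mem rfl, hL.mem⟩)
  rw [inf_eq_left.2 hN] at e1 e4
  rw [inf_eq_left.2 hC] at e2 e3
  rw [inf_left_comm] at e4
  rw [hL.idx] at e1 e3 e5
  rw [e8] at e1
  rw [show 𝒞(L).relIndex (𝒩(zpowers x) ⊓ L) = 10 by omega] at e2 e6
  have h10 : 𝒞(L).relIndex (M ⊓ (𝒩(zpowers x) ⊓ L)) = 10 := by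
    have := Nat.le_of_dvd (by norm_num) (Dvd.intro _ e2)
    have := Dvd.intro _ e2
    unfold Nat.ModEq at e6
    generalize 𝒞(L).relIndex (M ⊓ (𝒩(zpowers x) ⊓ L)) = b at *
    interval_cases b <;> omega
  rw [h10] at e4
  unfold Nat.ModEq at e5
  have h11 := Nat.mul_le_mul_right (M.relIndex L) (show 60 ≤ 𝒞(L).relIndex (M ⊓ L) by omega)
  omega

theorem b2 (h1 : B1.{u}) : B2.{u} := fun G _ _ x hx h =>
  ⟨fun _ _ => b2_a5 hx (h1 G x hx h), fun _ _ hL hg hc ⟨_, hk⟩ => b2_a6 hx (h1 G x hx h) hL hg hc hk,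
    fun _ _ _ => b2_a56 hx (h1 G x hx h)⟩

end CL.J3O
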