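/-
A simple group of order 50232960: the centre of a Sylow 2-subgroup is cyclic.
-/
import Cfsg.Agent.J3O.Defs
import Cfsg.Agent.Grp.FrobPartition

set_option autoImplicit false

open Cfsg Subgroup CL.Spor CL.Spor.MO

namespace CL.J3O

universe u

variable {G : Type u} [Group G] [Finite G]

namespace B6

theorem a5a : ∀ a : Equiv.Perm (Fin 5), Equiv.Perm.sign a = 1 → a ≠ 1 → a * a = 1 → ∃ b : Equiv.Perm (Fin 5),
    Equiv.Perm.sign b = 1 ∧ b * a * b⁻¹ = Equiv.swap 0 1 * Equiv.swap 2 3 := by decide +kernel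

theorem a5b : ∀ c : Equiv.Perm (Fin 5), c ≠ 1 → c ^ 5 = 1 → ∃ a : Equiv.Perm (Fin 5),
    Equiv.Perm.sign a = 1 ∧ a ≠ 1 ∧ a * a = 1 ∧ a * c ≠ 1 ∧ a * c * (a * c) = 1 := by decide +kernel

theorem a5c (a u : alternatingGroup (Fin 5)) (a1 : a ≠ 1) (a2 : a * a = 1) (u1 : u ≠ 1) (u2 : u * u = 1) :
    ∃ b, b * a * b⁻¹ = u := by
  obtain ⟨b, hb, e⟩ := a5a a a.2 (fun h => a1 (Subtype.ext h)) (congrArg Subtype.val a2)
  obtain ⟨d, hd, f⟩ := a5a u u.2 (fun h => u1 (Subtype.ext h)) (congrArg Subtype.val u2)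
  have : (⟨b, hb⟩ : alternatingGroup (Fin 5)) * a * ⟨b, hb⟩⁻¹ = ⟨d, hd⟩ * u * ⟨d, hd⟩⁻¹ :=
    Subtype.ext (e.trans f.symm)
  exact ⟨⟨d, hd⟩⁻¹ * ⟨b, hb⟩, by
    rw [show ∀ x y : alternatingGroup (Fin 5), x⁻¹ * y * a * (x⁻¹ * y)⁻¹ = x⁻¹ * (y * a * y⁻¹) * x from
      fun x y => by group, this]; group⟩

theorem a5 (a c : alternatingGroup (Fin 5)) (a1 : a ≠ 1) (a2 : a * a = 1) (c1 : c ≠ 1) (c5 : c ^ 5 = 1) :
    ∃ b d, b * a * b⁻¹ * (d * a * d⁻¹) = c := by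
  obtain ⟨u, hu, u1, u2, v1, v2⟩ := a5b c (fun h => c1 (Subtype.ext h)) (congrArg Subtype.val c5)
  obtain ⟨b, e⟩ := a5c a ⟨u, hu⟩ a1 a2 (fun h => u1 (congrArg Subtype.val h)) (Subtype.ext u2)
  obtain ⟨d, f⟩ := a5c a (⟨u, hu⟩ * c) a1 a2 (fun h => v1 (congrArg Subtype.val h)) (Subtype.ext v2)
  refine ⟨b, d, ?_⟩
  rw [e, f, ← mul_assoc, show (⟨u, hu⟩ : alternatingGroup (Fin 5)) * ⟨u, hu⟩ = 1 from Subtype.ext u2, one_mul]

theorem cnt {y : G} (hy : y ^ 5 = 1) (T : Set G) (hT : ∀ t ∈ T, y * t * y⁻¹ ∈ T) :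
    T.ncard % 5 = {t ∈ T | t * y = y * t}.ncard % 5 := by
  classical
  let _ := Fintype.ofFinite T
  have : Fact (Nat.Prime 5) := ⟨by norm_num⟩
  let f : Function.End T := fun t => ⟨y * t * y⁻¹, hT t t.2⟩
  have hf : ∀ n : ℕ, ∀ t : T, ((f ^ n) t : G) = y ^ n * t * (y ^ n)⁻¹ := fun n => by
    induction n with
    | zero => intro t; rw [pow_zero, pow_zero, one_mul, inv_one, mul_one]; rfl
    | succ n ih =>
      intro t
      rw [pow_succ' f]
      change y * ((f ^ n) t : G) * y⁻¹ = _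
      rw [ih]; group
  have := Equiv.Perm.card_fixedPoints_modEq (f := f) (p := 5) (n := 1)
    (funext fun t => Subtype.ext (by rw [hf, pow_one, hy, one_mul, inv_one, mul_one]; rfl))
  rw [← Nat.card_eq_fintype_card, ← Nat.card_eq_fintype_card, Nat.card_coe_set_eq, Nat.card_coe_set_eq,
    ← Set.ncard_image_of_injective (Function.fixedPoints f) Subtype.val_injective] at this
  rw [this]
  congr 2
  ext t
  refine ⟨?_, fun h => ⟨⟨t, h.1⟩, Subtype.ext (mul_inv_eq_iff_eq_mul.2 h.2.symm), rfl⟩⟩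
  rintro ⟨t, ht, rfl⟩
  exact ⟨t.2, (mul_inv_eq_iff_eq_mul.1 (congrArg Subtype.val ht)).symm⟩

theorem mul_le {A B L : Subgroup G} (hA : A ≤ L) (hB : B ≤ L) :
    Nat.card A * Nat.card B ≤ Nat.card ↥(A ⊓ B) * Nat.card L := by
  have k : ∀ {X : Subgroup G}, X ≤ L → Nat.card X * X.relIndex L = Nat.card L := fun hX => by
    rw [← Nat.card_congr (subgroupOfEquivOfLe hX).toEquiv]; exact card_mul_index _
  have p : 0 < A.relIndex L * B.relIndex L := Nat.pos_of_ne_zero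
    (mul_ne_zero FiniteIndex.index_ne_zero FiniteIndex.index_ne_zero)
  refine Nat.le_of_mul_le_mul_right ?_ p
  calc _ = Nat.card L * Nat.card L := by rw [mul_mul_mul_comm, k hA, k hB]
    _ = Nat.card ↥(A ⊓ B) * Nat.card L * (A ⊓ B).relIndex L := by
      rw [mul_right_comm, k (inf_le_left.trans hA)]
    _ ≤ _ := Nat.mul_le_mul_left _ relIndex_inf_le

variable {z y : G} {Q : Subgroup G}

omit [Finite G] in
theorem nrm (h : St z y Q) : 𝒵(z) ≤ 𝒩(Q) := by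
  obtain ⟨φ, -, hk⟩ := h.iso
  rw [← normal_subgroupOf_iff_le_normalizer h.le, ← hk]
  infer_instance

omit [Finite G] in
theorem cardH (h : St z y Q) : Nat.card 𝒵(z) = 1920 := by
  obtain ⟨φ, hφ, hk⟩ := h.iso
  have := two_mul_nat_card_alternatingGroup (α := Fin 5)
  rw [Nat.card_perm, Nat.card_eq_fintype_card (α := Fin 5), Fintype.card_fin] at this
  rw [← φ.ker.card_mul_index, index_ker, MonoidHom.range_eq_top.2 hφ, card_top, hk,
    Nat.card_congr (subgroupOfEquivOfLe h.le).toEquiv, h.card]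
  simp only [Nat.factorial] at this
  omega

omit [Finite G] in
theorem pw (h : St z y Q) {q : G} (hq : q ∈ Q) : q ^ 32 = 1 := by
  have := pow_card_eq_one' (x := (⟨q, hq⟩ : Q))
  rw [h.card] at this
  exact congrArg Subtype.val this

omit [Finite G] in
theorem y5 (h : St z y Q) : y ^ 5 = 1 := h.hy ▸ pow_orderOf_eq_one y

omit [Finite G] in
theorem small (h : St z y Q) {A : Subgroup G} (hA : A ≤ Q) (hy : ∀ a ∈ A, a * y = y * a) : Nat.card A ≤ 2 := by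
  have : (A : Set G) ⊆ {1, z} := fun a ha => h.fix a (hA ha) (hy a ha)
  rw [← SetLike.coe_sort_coe, Nat.card_coe_set_eq]
  exact (Set.ncard_le_ncard this (Set.toFinite _)).trans ((Set.ncard_insert_le _ _).trans (by simp))

omit [Finite G] in
theorem cjc {g n : G} (hg : g ∈ 𝒩(Q)) (hn : n ∈ 𝒞(Q)) : g * n * g⁻¹ ∈ 𝒞(Q) := fun q hq => by
  have := hn _ ((mem_normalizer_iff''.1 hg q).1 hq)
  calc q * (g * n * g⁻¹) = g * (g⁻¹ * q * g * n) * g⁻¹ := by group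
    _ = _ := by rw [this]; group

omit [Finite G] in
theorem cent (h : St z y Q) {w : G} (hc : w ∈ 𝒞(Q)) : w ∈ Q := by
  have hw : w ∈ 𝒵(z) := mem_centralizer_singleton_iff.2 (hc z h.zQ).symm
  obtain ⟨φ, hφ, hk⟩ := h.iso
  have ker : ∀ g : 𝒵(z), φ g = 1 ↔ (g : G) ∈ Q := fun g => by rw [← MonoidHom.mem_ker, hk, mem_subgroupOf]
  have hn : ((𝒞(Q)).subgroupOf 𝒵(z)).Normal := ⟨fun n hn g => cjc (nrm h g.2) hn⟩
  rcases (hn.map φ hφ).eq_bot_or_eq_top with e | e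
  · have : φ ⟨w, hw⟩ ∈ map φ ((𝒞(Q)).subgroupOf 𝒵(z)) := mem_map_of_mem φ hc
    rw [e, mem_bot] at this
    exact (ker _).1 this
  · obtain ⟨c, hc, e'⟩ : φ ⟨y, h.zy⟩ ∈ map φ ((𝒞(Q)).subgroupOf 𝒵(z)) := e ▸ mem_top _
    have hq : (c : G)⁻¹ * y ∈ Q := (ker (c⁻¹ * ⟨y, h.zy⟩)).1 (by rw [map_mul, map_inv, e', inv_mul_cancel])
    have c1 : Commute (c : G) ((c : G)⁻¹ * y) := (hc _ hq).symm
    have e1 := c1.mul_pow 32
    rw [pw h hq, mul_one, mul_inv_cancel_left] at e1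
    have e2 : y = ((c : G) ^ 32) ^ 3 := by
      rw [← e1, ← pow_mul, show 32 * 3 = 5 * 19 + 1 from rfl, pow_succ, pow_mul, y5 h, one_pow, one_mul]
    have hy : y ∈ 𝒞(Q) := e2 ▸ pow_mem (pow_mem hc _) _
    have := small h le_rfl fun a ha => hy a ha
    rw [h.card] at this
    omega

omit [Finite G] in
theorem leS (h : St z y Q) (S : Sylow 2 G) (hS : (S : Subgroup G) ≤ 𝒵(z)) : Q ≤ S :=
  S.is_maximal' (IsPGroup.to_sup_of_normal_left' (IsPGroup.of_card (n := 5) h.card) S.2 (hS.trans (nrm h)))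
    le_sup_right ▸ le_sup_left

/-- elementary abelian -/
def EA (Q : Subgroup G) : Prop := ∀ q ∈ Q, q ∈ 𝒞(Q) ∧ q * q = 1

theorem ea (h : St z y Q) (z1 : z ≠ 1) (z2 : z * z = 1) {w : G} (hw : w ∈ 𝒞(Q)) (w1 : w ≠ 1) (wz : w ≠ z)
    (w2 : w * w = 1) : EA Q := by
  let E : Subgroup G :=
    { carrier := {q | q ∈ Q ∧ q ∈ 𝒞(Q) ∧ q * q = 1}
      one_mem' := ⟨one_mem _, one_mem _, mul_one _⟩
      mul_mem' := fun {a b} ha hb => ⟨mul_mem ha.1 hb.1, mul_mem ha.2.1 hb.2.1, by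
        calc a * b * (a * b) = a * (b * a) * b := by group
          _ = a * a * (b * b) := by rw [← hb.2.1 a ha.1]; group
          _ = 1 := by rw [ha.2.2, hb.2.2, mul_one]⟩
      inv_mem' := fun {a} ha => ⟨inv_mem ha.1, inv_mem ha.2.1, by rw [← mul_inv_rev, ha.2.2, inv_one]⟩ }
  have EQ : E ≤ Q := fun q hq => hq.1
  have zE : z ∈ E := ⟨h.zQ, fun q hq => mem_centralizer_singleton_iff.1 (h.le hq), z2⟩
  have c := cnt (y5 h) E fun t ht => ⟨(mem_normalizer_iff.1 (nrm h h.zy) t).1 ht.1, cjc (nrm h h.zy) ht.2.1, by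
    rw [conj_mul, ht.2.2, mul_one, mul_inv_cancel]⟩
  have f : {t ∈ (E : Set G) | t * y = y * t} = {1, z} := by
    refine Set.Subset.antisymm (fun t ht => h.fix t ht.1.1 ht.2) ?_
    rintro t (rfl | rfl)
    · exact ⟨one_mem E, by simp⟩
    · exact ⟨zE, (mem_centralizer_singleton_iff.1 h.zy).symm⟩
  have t : 2 < (E : Set G).ncard := (Set.two_lt_ncard (Set.toFinite _)).2
    ⟨1, one_mem E, z, zE, w, ⟨cent h hw, hw, w2⟩, z1.symm, w1.symm, wz.symm⟩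
  rw [f, Set.ncard_pair z1.symm] at c
  rw [← Nat.card_coe_set_eq, SetLike.coe_sort_coe] at c t
  obtain ⟨k, hk, e⟩ := (Nat.dvd_prime_pow Nat.prime_two (m := 5)).1 ((card_dvd_of_le EQ).trans h.card.dvd)
  have : E = Q := eq_of_le_of_card_ge EQ (by
    rw [e] at c t
    rw [e, h.card]
    interval_cases k <;> omega)
  exact fun q hq => (show q ∈ E from this ▸ hq).2

theorem neq (hG : Nat.card G = 50232960) (h : St z y Q) {w y' : G} (h' : St w y' Q) (z1 : z ≠ 1) (w1 : w ≠ 1) :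
    w = z := by
  let I : MulAction 𝒩(Q) G := MulAction.compHom G ((MulAut.conj (G := G)).comp (𝒩(Q)).subtype)
  have e := @MulAction.index_stabilizer 𝒩(Q) G _ I z
  have e1 : @MulAction.stabilizer 𝒩(Q) G _ I z = (𝒵(z)).subgroupOf 𝒩(Q) := by
    ext n
    change (n : G) * z * (n : G)⁻¹ = z ↔ _
    rw [mem_subgroupOf, mem_centralizer_singleton_iff, mul_inv_eq_iff_eq_mul]
  have e2 : @MulAction.orbit 𝒩(Q) G I.toSMul z = {t | ∃ n ∈ 𝒩(Q), n * z * n⁻¹ = t} := by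
    ext t
    exact ⟨fun ⟨n, hn⟩ => ⟨n, n.2, hn⟩, fun ⟨n, hn, k⟩ => ⟨⟨n, hn⟩, k⟩⟩
  rw [e1, e2] at e
  have TQ : {t | ∃ n ∈ 𝒩(Q), n * z * n⁻¹ = t} ⊆ (Q : Set G) := by
    rintro _ ⟨n, hn, rfl⟩
    exact (mem_normalizer_iff.1 hn z).1 h.zQ
  have c := cnt (y5 h) {t | ∃ n ∈ 𝒩(Q), n * z * n⁻¹ = t} (by
    rintro _ ⟨n, hn, rfl⟩
    exact ⟨y * n, mul_mem (nrm h h.zy) hn, by group⟩)
  have f : {t ∈ {t | ∃ n ∈ 𝒩(Q), n * z * n⁻¹ = t} | t * y = y * t} = {z} := by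
    refine Set.Subset.antisymm (fun t ht => (h.fix t (TQ ht.1) ht.2).resolve_left ?_) ?_
    · obtain ⟨⟨n, -, rfl⟩, -⟩ := ht
      simpa using z1
    · rintro t rfl
      exact ⟨⟨1, one_mem _, by simp⟩, (mem_centralizer_singleton_iff.1 h.zy).symm⟩
  have l := Set.ncard_le_ncard TQ (Set.toFinite _)
  rw [← Nat.card_coe_set_eq (Q : Set G), SetLike.coe_sort_coe, h.card, ← e] at l
  rw [f, Set.ncard_singleton, ← e] at c
  have d := card_subgroup_dvd_card 𝒩(Q)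
  rw [hG, ← ((𝒵(z)).subgroupOf 𝒩(Q)).card_mul_index, Nat.card_congr (subgroupOfEquivOfLe (nrm h)).toEquiv,
    cardH h] at d
  have i : ((𝒵(z)).subgroupOf 𝒩(Q)).index = 1 := by
    generalize ((𝒵(z)).subgroupOf 𝒩(Q)).index = m at c l d
    interval_cases m <;> omega
  have k : 𝒵(w) = 𝒵(z) := eq_of_le_of_card_ge ((nrm h').trans (subgroupOf_eq_top.1 (index_eq_one.1 i)))
    (by rw [cardH h, cardH h'])
  exact (h.fix w h'.zQ (mem_centralizer_singleton_iff.1 (k ▸ h.zy : y ∈ 𝒵(w))).symm).resolve_left w1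

theorem b8 (h : St z y Q) (hE : EA Q) {s : G} (hs : s ∈ 𝒵(z)) (sQ : s ∉ Q) (s2 : s * s = 1) :
    Nat.card ↥(Q ⊓ 𝒵(s)) ≤ 8 := by
  obtain ⟨φ, hφ, hk⟩ := h.iso
  have ker : ∀ g : 𝒵(z), φ g = 1 ↔ (g : G) ∈ Q := fun g => by rw [← MonoidHom.mem_ker, hk, mem_subgroupOf]
  have cj : ∀ g ∈ 𝒵(z), Nat.card ↥(Q ⊓ 𝒵(s)) ≤ Nat.card ↥(Q ⊓ 𝒵(g * s * g⁻¹)) := fun g hg =>
    Nat.card_le_card_of_injective (fun q => ⟨g * q * g⁻¹, (mem_normalizer_iff.1 (nrm h hg) q).1 q.2.1,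
      mem_centralizer_singleton_iff.2 (by
        rw [conj_mul, conj_mul, mem_centralizer_singleton_iff.1 q.2.2])⟩) fun a b e =>
      Subtype.ext (mul_left_cancel (mul_right_cancel (congrArg Subtype.val e)))
  obtain ⟨b, d, e⟩ := a5 (φ ⟨s, hs⟩) (φ ⟨y, h.zy⟩) (fun e => sQ ((ker _).1 e))
    (by rw [← map_mul]; exact (ker _).2 (show s * s ∈ Q from s2 ▸ one_mem Q))
    (fun e => by
      have := orderOf_dvd_of_pow_eq_one (pw h ((ker _).1 e))
      rw [h.hy] at this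
      omega)
    (by rw [← map_pow]; exact (ker _).2 (show y ^ 5 ∈ Q from y5 h ▸ one_mem Q))
  obtain ⟨b, rfl⟩ := hφ b
  obtain ⟨d, rfl⟩ := hφ d
  have hq : y⁻¹ * ((b : G) * s * (b : G)⁻¹ * ((d : G) * s * (d : G)⁻¹)) ∈ Q :=
    (ker (⟨y, h.zy⟩⁻¹ * (b * ⟨s, hs⟩ * b⁻¹ * (d * ⟨s, hs⟩ * d⁻¹)))).1 (by
      simp only [map_mul, map_inv, e, inv_mul_cancel])
  have k := small h (A := (Q ⊓ 𝒵((b : G) * s * (b : G)⁻¹)) ⊓ (Q ⊓ 𝒵((d : G) * s * (d : G)⁻¹)))
    (inf_le_left.trans inf_le_left) fun a ha => by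
      have c1 : Commute a _ := mem_centralizer_singleton_iff.1 ha.1.2
      have c2 : Commute a _ := mem_centralizer_singleton_iff.1 ha.2.2
      have c3 : Commute a _ := (hE _ hq).1 a ha.1.1
      have := ((c1.mul_right c2).mul_right c3.inv_right).eq
      rwa [mul_inv_rev, inv_inv, mul_inv_cancel_left] at this
  have l := mul_le (L := Q) (A := Q ⊓ 𝒵((b : G) * s * (b : G)⁻¹)) (B := Q ⊓ 𝒵((d : G) * s * (d : G)⁻¹))
    inf_le_left inf_le_left
  rw [h.card] at l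
  have := Nat.mul_le_mul (cj b b.2) (cj d d.2)
  nlinarith

theorem main (hG : Nat.card G = 50232960) (S : Sylow 2 G) {Q2 Q3 : Subgroup G} (h : St z y Q) (E1 : EA Q)
    (E2 : EA Q2) (E3 : EA Q3) (S1 : (S : Subgroup G) ≤ 𝒵(z)) (S2 : Q2 ≤ S) (S3 : Q3 ≤ S) (c2 : Nat.card Q2 = 32)
    (c3 : Nat.card Q3 = 32) (n1 : Q2 ≠ Q) (n2 : Q3 ≠ Q) (n3 : Q3 ≠ Q2) : False := by
  have cS : Nat.card (S : Subgroup G) ≤ 128 := by
    obtain ⟨k, hk⟩ := IsPGroup.iff_card.1 S.2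
    have d := card_subgroup_dvd_card (S : Subgroup G)
    rw [hG, hk] at d
    have : k ≤ 7 := not_lt.1 fun l => by
      have := (pow_dvd_pow 2 (show 8 ≤ k from l)).trans d
      omega
    exact hk ▸ Nat.pow_le_pow_right (by norm_num) this
  have QS := leS h S S1
  have l := mul_le QS S2
  rw [h.card, c2] at l
  have l8 : 8 ≤ Nat.card ↥(Q ⊓ Q2) := by nlinarith
  have D : ∀ s ∈ Q2, s ∉ Q → Q ⊓ Q2 = Q ⊓ 𝒵(s) := fun s hs sQ => eq_of_le_of_card_ge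
    (inf_le_inf_left _ fun q hq => mem_centralizer_singleton_iff.2 ((E2 s hs).1 q hq))
    ((b8 h E1 (S1 (S2 hs)) sQ (E2 s hs).2).trans l8)
  obtain ⟨s, hs, sQ⟩ := SetLike.not_le_iff_exists.1 fun k : Q2 ≤ Q =>
    n1 (eq_of_le_of_card_ge k (by rw [c2, h.card]))
  have u8 := D s hs sQ ▸ b8 h E1 (S1 (S2 hs)) sQ (E2 s hs).2
  have l' := mul_le (L := Q ⊔ Q2) le_sup_left le_sup_right
  rw [h.card, c2] at l'
  have e : Q ⊔ Q2 = S := eq_of_le_of_card_ge (sup_le QS S2) (by nlinarith)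
  have : (Q3 : Set G) ⊆ Q ∪ Q2 := fun t ht => by
    have k : t ∈ ((Q ⊔ Q2 : Subgroup G) : Set G) := e ▸ S3 ht
    rw [coe_mul_of_right_le_normalizer_left _ _ (S2.trans (S1.trans (nrm h)))] at k
    obtain ⟨a, ha, b, hb, rfl⟩ := k
    by_cases bQ : b ∈ Q
    · exact Or.inl (mul_mem ha bQ)
    · have c : a * b = b * a := by
        have e3 : a * b = (a * b)⁻¹ := eq_inv_of_mul_eq_one_left (E3 _ ht).2
        rwa [mul_inv_rev, ← eq_inv_of_mul_eq_one_left (E1 a ha).2, ← eq_inv_of_mul_eq_one_left (E2 b hb).2] at e3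
      have : a ∈ Q ⊓ Q2 := D b hb bQ ▸ ⟨ha, mem_centralizer_singleton_iff.2 c⟩
      exact Or.inr (mul_mem this.2 hb)
  rcases SubgroupClass.subset_union.1 this with k | k
  · exact n2 (eq_of_le_of_card_ge k (by rw [c3, h.card]))
  · exact n3 (eq_of_le_of_card_ge k (by rw [c3, c2]))

end B6

variable [IsSimpleGroup G]

set_option linter.unusedSectionVars false in
theorem cyc_of (hG : Nat.card G = 50232960) (S : Sylow 2 G)
    (h : ∀ z ∈ (S : Subgroup G), (∀ s ∈ (S : Subgroup G), s * z = z * s) → orderOf z = 2 → ∃ y Q, St z y Q) :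
    IsCyclic (center (S : Subgroup G)) := by
  let _ : CommGroup (center (S : Subgroup G)) :=
    { (inferInstance : Group (center (S : Subgroup G))) with mul_comm := fun a b => Subtype.ext (b.2.comm a.1).symm }
  refine CL.Grp.isCyclic_of_card_ker_pow_prime_le fun p hp => ?_
  by_cases p2 : p = 2
  · subst p2
    by_contra l
    rw [not_le, ← SetLike.coe_sort_coe, Nat.card_coe_set_eq, Set.two_lt_ncard (Set.toFinite _)] at l
    obtain ⟨a, ha, b, hb, c, hc, ab, ac, bc⟩ := l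
    let f : center (S : Subgroup G) →* G := (S : Subgroup G).subtype.comp (center (S : Subgroup G)).subtype
    have fi : Function.Injective f := (subtype_injective _).comp (subtype_injective _)
    have f2 : ∀ x ∈ (powMonoidHom 2 : center (S : Subgroup G) →* _).ker, f x * f x = 1 := fun x hx => by
      rw [← map_mul, ← sq, show x ^ 2 = 1 from hx, map_one]
    have fS : ∀ x, ∀ s ∈ (S : Subgroup G), s * f x = f x * s := fun x s hs =>
      congrArg Subtype.val (mem_center_iff.1 x.2 ⟨s, hs⟩)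
    have fS' : ∀ x, (S : Subgroup G) ≤ 𝒵(f x) := fun x s hs => mem_centralizer_singleton_iff.2 (fS x s hs)
    have key : ∀ x ∈ (powMonoidHom 2 : center (S : Subgroup G) →* _).ker, ∀ w ∈ (powMonoidHom 2 : center (S : Subgroup G) →* _).ker,
        x ≠ 1 → w ≠ 1 → w ≠ x → ∃ y Q, St (f x) y Q ∧ B6.EA Q ∧ Q ≤ S := fun x hx w hw x1 w1 wx => by
      have x1' := (map_ne_one_iff f fi).2 x1
      obtain ⟨y, Q, k⟩ := h (f x) x.1.2 (fS x) (orderOf_eq_prime (by rw [sq, f2 x hx]) x1')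
      have QS := B6.leS k S (fS' x)
      exact ⟨y, Q, k, B6.ea k x1' (f2 x hx) (w := f w) (fun q hq => fS w q (QS hq)) ((map_ne_one_iff f fi).2 w1)
        (fi.ne wx) (f2 w hw), QS⟩
    have m1 := mul_mem (inv_mem ha) hb
    have m2 := mul_mem (inv_mem ha) hc
    have m3 := mul_mem (inv_mem hb) hc
    have sa : a⁻¹ = a := inv_eq_of_mul_eq_one_left (fi (by rw [map_mul, f2 a ha, map_one]))
    have sb : b⁻¹ = b := inv_eq_of_mul_eq_one_left (fi (by rw [map_mul, f2 b hb, map_one]))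
    have n1 : a⁻¹ * b ≠ 1 := fun e => ab (inv_mul_eq_one.1 e)
    have n2 : a⁻¹ * c ≠ 1 := fun e => ac (inv_mul_eq_one.1 e)
    have n3 : b⁻¹ * c ≠ 1 := fun e => bc (inv_mul_eq_one.1 e)
    have d1 : a⁻¹ * c ≠ a⁻¹ * b := fun e => bc (mul_left_cancel e).symm
    have d2 : b⁻¹ * c ≠ a⁻¹ * b := fun e => ac (by rw [sa, sb, mul_comm a] at e; exact (mul_left_cancel e).symm)
    have d3 : b⁻¹ * c ≠ a⁻¹ * c := fun e => ab (inv_injective (mul_right_cancel e)).symm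
    obtain ⟨y1, Q1, k1, E1, -⟩ := key _ m1 _ m2 n1 n2 d1
    obtain ⟨y2, Q2, k2, E2, S2⟩ := key _ m2 _ m1 n2 n1 d1.symm
    obtain ⟨y3, Q3, k3, E3, S3⟩ := key _ m3 _ m1 n3 n1 d2.symm
    have ne : ∀ {x w : center (S : Subgroup G)} {y y' : G} {Q Q' : Subgroup G}, St (f x) y Q → St (f w) y' Q' →
        x ≠ 1 → w ≠ 1 → w ≠ x → Q' ≠ Q := fun k k' x1 w1 wx e => wx (fi
      (B6.neq hG k (e ▸ k') ((map_ne_one_iff f fi).2 x1) ((map_ne_one_iff f fi).2 w1)))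
    exact B6.main hG S k1 E1 E2 E3 (fS' _) S2 S3 k2.card k3.card (ne k1 k2 n1 n2 d1) (ne k1 k3 n1 n3 d2)
      (ne k2 k3 n2 n3 d3)
  · have : (powMonoidHom p : center (S : Subgroup G) →* _).ker = ⊥ := by
      rw [eq_bot_iff]
      intro x hx
      obtain ⟨k, hk⟩ := S.2.to_subgroup (center (S : Subgroup G)) x
      exact (pow_eq_one_iff_of_coprime (((Nat.coprime_primes hp Nat.prime_two).2 p2).pow_right k)).1 ⟨hx, hk⟩
    rw [this, card_bot]
    exact hp.pos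

end CL.J3O
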