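/-
Project J3O: the TI property of the component of type `A₅`.
-/
import Cfsg.Agent.J3O.Defs
import Cfsg.Agent.Grp.SylowIn
import Cfsg.Agent.Grp.Cores

set_option autoImplicit false

open Cfsg Subgroup CL.Spor CL.Spor.MO CL.Grp

namespace CL.J3O

universe u

variable {G : Type u} [Group G] [Finite G]

private theorem b96_four {A : Subgroup G} {r z : G} (hA : Nat.card A ∣ 32) (hr : r ∈ A) (hz : z ∈ A) (r1 : r ≠ 1)
    (z1 : z ≠ 1) (rz : r ≠ z) : 4 ∣ Nat.card A := by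
  have := Fintype.ofFinite A
  have h3 : 2 < Nat.card A := by
    rw [Nat.card_eq_fintype_card]
    exact Fintype.two_lt_card_iff.2 ⟨1, ⟨r, hr⟩, ⟨z, hz⟩, fun e => r1 (congrArg Subtype.val e).symm,
      fun e => z1 (congrArg Subtype.val e).symm, fun e => rz (congrArg Subtype.val e)⟩
  have h4 := Nat.le_of_dvd (by norm_num) hA
  generalize Nat.card A = n at *
  interval_cases n <;> omega

omit [Finite G] in
private theorem b96_norm (L : Subgroup G) : 𝒩(L) ≤ 𝒩(𝒞(L)) := le_normalizer_iff.2 fun g hg c hc =>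
  mem_centralizer_iff.2 fun l hl => by
    have := mem_centralizer_iff.1 hc _ ((mem_normalizer_iff''.1 hg l).1 hl)
    calc l * (g * c * g⁻¹) = g * (g⁻¹ * l * g * c) * g⁻¹ := by group
      _ = _ := by rw [this]; group

private theorem b96_R (hL : LS.{u}) (h1 : B1.{u}) (h2 : B2.{u}) {x : G} (h : Gp x 96 2)
    (h81 : ∀ r : G, orderOf r = 2 → 5 ∣ cc r → ¬ 81 ∣ cc r) {L R : Subgroup G} {z : G} (hS : S96 x L R z)
    {r : G} (rR : r ∈ R) (hr : orderOf r = 2) : 𝒵(r) ≤ 𝒩(L) := by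
  by_cases rz : r = z
  · rw [rz]; exact hS.cz
  have h25 : ¬ 25 ∣ Nat.card G := by rw [h.card]; norm_num
  have b1 := h1 G x h.hx h25
  have b2 := h2 G x h.hx h25
  have cp := hS.cp
  have LX : L ≤ 𝒵(r) := fun l hl => mem_centralizer_singleton_iff.2 (mem_centralizer_iff.1 (hS.RW rR) l hl)
  have xX := LX cp.mem
  have n81 : ¬ 81 ∣ Nat.card 𝒵(r) := h81 r hr (h.hx ▸ orderOf_dvd_natCard _ xX)
  have zX : z ∈ 𝒵(r) := mem_centralizer_singleton_iff.2 (mem_centralizer_singleton_iff.1 (hS.zc rR)).symm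
  have zz : z * z = 1 := by rw [← sq, ← hS.hz, pow_orderOf_eq_one]
  rcases hL G 𝒵(r) x xX h.hx (h.inv r hr) with c | ⟨p, Q, hp, QX, pQ, nQ, xQ⟩ | ⟨L₁, l1, l2, c⟩
  · have := relIndex_eq_one.2 (LX.trans c)
    exact absurd (cp.num.symm.trans this) (by norm_num)
  · exfalso
    obtain ⟨d1, d2⟩ := b1.dv _ Q p hp xX QX pQ nQ xQ
    rcases hp with rfl | rfl
    · have WN : 𝒞(L) ≤ 𝒩(L) := centralizer_le_normalizer _
      have LH : L ≤ 𝒵(r) ⊓ 𝒩(L) := le_inf LX le_normalizer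
      have QL : Q ⊓ L ≤ 𝒞(L) := (cp.qs _ inf_le_right ((le_inf (LX.trans nQ) le_normalizer).trans
        inf_normalizer_le_normalizer_inf)).resolve_left fun e => by
          obtain ⟨k, hk⟩ := pQ ⟨x, (mem_inf.1 (e.ge cp.mem)).1⟩
          have := orderOf_dvd_of_pow_eq_one (show x ^ 2 ^ k = 1 from congrArg Subtype.val hk)
          rw [h.hx] at this
          exact absurd ((by norm_num : Nat.Prime 5).dvd_of_dvd_pow this) (by norm_num)
      have QH : (𝒵(r) ⊓ 𝒩(L)) ⊓ Q ≤ Q ⊓ 𝒵(x) := fun q hq => by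
        obtain ⟨q1, q2⟩ := mem_inf.1 hq
        have qN := (mem_inf.1 q1).2
        have := b1.ce L 60 6 q cp qN fun l hl => QL (mem_inf.2 ⟨by
          have := mul_mem q2 ((mem_normalizer_iff.1 (nQ (LX hl)) _).1 (inv_mem q2))
          rwa [← mul_assoc, ← mul_assoc] at this, mul_mem ((mem_normalizer_iff.1 qN l).1 hl) (inv_mem hl)⟩)
        exact mem_inf.2 ⟨q2, mem_centralizer_singleton_iff.2 (mem_centralizer_iff.1 this x cp.mem).symm⟩
      have e1 := card_sup_mul_card_inf (H := 𝒵(r) ⊓ 𝒩(L)) (K := Q) (inf_le_left.trans nQ)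
      have e2 := card_inf_mul_relIndex 𝒞(L) (𝒵(r) ⊓ 𝒩(L))
      have e3 : 4 ∣ Nat.card (𝒞(L) ⊓ (𝒵(r) ⊓ 𝒩(L)) : Subgroup G) :=
        (b96_four (A := R ⊓ 𝒵(r)) (hS.cR ▸ card_dvd_of_le inf_le_left)
          (mem_inf.2 ⟨rR, mem_centralizer_singleton_iff.2 rfl⟩) (mem_inf.2 ⟨hS.zR, zX⟩)
          (fun e => by simp [e] at hr) (fun e => by simpa [e] using hS.hz) rz).trans
          (card_dvd_of_le (le_inf (inf_le_left.trans hS.RW) (le_inf inf_le_right ((inf_le_left.trans hS.RW).trans WN))))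
      have e4 : 60 ∣ (𝒞(L)).relIndex (𝒵(r) ⊓ 𝒩(L)) := by
        have : ((𝒞(L)).subgroupOf (𝒵(r) ⊓ 𝒩(L))).Normal := normal_subgroupOf_iff_le_normalizer_inf.2
          ((le_inf (inf_le_right.trans (b96_norm L)) le_normalizer).trans inf_normalizer_le_normalizer_inf)
        rw [← cp.idx, ← relIndex_subgroupOf LH]
        exact relIndex_dvd_index_of_normal _ _
      have e5 : 16 ∣ Nat.card (𝒵(r) ⊓ 𝒩(L) : Subgroup G) :=
        e2 ▸ Nat.mul_dvd_mul e3 ((by norm_num : 4 ∣ 60).trans e4)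
      have e6 := Nat.mul_dvd_mul e5 ((Nat.mul_dvd_mul_left _ (card_dvd_of_le QH)).trans d2)
      rw [← e1, ← mul_assoc] at e6
      have e7 := (Nat.dvd_of_mul_dvd_mul_right Nat.card_pos e6).trans
        ((card_dvd_of_le (sup_le inf_le_left QX)).trans (h.inv r hr))
      exact absurd e7 (by norm_num)
    · exact n81 (d1.trans (relIndex_dvd_card _ _))
  · have LL : ∀ n m, Cp x L₁ n m → L ≤ L₁ := fun n m c => b1.le L L₁ 60 6 cp c.mem (LX.trans l2)
    rcases c with c | c | c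
    · exact b1.eq _ L 60 6 cp LX ((b1.nl _ L₁ c.mem l1 l2).1.trans c.num)
    · exfalso
      have k := b2.a56 L L₁ z cp c (LL _ _ c) (l2 zX) (hS.RW hS.zR) zz
      have k1 : L₁ ≤ 𝒩(L) := fun l hl => hS.cz (mem_centralizer_singleton_iff.2 (mem_centralizer_iff.1 k l hl))
      have k2 : n5 x 𝒩(L) = 6 := (b1.nl _ L cp.mem le_normalizer le_rfl).1.trans cp.num
      have k3 : n5 x L₁ ≤ n5 x 𝒩(L) := relIndex_le_of_le_right k1 (by rw [← n5, k2]; norm_num)
      rw [c.num, k2] at k3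
      exact absurd k3 (by norm_num)
    · exact (n81 (((by norm_num : 81 ∣ 25920).trans (c.idx ▸ relIndex_dvd_card _ _)).trans (card_dvd_of_le l1))).elim

theorem ti96 (hL : LS.{u}) (h1 : B1.{u}) (h2 : B2.{u}) {x : G} (h : Gp x 96 2)
    (h81 : ∀ r : G, orderOf r = 2 → 5 ∣ cc r → ¬ 81 ∣ cc r) {L R : Subgroup G} {z : G} (hS : S96 x L R z) :
    ∀ r ∈ 𝒞(L), orderOf r = 2 → 𝒵(r) ≤ 𝒩(L) := by
  intro r rW hr
  have Wx : 𝒞(L) ≤ 𝒵(x) := fun w hw =>
    mem_centralizer_singleton_iff.2 (mem_centralizer_iff.1 hw x hS.cp.mem).symm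
  have hR : IsSylowIn 2 R 𝒞(L) := by
    refine ⟨hS.RW, IsPGroup.of_card (n := 5) hS.cR, fun k => ?_⟩
    have := card_dvd_of_le Wx
    rw [h.hc, ← card_mul_relIndex hS.RW, hS.cR] at this
    exact absurd ((Nat.mul_dvd_mul_left 32 k).trans this) (by norm_num)
  obtain ⟨w, hw, e⟩ := hR.exists_conj_le (U := zpowers r) (IsPGroup.of_card (n := 1) (by rw [Nat.card_zpowers, hr]; rfl))
    (zpowers_le.2 rW)
  have k := b96_R hL h1 h2 h h81 hS (e (conj_mem_conj_smul w (mem_zpowers r)))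
    (((MulAut.conj w).orderOf_eq r).trans hr)
  intro g hg
  have wN : w ∈ 𝒩(L) := centralizer_le_normalizer _ hw
  have : w * g * w⁻¹ ∈ 𝒩(L) := k (mem_centralizer_singleton_iff.2 (by
    rw [conj_mul, conj_mul, mem_centralizer_singleton_iff.1 hg]))
  exact (mul_mem_cancel_left wN).1 ((mul_mem_cancel_right (inv_mem wN)).1 this)

end CL.J3O
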