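/-
A simple group of order 50232960: the case `|C(x)| = 540` is impossible.
-/
import Cfsg.Agent.J3O.Defs
import Cfsg.Agent.Even.Amb
import Cfsg.Agent.Grp.Cores
import Cfsg.Agent.Grp.SylowIn

set_option autoImplicit false

open Cfsg Subgroup CL.Spor CL.Spor.MO
open scoped Pointwise

namespace CL.J3O

universe u

variable {G : Type u} [Group G] [Finite G]

namespace C108

open MulAction CL.Grp

theorem orb {P X : Type*} [Group P] [MulAction P X] [Finite X] (x0 : X) (hf : ∀ p : P, p • x0 = x0) {m : ℕ}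
    (h : ∀ x : X, x ≠ x0 → m ∣ (stabilizer P x).index) : ∃ k, Nat.card X = 1 + m * k := by
  classical
  have := Fintype.ofFinite (orbitRel.Quotient P X)
  rw [Nat.card_congr (selfEquivSigmaOrbits' P X), Nat.card_sigma,
    ← Finset.add_sum_erase _ _ (Finset.mem_univ (Quotient.mk'' x0 : orbitRel.Quotient P X))]
  have e : ∀ x : X, Nat.card (orbitRel.Quotient.orbit (Quotient.mk'' x : orbitRel.Quotient P X)) =
      (stabilizer P x).index := fun x => by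
    rw [orbitRel.Quotient.orbit_mk, index_stabilizer, Nat.card_coe_set_eq]
  obtain ⟨k, hk⟩ := Finset.dvd_sum (a := m) (s := Finset.univ.erase (Quotient.mk'' x0 : orbitRel.Quotient P X))
    (f := fun ω : orbitRel.Quotient P X => Nat.card ω.orbit) fun ω hω => by
      induction ω using Quotient.inductionOn' with
      | h x => exact e x ▸ h x fun c => (Finset.mem_erase.1 hω).1 (c ▸ rfl)
  exact ⟨k, by rw [hk, e, (eq_top_iff' _).2 fun p => mem_stabilizer_iff.2 (hf p), index_top]⟩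

theorem cau {H : Subgroup G} (h : 3 ∣ Nat.card H) : ∃ k ∈ H, orderOf k = 3 :=
  have := Fact.mk Nat.prime_three
  let ⟨k, hk⟩ := exists_prime_orderOf_dvd_card' (G := H) 3 h
  ⟨k, k.2, (orderOf_coe k).trans hk⟩

theorem ex3 {H : Subgroup G} (h0 : H ≠ ⊥) (h : Nat.card H ∣ 3 ^ 5) : ∃ k ∈ H, orderOf k = 3 := by
  obtain ⟨i, -, e⟩ := (Nat.dvd_prime_pow Nat.prime_three).1 h
  refine cau (e ▸ dvd_pow_self 3 fun c => h0 ?_)
  rwa [c, pow_zero, card_eq_one] at e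

omit [Finite G] in
theorem rdvd {W H K : Subgroup G} (h : H ≤ K) (n : K ≤ 𝒩(W)) : W.relIndex H ∣ W.relIndex K := by
  have := normal_subgroupOf_of_le_normalizer n
  rw [← relIndex_subgroupOf h]
  exact relIndex_dvd_index_of_normal _ _

omit [Finite G] in
theorem ocj {k : G} (g : G) (h : orderOf k = 3) : orderOf (g⁻¹ * k * g) = 3 := by
  rw [← h, ← (MulAut.conj g⁻¹).orderOf_eq k, MulAut.conj_apply, inv_inv]

variable {x c : G} {L Y : Subgroup G}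

omit [Finite G] in
theorem ta (b : Bas1 G x) (hS : S108 x L Y c) (ti : ∀ k ∈ 𝒞(L), orderOf k = 3 → 𝒵(k) ≤ 𝒩(L)) {k g : G}
    (hk : k ∈ 𝒞(L)) (o : orderOf k = 3) (hg : g⁻¹ * k * g ∈ 𝒞(L)) : g ∈ 𝒩(L) := by
  refine b.cj L _ _ g hS.cp (le_trans ?_ (ti k hk o))
  rintro _ ⟨l, hl, rfl⟩
  refine mem_centralizer_singleton_iff.2 ?_
  calc g * l * g⁻¹ * k = g * (l * (g⁻¹ * k * g)) * g⁻¹ := by group
    _ = k * (g * l * g⁻¹) := by rw [hg l hl]; group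

theorem tb (b : Bas1 G x) (h : Gp x 108 4) (hS : S108 x L Y c) (ti : ∀ k ∈ 𝒞(L), orderOf k = 3 → 𝒵(k) ≤ 𝒩(L)) :
    𝒩(zpowers x) ≤ 𝒩(L) := fun n hn => by
  have xW : ∀ w ∈ 𝒞(L), Commute w x := fun w hw => (hw x hS.cp.mem).symm
  have m3 : ∀ k ∈ 𝒞(L) ⊔ zpowers x, orderOf k = 3 → k ∈ 𝒞(L) := fun k hk o => by
    obtain ⟨w, hw, _, ⟨i, rfl⟩, rfl⟩ := (CL.Even.mem_sup_nl (zpowers_le.2
      (CL.Even.norm_le_norm_cent L (le_normalizer hS.cp.mem)))).1 hk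
    refine CL.Even.mem_of_pow_mem_of_coprime (n := 5) (by rw [o]; decide) ?_
    rw [((xW w hw).zpow_right i).mul_pow, ← zpow_natCast (x ^ i), ← zpow_mul, mul_comm i, zpow_mul, zpow_natCast,
      ← h.hx, pow_orderOf_eq_one, one_zpow, mul_one]
    exact pow_mem hw _
  have MH : 𝒞(L) ⊔ zpowers x ≤ 𝒵(x) := sup_le (fun w hw => mem_centralizer_singleton_iff.2 (xW w hw))
    (zpowers_le.2 (mem_centralizer_singleton_iff.2 rfl))
  have nH : MulAut.conj n • 𝒵(x) = 𝒵(x) := by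
    rw [conj_smul_eq_self_iff, ← centralizer_closure, ← zpowers_eq_closure]
    exact CL.Even.norm_le_norm_cent _ hn
  have i1 : (𝒞(L) ⊔ zpowers x).relIndex 𝒵(x) ≤ 4 := by
    have e := card_mul_relIndex MH
    have d1 : 27 ∣ Nat.card ↥(𝒞(L) ⊔ zpowers x) := hS.cY ▸ card_dvd_of_le (hS.YW.trans le_sup_left)
    have d2 : 5 ∣ Nat.card ↥(𝒞(L) ⊔ zpowers x) := h.hx ▸ orderOf_dvd_natCard _ (mem_sup_right (mem_zpowers x))
    have := Nat.le_of_dvd Nat.card_pos (Nat.Coprime.mul_dvd_of_dvd_of_dvd (by norm_num) d1 d2)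
    rw [h.hc] at e
    nlinarith
  have i2 : (MulAut.conj n • (𝒞(L) ⊔ zpowers x)).relIndex 𝒵(x) ≤ 4 := by
    rw [← nH, relIndex_conj_smul]; exact i1
  have i3 := (relIndex_inf_le (H := 𝒞(L) ⊔ zpowers x) (K := MulAut.conj n • (𝒞(L) ⊔ zpowers x)) (L := 𝒵(x))).trans
    (Nat.mul_le_mul i1 i2)
  have e := card_mul_relIndex ((inf_le_left (b := MulAut.conj n • (𝒞(L) ⊔ zpowers x))).trans MH)
  rw [h.hc] at e
  obtain ⟨k, hk, o⟩ := cau (H := (𝒞(L) ⊔ zpowers x) ⊓ MulAut.conj n • (𝒞(L) ⊔ zpowers x)) (by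
    by_contra c
    have d := Nat.Coprime.dvd_of_dvd_mul_left (((Nat.Prime.coprime_iff_not_dvd Nat.prime_three).2 c).pow_left 3)
      (e ▸ (by norm_num : 3 ^ 3 ∣ 5 * 108))
    have := Nat.le_of_dvd (Nat.pos_of_ne_zero fun c => by rw [c] at e; omega) d
    omega)
  exact ta b hS ti (m3 k hk.1 o) o (m3 _ ((mem_conj_smul_iff _ _ _).1 hk.2) (ocj n o))

theorem cls (hS : S108 x L Y c) {t : G} (ht : t ∈ Y) : 𝒵(t).relIndex Y < 9 := by
  by_contra! h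
  have e := card_inf_mul_relIndex 𝒵(t) Y
  rw [hS.cY] at e
  have le : zpowers c ≤ 𝒵(t) ⊓ Y := zpowers_le.2
    ⟨mem_centralizer_singleton_iff.2 (mem_centralizer_singleton_iff.1 (hS.cc' ht)).symm, hS.cm⟩
  have c3 : Nat.card ↥(𝒵(t) ⊓ Y) ≤ 3 := by nlinarith
  have e1 := eq_of_le_of_card_ge le (by rwa [Nat.card_zpowers, hS.hc])
  obtain ⟨i, rfl⟩ : t ∈ zpowers c := e1 ▸ ⟨mem_centralizer_singleton_iff.2 rfl, ht⟩
  rw [inf_of_le_right fun y hy => mem_centralizer_singleton_iff.2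
    (Commute.zpow_right (mem_centralizer_singleton_iff.1 (hS.cc' hy)) i), hS.cY] at c3
  omega

end C108

open C108 MulAction CL.Grp in
theorem no108 [IsSimpleGroup G] (h1 : B1.{u}) {x : G} (h : Gp x 108 4) {L Y : Subgroup G} {c : G} (hS : S108 x L Y c)
    (ti : ∀ k ∈ 𝒞(L), orderOf k = 3 → 𝒵(k) ≤ 𝒩(L)) : False := by
  have := Fact.mk Nat.prime_three
  have b := h1 G x h.hx (by rw [h.card]; norm_num)
  have cN : Nat.card 𝒩(L) = 77760 := by
    have e := card_mul_relIndex (tb b h hS ti)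
    have e1 : (𝒩(zpowers x)).relIndex 𝒩(L) = 36 := (b.nl _ L hS.cp.mem le_normalizer le_rfl).1.trans hS.cp.num
    rw [← e, e1, h.hn]
  have iN : Nat.card (G ⧸ 𝒩(L)) = 646 := by
    have e := (𝒩(L)).card_mul_index
    rw [cN, h.card] at e
    change (𝒩(L)).index = 646
    omega
  have WN : 𝒞(L) ≤ 𝒩(L) := centralizer_le_normalizer _
  have n27 : ¬ 27 ∣ (𝒞(L)).relIndex 𝒩(L) := fun d => by
    have := mul_dvd_mul (hS.cY ▸ card_dvd_of_le hS.YW) d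
    rw [card_mul_relIndex WN, cN] at this
    omega
  have KN : Y ⊔ L ≤ 𝒩(L) := sup_le (hS.YW.trans WN) le_normalizer
  obtain ⟨P, PK, cP⟩ : ∃ P : Subgroup G, P ≤ Y ⊔ L ∧ Nat.card P = 3 ^ 5 := by
    have d1 : 27 ∣ Nat.card ↥(𝒞(L) ⊓ (Y ⊔ L)) := hS.cY ▸ card_dvd_of_le (le_inf hS.YW le_sup_left)
    have d2 : 9 ∣ (𝒞(L)).relIndex (Y ⊔ L) := (by norm_num : 9 ∣ 360).trans
      (hS.cp.idx ▸ rdvd le_sup_right (KN.trans (CL.Even.norm_le_norm_cent L)))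
    obtain ⟨P, hP⟩ := Sylow.exists_subgroup_card_pow_prime (G := ↥(Y ⊔ L)) 3 (n := 5)
      (card_inf_mul_relIndex 𝒞(L) (Y ⊔ L) ▸ (mul_dvd_mul d1 d2 : 27 * 9 ∣ _))
    exact ⟨P.map (Y ⊔ L).subtype, map_subtype_le _, by rw [card_map_of_injective (subtype_injective _), hP]⟩
  obtain ⟨q, q1, hq⟩ : ∃ q : G ⧸ 𝒩(L), q ≠ ((1 : G) : G ⧸ 𝒩(L)) ∧ ¬ 9 ∣ (stabilizer P q).index := by
    by_contra! c
    obtain ⟨k, hk⟩ := orb (P := P) ((1 : G) : G ⧸ 𝒩(L)) (fun p => QuotientGroup.eq.2 (by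
      simpa using KN (PK p.2))) c
    omega
  obtain ⟨g, rfl⟩ := QuotientGroup.mk_surjective q
  have gN : g ∉ 𝒩(L) := fun m => q1 (QuotientGroup.eq.2 (by simpa using m))
  have st : stabilizer P (g : G ⧸ 𝒩(L)) = (MulAut.conj g • 𝒩(L)).subgroupOf P := by
    ext p
    rw [mem_stabilizer_iff, mem_subgroupOf, mem_conj_smul_iff, eq_comm]
    exact QuotientGroup.eq.trans (by rw [mul_assoc]; rfl)
  rw [st] at hq
  set N' := MulAut.conj g • 𝒩(L) with hN'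
  set W' := MulAut.conj g • 𝒞(L) with hW'
  have nW : N' ≤ 𝒩(W') := by
    rw [hW', normalizer_conj_smul]
    exact pointwise_smul_le_pointwise_smul_iff.2 (CL.Even.norm_le_norm_cent L)
  have k27 : ∀ H : Subgroup G, H ≤ N' → ¬ 27 ∣ W'.relIndex H := fun H hH d =>
    n27 (relIndex_conj_smul g 𝒞(L) 𝒩(L) ▸ d.trans (rdvd hH nW))
  obtain ⟨t, ht, tN⟩ : ∃ t ∈ Y, t ∉ N' := by
    by_contra! c
    have e := card_inf_mul_relIndex W' Y
    by_cases m : W' ⊓ Y = ⊥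
    · rw [m, card_bot, one_mul, hS.cY] at e
      exact k27 Y c (e ▸ dvd_rfl)
    · obtain ⟨k, hk, o⟩ := ex3 m ((card_dvd_of_le inf_le_right).trans (by rw [hS.cY]; norm_num))
      exact gN (ta b hS ti (hS.YW hk.2) o ((mem_conj_smul_iff _ _ _).1 hk.1))
  have c9 : 9 ≤ Nat.card ↥(W' ⊓ (N' ⊓ P)) := by
    have e1 := card_inf_mul_relIndex N' P
    have e2 := card_inf_mul_relIndex W' (N' ⊓ P)
    have r2 := k27 (N' ⊓ P) inf_le_left
    change ¬ 9 ∣ N'.relIndex P at hq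
    rw [← e2, cP] at e1
    obtain ⟨i, -, hi⟩ := (Nat.dvd_prime_pow Nat.prime_three).1 (Dvd.intro_left _ e1)
    obtain ⟨j, -, hj⟩ := (Nat.dvd_prime_pow Nat.prime_three).1 ((Dvd.intro_left _ rfl).trans (Dvd.intro _ e1))
    have i1 : 3 ^ i ≤ 3 ^ 1 := Nat.pow_le_pow_right (by norm_num) (by
      by_contra! c
      exact hq (hi ▸ pow_dvd_pow 3 c))
    have j1 : 3 ^ j ≤ 3 ^ 2 := Nat.pow_le_pow_right (by norm_num) (by
      by_contra! c
      exact r2 (hj ▸ pow_dvd_pow 3 c))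
    rw [hi, hj] at e1
    by_contra! c
    have := Nat.mul_le_mul (Nat.mul_le_mul (Nat.le_of_lt_succ c) j1) i1
    omega
  have dec : ∀ a : ↥(W' ⊓ (N' ⊓ P)), ∃ y : Y, (y : G)⁻¹ * a ∈ L := fun a => by
    obtain ⟨y, hy, l, hl, e⟩ := (CL.Even.mem_sup_nr (hS.YW.trans WN)).1 (PK a.2.2.2)
    exact ⟨⟨y, hy⟩, by rwa [← e, inv_mul_cancel_left]⟩
  choose f hf using dec
  have LC : L ≤ 𝒵(t) := fun l hl => mem_centralizer_singleton_iff.2 (hS.YW ht l hl)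
  refine absurd (Nat.card_le_card_of_injective (fun a => (f a : Y ⧸ 𝒵(t).subgroupOf Y)) fun a a' e => ?_)
    (not_le.2 ((cls hS ht).trans_le c9))
  by_contra ne
  have m : (a : G)⁻¹ * a' ∈ 𝒵(t) := by
    have := mul_mem (mul_mem (inv_mem (LC (hf a))) (mem_subgroupOf.1 (QuotientGroup.eq.1 e))) (LC (hf a'))
    simpa [mul_assoc] using this
  obtain ⟨k, hk, o⟩ := ex3 (H := 𝒵(t) ⊓ (W' ⊓ (N' ⊓ P))) (fun c => ne (Subtype.ext (inv_mul_eq_one.1
    (mem_bot.1 (c ▸ mem_inf.2 ⟨m, (W' ⊓ (N' ⊓ P)).mul_mem (inv_mem a.2) a'.2⟩)))))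
    (cP ▸ card_dvd_of_le (inf_le_right.trans (inf_le_right.trans inf_le_right)))
  refine tN ((mem_conj_smul_iff _ _ _).2 (ti _ ((mem_conj_smul_iff _ _ _).1 hk.2.1) (ocj g o)
    (mem_centralizer_singleton_iff.2 ?_)))
  calc g⁻¹ * t * g * (g⁻¹ * k * g) = g⁻¹ * (t * k) * g := by group
    _ = _ := by rw [← mem_centralizer_singleton_iff.1 hk.1]; group

end CL.J3O
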