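/-
A simple group of order 50232960: large centralisers of elements of order 3 have order prime to 17.
-/
import Cfsg.Agent.J3O.Defs
import Cfsg.Agent.Fgs.FixCount
import Cfsg.Agent.Grp.SylowIn

set_option autoImplicit false

open Cfsg Subgroup CL.Spor CL.Spor.MO MulAction CL.Grp CL.Fgs

namespace CL.J3O

universe u

variable {G : Type u} [Group G] [Finite G]

namespace C3

omit [Finite G] in
theorem mz {a b : G} : a ∈ 𝒵(b) ↔ Commute a b := mem_centralizer_singleton_iff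

omit [Finite G] in
theorem fx {k a g : G} : a • (g : G ⧸ 𝒵(k)) = g ↔ Commute a (g * k * g⁻¹) := by
  rw [MulAction.Quotient.smul_coe, smul_eq_mul, eq_comm, QuotientGroup.eq, mz]
  exact ⟨fun h => by simpa [mul_assoc] using h.map (MulAut.conj g),
    fun h => by simpa [mul_assoc] using h.map (MulAut.conj g⁻¹)⟩

theorem count {p : ℕ} [hp : Fact p.Prime] {X W : Subgroup G} (h : IsSylowIn p X W) :
    ∃ m, Nat.card W = Nat.card ↥(𝒩(X) ⊓ W) * m ∧ m % p = 1 := by
  refine ⟨Nat.card (Sylow p W), ?_, Eq.trans (card_sylow_modEq_one p W) (Nat.mod_eq_of_lt hp.out.one_lt)⟩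
  rw [h.toSylow.card_eq_index_normalizer, ← Nat.card_congr (subgroupOfEquivOfLe (inf_le_right : _ ⊓ W ≤ W)).toEquiv,
    inf_subgroupOf_right, subgroupOf_normalizer_eq h.le]
  exact (card_mul_index _).symm

/-- the centraliser of order 153 -/
theorem ab {y : G} (hy : orderOf y = 17) (c : Nat.card 𝒵(y) = 153) :
    (∀ a b, Commute a y → Commute b y → Commute a b) ∧
      ∃ V : Subgroup G, Nat.card V = 9 ∧ ∀ a, Commute a y → orderOf a = 3 → a ∈ V := by
  have := Fact.mk Nat.prime_three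
  obtain ⟨V, hV⟩ := exists_isSylowIn 3 𝒵(y)
  obtain ⟨m, hm⟩ := IsPGroup.iff_card.1 hV.2.1
  have e := card_mul_relIndex hV.1
  have c9 : Nat.card V = 3 ^ 2 := by
    have n3 := hV.2.2
    rw [hm, c] at e
    have : m ≤ 2 := by
      by_contra! j
      exact absurd ((pow_dvd_pow 3 j).trans (Dvd.intro _ e)) (by norm_num)
    interval_cases m
    · omega
    · omega
    · exact hm
  have cV := IsPGroup.isMulCommutative_of_card_eq_prime_sq c9
  have l : V ⊔ zpowers y ≤ 𝒵(y) := sup_le hV.1 (zpowers_le.2 (mz.2 (Commute.refl y)))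
  have e' : V ⊔ zpowers y = 𝒵(y) := eq_of_le_of_card_ge l (c ▸ Nat.le_of_dvd Nat.card_pos
    (Nat.Coprime.mul_dvd_of_dvd_of_dvd (m := 9) (n := 17) (by norm_num) (c9.symm ▸ card_dvd_of_le le_sup_left :)
      (by rw [← hy, ← Nat.card_zpowers]; exact card_dvd_of_le le_sup_right)))
  have k1 : ∀ b ∈ V, 𝒵(y) ≤ 𝒵(b) := fun b hb => e' ▸ sup_le
    (fun a ha => mz.2 (congrArg Subtype.val (cV.is_comm.comm ⟨a, ha⟩ ⟨b, hb⟩))) (zpowers_le.2 (mz.2 (mz.1 (hV.1 hb)).symm))
  have k2 : ∀ a b, Commute a y → Commute b y → Commute a b := fun a b ha hb => mz.1 ((e'.ge.trans (sup_le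
    (fun v hv => mz.2 (mz.1 (k1 v hv (mz.2 hb))).symm) (zpowers_le.2 (mz.2 hb.symm)))) (mz.2 ha))
  refine ⟨k2, V, c9, fun a ha o => hV.le_of_normalized (U := zpowers a)
    (.of_card (n := 1) (by rw [Nat.card_zpowers, o, pow_one])) (zpowers_le.2 (mz.2 ha)) (fun g hg => ?_) (mem_zpowers a)⟩
  refine centralizer_le_normalizer _ (le_centralizer_iff.1 (zpowers_le.2 ?_) (mem_zpowers g))
  rintro _ ⟨n, rfl⟩
  exact ((k2 g a (mz.1 hg) ha).zpow_left n).eq

theorem num : ∀ s < 385, ∀ t < 17, 384 % s = 0 ∧ 16 % t = 0 ∧ 45 * s % t = 0 ∧ 45 * s / t % 17 = 1 →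
    s = 48 ∨ 96 ≤ s := by decide +kernel

end C3

open C3

variable [IsSimpleGroup G]

theorem h17 (D : Nu G) : H17 G := by
  intro k hk h405
  have h1 : ¬ 19 ∣ cc k := fun h => by
    have := D.a.dvd_v Nat.prime_three (by norm_num) hk h
    rw [D.av] at this
    omega
  have h3 : cc k ∣ 155520 * 17 := by
    have := Subgroup.card_subgroup_dvd_card 𝒵(k)
    rw [D.a.card] at this
    exact Nat.Coprime.dvd_of_dvd_mul_right ((Nat.Prime.coprime_iff_not_dvd (by norm_num)).2 h1).symm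
      (show _ ∣ 155520 * 17 * 19 from this)
  by_cases h2 : 17 ∣ cc k
  swap
  · exact Nat.Coprime.dvd_of_dvd_mul_right ((Nat.Prime.coprime_iff_not_dvd (by norm_num)).2 h2).symm h3
  exfalso
  have p17 : Nat.Prime 17 := by norm_num
  have := Fact.mk p17
  obtain ⟨be, bv⟩ : D.b.e = 16 ∧ D.b.v = 9 := D.hb.resolve_left fun h => by
    have := D.b.dvd_v Nat.prime_three (by norm_num) hk h2
    rw [h.2] at this
    omega
  obtain ⟨y, yX, hy⟩ := exists_mem_orderOf_prime _ p17 h2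
  have cy : cc y = 153 := by rw [D.b.cc_eq hy, bv]
  obtain ⟨cm, V, cV, mV⟩ := ab hy cy
  have ky : Commute k y := (mz.1 yX).symm
  have cN : Nat.card 𝒩(zpowers y) = 2448 := by
    have g : Nat.card G = 17 ^ 1 * 2954880 := D.a.card
    obtain ⟨P, hP⟩ := exists_sylow_eq_zpowers g (by norm_num) hy
    obtain ⟨Q, hQ⟩ := exists_sylow_eq_zpowers g (by norm_num) D.b.hx
    have e1 := (𝒩(zpowers y)).card_mul_index
    have e2 := (𝒩(zpowers D.b.x)).card_mul_index
    rw [D.b.B.card_N, D.b.hv, bv, show D.b.B.e = 16 from be, ← hQ, Sylow.coe_coe, ← Q.card_eq_index_normalizer] at e2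
    rw [← hP, Sylow.coe_coe, ← P.card_eq_index_normalizer, ← e2] at e1
    rw [← hP, Sylow.coe_coe]
    exact Nat.eq_of_mul_eq_mul_right Nat.card_pos e1
  obtain ⟨m, hm, m1⟩ := count (p := 17) (X := zpowers y) (W := 𝒵(k)) ⟨zpowers_le.2 yX,
    .of_card (n := 1) (by rw [Nat.card_zpowers, hy, pow_one]), fun j => by
      have e := card_mul_relIndex (zpowers_le.2 yX)
      rw [Nat.card_zpowers, hy] at e
      exact absurd ((Nat.mul_dvd_mul_left 17 j).trans (e ▸ h3)) (by norm_num)⟩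
  obtain ⟨t, ht⟩ : 153 ∣ Nat.card ↥(𝒩(zpowers y) ⊓ 𝒵(k)) := cy ▸ card_dvd_of_le (le_inf
    (by rw [← centralizer_zpowers_eq]; exact centralizer_le_normalizer _) fun a ha => mz.2 (cm a k (mz.1 ha) ky))
  have t16 : t ∣ 16 := Nat.dvd_of_mul_dvd_mul_left (k := 153) (by norm_num) (by
    rw [← ht, show 153 * 16 = 2448 from rfl, ← cN]; exact card_dvd_of_le inf_le_left)
  obtain ⟨s, hs⟩ : 405 * 17 ∣ cc k := Nat.Coprime.mul_dvd_of_dvd_of_dvd (by norm_num) h405 h2
  have s384 : s ∣ 384 := Nat.dvd_of_mul_dvd_mul_left (k := 405 * 17) (by norm_num) (hs ▸ h3)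
  have e45 : 45 * s = t * m := Nat.eq_of_mul_eq_mul_left (show 0 < 153 by norm_num) (by
    rw [← mul_assoc 153 t, ← ht, ← hm, hs]; ring)
  have tp := Nat.pos_of_dvd_of_pos t16 (by norm_num)
  have ss := num s (Nat.lt_succ_of_le (Nat.le_of_dvd (by norm_num) s384)) t
    (Nat.lt_succ_of_le (Nat.le_of_dvd (by norm_num) t16)) ⟨Nat.mod_eq_zero_of_dvd s384, Nat.mod_eq_zero_of_dvd t16,
      by rw [e45, Nat.mul_mod_right], by rw [e45, Nat.mul_div_cancel_left _ tp, m1]⟩
  have cn := card_eq_card_quotient_mul_card_subgroup 𝒵(k)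
  rw [D.a.card, hs] at cn
  have nn : Nat.card (G ⧸ 𝒵(k)) = 152 ∨ Nat.card (G ⧸ 𝒵(k)) ≤ 76 := by
    rcases ss with rfl | j
    · left; omega
    · right; nlinarith
  have fy : ∀ a, Commute a y → ∀ q : G ⧸ 𝒵(k), y • q = q → a • q = q := fun a ha q hq => by
    obtain ⟨g, rfl⟩ := QuotientGroup.mk_surjective q
    exact fx.2 (cm _ _ ha (fx.1 hq).symm)
  rcases nn with n | n
  · have c1 := card_modEq_ncard_fixedBy (Ω := G ⧸ 𝒵(k)) p17 hy
    have c2 : (fixedBy (G ⧸ 𝒵(k)) y).ncard ≤ 9 := by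
      rw [← cV, ← SetLike.coe_sort_coe, Nat.card_coe_set_eq]
      refine Set.ncard_le_ncard_of_injOn (fun q => q.out * k * q.out⁻¹) (fun q hq => mV _
        (fx.1 (by rw [QuotientGroup.out_eq']; exact hq)).symm (((MulAut.conj q.out).orderOf_eq k).trans hk))
        fun q _ q' _ e => ?_
      replace e : q.out * k * q.out⁻¹ = q'.out * k * q'.out⁻¹ := e
      rw [← QuotientGroup.out_eq' q, ← QuotientGroup.out_eq' q', QuotientGroup.eq, mz]
      calc _ = q.out⁻¹ * (q'.out * k * q'.out⁻¹) * q'.out := by group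
        _ = _ := by rw [← e]; group
    rw [n, Nat.ModEq] at c1
    omega
  have orb : ∀ v, Commute v y → orderOf v = 3 → ∃ q : G ⧸ 𝒵(k), (∀ x ∈ orbit 𝒵(y) q, v • x ≠ x) ∧
      (orbit 𝒵(y) q).ncard = 51 := fun v hv o => by
    obtain ⟨q, hq⟩ : ∃ q : G ⧸ 𝒵(k), v • q ≠ q := by
      by_contra! j
      have : v ∈ (𝒵(k)).normalCore := by rw [normalCore_eq_ker]; exact Equiv.ext j
      rcases IsSimpleGroup.eq_bot_or_eq_top_of_normal (𝒵(k)).normalCore inferInstance with e | e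
      · rw [e, mem_bot] at this
        rw [this, orderOf_one] at o
        omega
      · exact h1 (by rw [top_le_iff.1 (e.ge.trans (normalCore_le _)), card_top, D.a.card]; norm_num)
    have mv : ∀ x ∈ orbit 𝒵(y) q, v • x ≠ x := by
      rintro _ ⟨a, rfl⟩ e
      refine hq (smul_left_cancel (a : G) ?_)
      rw [smul_smul, (cm a v (mz.1 a.2) hv).eq, mul_smul]; exact e
    have dv : ∀ {w : G} {r : ℕ}, r.Prime → orderOf w = r → Commute w y → (∀ x ∈ orbit 𝒵(y) q, w • x ≠ x) →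
        r ∣ (orbit 𝒵(y) q).ncard := fun {w r} hr ho c j => by
      have := ncard_modEq_inter_fixedBy hr ho (orbit 𝒵(y) q) fun x hx => mem_orbit_of_mem_orbit (⟨w, mz.2 c⟩ : 𝒵(y)) hx
      rw [Set.eq_empty_of_forall_notMem (s := _ ∩ fixedBy _ w) fun x hx => j x hx.1 hx.2, Set.ncard_empty] at this
      exact (Nat.modEq_zero_iff_dvd).1 this
    have d3 := dv Nat.prime_three o hv mv
    have d17 := dv p17 hy (Commute.refl y) fun x hx e => mv x hx (fy v hv x e)
    have l := Set.ncard_le_card (orbit 𝒵(y) q)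
    have p := (Set.ncard_pos (Set.toFinite _)).2 (⟨q, mem_orbit_self q⟩ : (orbit 𝒵(y) q).Nonempty)
    exact ⟨q, mv, by omega⟩
  obtain ⟨q, -, c⟩ := orb k ky hk
  have e := (stabilizer 𝒵(y) q).card_mul_index
  rw [index_stabilizer, c, cy] at e
  obtain ⟨v, hv, o⟩ := exists_mem_orderOf_prime (stabilizer 𝒵(y) q) Nat.prime_three (by omega)
  obtain ⟨q', mv, c'⟩ := orb v (mz.1 v.2) (by rwa [orderOf_coe])
  have d : Disjoint (orbit 𝒵(y) q) (orbit 𝒵(y) q') := Set.disjoint_left.2 (by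
    rintro _ ⟨a, rfl⟩ h
    refine mv _ h ?_
    show (v : G) • (a : G) • q = (a : G) • q
    rw [smul_smul, (cm v a (mz.1 v.2) (mz.1 a.2)).eq, mul_smul, show (v : G) • q = q from hv])
  have l := Set.ncard_le_card (orbit 𝒵(y) q ∪ orbit 𝒵(y) q')
  rw [Set.ncard_union_eq d] at l
  omega

end CL.J3O
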