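/-
Principal blocks of prime defect group: small degrees, and two blocks for different primes.
-/
import Cfsg.Agent.J3O.Defs
import Cfsg.Agent.Inv.PBBasic

set_option autoImplicit false

open Cfsg Subgroup Finset CL.Char CL.Spor CL.Spor.MO CL.Inv.PO

namespace CL.J3O

universe u

section
variable {G : Type u} [Group G] [Finite G] [IsSimpleGroup G] {g p : ℕ} (a : PBk G g p)

theorem cr_sum_split [NeZero p] (f : ZMod p → ℂ) (c : ℂ) (h : ∀ j, j ≠ 0 → f j = c) :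
    ∑ j, f j = f 0 + (p - 1) * c := by
  rw [← add_sum_erase _ _ (mem_univ 0), sum_congr rfl fun j hj => h j (ne_of_mem_erase hj), sum_const,
    card_erase_of_mem (mem_univ _), card_univ, ZMod.card, nsmul_eq_mul, Nat.cast_sub (NeZero.one_le), Nat.cast_one]

omit [Finite G] [IsSimpleGroup G] in
theorem cr_pow_ne [NeZero p] {j : ZMod p} (h : j ≠ 0) : a.x ^ j.val ≠ 1 := fun e =>
  h ((ZMod.val_eq_zero j).1 (Nat.eq_zero_of_dvd_of_lt (a.hx.symm.dvd.trans (orderOf_dvd_of_pow_eq_one e)) (ZMod.val_lt j)))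

omit [Finite G] [IsSimpleGroup G] in
theorem cr_dvd [NeZero p] {j : ZMod p} (h : j ≠ 0) : p ∣ orderOf (a.x ^ j.val) := by
  have h1 : orderOf (a.x ^ j.val) ∣ p := (orderOf_pow_dvd _).trans a.hx.dvd
  rcases (Nat.dvd_prime a.pp).1 h1 with e | e
  · exact absurd (orderOf_eq_one_iff.1 e) (cr_pow_ne a h)
  · rw [e]

theorem cr_key [NeZero p] (hv : a.v ≠ 1) {χ : IrrCharacter G} (h1 : χ ≠ irrOne G)
    (h : ∀ u ∈ zpowers a.x, u ≠ 1 → ∀ w, a.x * w = w * a.x → ¬ p ∣ orderOf w → (χ : G → ℂ) (u * w) = (χ : G → ℂ) u)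
    (hs : ∑ j : ZMod p, (χ : G → ℂ) (a.x ^ j.val) = 0) : False := by
  have : Fact p.Prime := ⟨a.pp⟩
  obtain ⟨K⟩ := nonempty_ctx_of_orderOf a.hx a.sq
  obtain ⟨q, hq, hqv⟩ := Nat.exists_prime_and_dvd hv
  have hqp : q ≠ p := by
    rintro rfl
    refine a.sq (dvd_trans ?_ (card_subgroup_dvd_card 𝒵(a.x)))
    rw [a.hv, sq]
    exact Nat.mul_dvd_mul_left _ hqv
  obtain ⟨w, hw, hw'⟩ := exists_mem_orderOf_prime _ hq (a.hv ▸ hqv.mul_left p)
  have h2 := K.sum_coset_eq_zero χ.2.isCharacter hs (K.C_le_N hw)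
  have h3 : ∑ j : ZMod p, ((χ : G → ℂ) (a.x ^ j.val * w) - (χ : G → ℂ) (a.x ^ j.val)) = 0 := by
    rw [sum_sub_distrib, h2, hs, sub_zero]
  rw [cr_sum_split _ 0 fun j hj => by
    rw [h _ (npow_mem_zpowers _ _) (cr_pow_ne a hj) w (mem_centralizer_singleton_iff.1 hw).symm (by
      rw [hw', Nat.prime_dvd_prime_iff_eq a.pp hq]; exact hqp.symm), sub_self]] at h3
  simp only [ZMod.val_zero, pow_zero, one_mul, mul_zero, add_zero, sub_eq_zero, ← χ.2.cast_charDegree] at h3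
  exact (int_abs_lt_degree a.nc h1 (g := w) (fun e => by rw [e, orderOf_one] at hw'; exact hq.one_lt.ne hw')
    (z := dg χ) (by simpa using h3)).2.ne rfl

theorem deg_ne (hv : a.v ≠ 1) {χ : IrrCharacter G} (h : χ ∈ a.X0) : dg χ + 1 ≠ p := fun hd => by
  have : NeZero p := ⟨a.pp.ne_zero⟩
  have h2 := a.two_lt
  have hs : sg p (dg χ) = -1 := by
    rw [sg, if_neg]
    rw [Nat.mod_eq_of_lt (by omega)]
    omega
  refine cr_key a hv (a.mem_X0.1 h).1 (fun u hu hu1 w hw hwp => ?_) ?_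
  · have : Fact p.Prime := ⟨a.pp⟩
    have := Fintype.ofFinite G
    obtain ⟨K⟩ := nonempty_ctx_of_orderOf a.hx a.sq
    rw [a.val_X h (K.dvd_orderOf_mul hu hu1 ((K.memC w).2 hw) hwp), a.val_X h (K.dvd_orderOf_of_mem_P hu hu1)]
  · rw [cr_sum_split _ (-1) fun j hj => by rw [a.val_X h (cr_dvd a hj), hs]; simp]
    simp only [ZMod.val_zero, pow_zero, ← χ.2.cast_charDegree]
    rw [← hd]
    push_cast
    ring

theorem F_ne (hv : a.v ≠ 1) : a.F ≠ a.e := fun hF => by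
  have : NeZero p := ⟨a.pp.ne_zero⟩
  have : Fact p.Prime := ⟨a.pp⟩
  obtain ⟨K⟩ := nonempty_ctx_of_orderOf a.hx a.sq
  have h0 := a.e_bd
  have hε : a.B.ε = 1 := by rw [← a.sign_F, hF]; exact Int.sign_natCast_of_ne_zero h0.1.ne'
  have hf : a.B.f = a.e := by rw [← a.natAbs_F, hF]; simp
  choose m hm using fun μ : IrrCharacter G => K.exists_nat_sum_P μ.2.isCharacter
  have h1 : ∑ μ ∈ a.B.Y, ∑ j : ZMod p, (μ : G → ℂ) (a.x ^ j.val) = 0 := by
    rw [sum_comm, cr_sum_split _ (-1) fun j hj => by rw [a.B.Y_sing _ (cr_dvd a hj), hε]; simp]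
    simp only [ZMod.val_zero, pow_zero]
    rw [sum_congr rfl (g := fun _ => (a.e : ℂ)) fun μ hμ => by rw [← μ.2.cast_charDegree, a.B.deg_Y μ hμ, hf],
      sum_const, nsmul_eq_mul, ← Nat.cast_mul, mul_comm, a.B.card_Y, Nat.cast_sub a.pp.one_le]
    ring
  simp only [hm, ← mul_sum, ← Nat.cast_sum, mul_eq_zero, Nat.cast_eq_zero, a.pp.ne_zero, false_or,
    sum_eq_zero_iff] at h1
  obtain ⟨μ, hμ⟩ := a.B.Y_nonempty a.pp
  exact cr_key a hv (fun e => a.B.one_notMem_Y (e ▸ hμ)) (a.B.Y_mul μ hμ) (by rw [hm, h1 μ hμ]; simp)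

theorem cr_sn_X {χ : IrrCharacter G} (h : χ ∈ a.X0) : sn p a.e (dg χ) = sg p (dg χ) := by
  have h1 := a.B.e_ne_one a.perf a.pp a.hx a.sq
  have h2 := a.e_bd
  have h3 := a.two_lt
  rcases (a.s_eq (a.mem_X0.1 h).2).2 with e | e
  · simp [sn, ng, sg, e]
  · have h4 : p - 1 ≠ p - a.e := by simp only [PBk.e] at *; omega
    have h5 : p - 1 ≠ 1 := by omega
    simp [sn, ng, sg, e, h4, h5]

theorem cr_sn_Y {χ : IrrCharacter G} (h : χ ∈ a.B.Y) : sn p a.e (dg χ) = -a.F.sign := by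
  have h1 := a.B.e_ne_one a.perf a.pp a.hx a.sq
  have h2 := a.e_bd
  have h3 := a.pp.eq_two_or_odd.resolve_left a.p2
  rw [a.B.deg_Y χ h, a.sign_F]
  rcases a.f_mod with ⟨e1, e⟩ | ⟨e1, e⟩
  · have h4 : a.e ≠ p - a.e := by omega
    simp [sn, ng, e, e1, h4, h1]
  · simp [sn, ng, e, e1]

end

theorem cross : Cross.{u} := by
  intro G _ _ _ g p q a b hpq hq
  classical
  have := Fintype.ofFinite G
  by_contra hc
  obtain ⟨μ, hμ⟩ := a.B.Y_nonempty a.pp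
  obtain ⟨ν, hν⟩ := b.B.Y_nonempty b.pp
  have hνX : ν ∉ b.X0 := fun h => b.B.disj ν (b.mem_X0.1 h).2 hν
  have hμX : μ ∉ a.X0 := fun h => a.B.disj μ (a.mem_X0.1 h).2 hμ
  have hT : ∀ χ ∈ insert ν b.X0, χ ∈ b.S := fun χ h =>
    b.mem_S_iff.2 ((mem_insert.1 h).elim (fun e => .inr (e ▸ hν)) .inl)
  have hT' : ∀ χ ∈ insert μ a.X0, χ ∈ a.S := fun χ h =>
    a.mem_S_iff.2 ((mem_insert.1 h).elim (fun e => .inr (e ▸ hμ)) .inl)
  set θ : G → ℂ := (irrOne G : G → ℂ) + ∑ χ ∈ insert ν b.X0, (sn q b.e (dg χ) : ℂ) • (χ : G → ℂ) with hθ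
  have h1 := a.comb (θ := θ) (z := 0) (fun w hw => by
    have h2 : ¬ q ∣ orderOf w := fun h => hq (a.dvd_v b.pp hpq.symm (orderOf_pow_orderOf_div (orderOf_pos w).ne' h)
      (hw.trans (orderOf_dvd_card_of_mem (mem_centralizer_singleton_iff.2 (Commute.pow_right rfl _).eq))))
    rw [← b.lin h2 hν, hθ, Pi.add_apply, Finset.sum_apply, sum_insert hνX, cr_sn_Y b hν,
      sum_congr rfl fun χ hχ => by rw [cr_sn_X b hχ]]
    simp only [Pi.smul_apply, smul_eq_mul, irrOne_apply]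
    push_cast
    ring) hμ
  have h2 : ∀ ψ : IrrCharacter G, classInner θ ψ = (((if ψ = irrOne G then 1 else 0) +
      if ψ ∈ insert ν b.X0 then sn q b.e (dg ψ) else 0 : ℤ) : ℂ) := fun ψ => by
    rw [hθ, classInner_add_left, classInner_sum_left, classInner_irr]
    simp only [classInner_smul_left, classInner_irr, mul_ite, mul_one, mul_zero, sum_ite_eq', eq_comm (a := irrOne G)]
    split_ifs <;> simp
  have h3 : (1 : ℤ) + ∑ χ ∈ insert μ a.X0, sn p a.e (dg χ) * (if χ ∈ insert ν b.X0 then sn q b.e (dg χ) else 0) = 0 := by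
    rw [h2, h2, if_pos rfl, if_neg fun h => b.one_notMem (hT _ h), if_neg fun e : μ = irrOne G => a.B.one_notMem_Y (e ▸ hμ),
      sum_congr rfl fun χ hχ => by rw [h2, if_neg (a.mem_X0.1 hχ).1, ← cr_sn_X a hχ]] at h1
    rw [sum_insert hμX, cr_sn_Y a hμ]
    have : ((1 + (-a.F.sign * (if μ ∈ insert ν b.X0 then sn q b.e (dg μ) else 0) + ∑ χ ∈ a.X0,
        sn p a.e (dg χ) * (if χ ∈ insert ν b.X0 then sn q b.e (dg χ) else 0)) : ℤ) : ℂ) = 0 := by
      rw [← h1]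
      push_cast
      simp only [zero_add]
      ring
    exact_mod_cast this
  have h4 : (0 : ℤ) ≤ ∑ χ ∈ insert μ a.X0, sn p a.e (dg χ) * (if χ ∈ insert ν b.X0 then sn q b.e (dg χ) else 0) := by
    refine sum_nonneg fun χ hχ => ?_
    split_ifs with h
    · have h5 : sn p a.e (dg χ) * sn q b.e (dg χ) ≠ -1 := fun e => hc ⟨χ, hT' χ hχ, hT χ h, e⟩
      unfold sn at h5 ⊢
      split_ifs at h5 ⊢ <;> simp at h5 ⊢
    · simp
  omega

end CL.J3O
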