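/-
A simple group of order 50232960: the numerics for automiser 2 and subgroups of small index.
-/
import Cfsg.Agent.J3O.Defs

set_option autoImplicit false
set_option maxRecDepth 100000

open Cfsg Subgroup CL.Spor CL.Spor.MO CL.Char

namespace CL.J3O

universe u

theorem num_two : ∀ K ∈ divL [128, 243, 5],
    (128 ∣ K → ¬ 5 ∣ K → valAll 50232960 5 2 1 K [324] (-323) (fun _ => false) = true) ∧
    (128 ∣ K → valAll 50232960 5 2 16 K [324] (-323) (fun _ => false) = true) ∧
    (128 ∣ K → K ≠ 1920 → valAll 50232960 5 2 6 K [324] (-323) (fun _ => false) = true) ∧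
    (5 ∣ K → 81 ∣ K → valAll 50232960 5 2 96 K [324] (-323) (fun _ => false) = true) := by
  decide +kernel

/-- A nontrivial irreducible character of degree at least the index has no fixed vectors on the subgroup. -/
theorem inner_res_eq_zero {G : Type*} [Group G] [Fintype G] (H : Subgroup G) [Fintype H] {χ : IrrCharacter G}
    (h1 : χ ≠ irrOne G) (h2 : H.index ≤ dg χ) : classInner (fun h : H => (χ : G → ℂ) h) (irrOne H) = 0 := by
  classical
  by_contra hne
  obtain ⟨m, hm, hs⟩ := exists_mult (isCharacter_indFun_one H)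
  have e0 : m (irrOne G) = 1 := by
    have := hm (irrOne G)
    rw [frobenius_reciprocity _ (irrOne G).2.isClassFunction] at this
    have e : classInner (fun _ : H => (1 : ℂ)) (fun h : H => (irrOne G : G → ℂ) h) = 1 :=
      isIrrCharacter_one.classInner_self
    exact_mod_cast this.symm.trans e
  have e1 : m χ ≠ 0 := fun e => hne (by
    have := hm χ
    rw [frobenius_reciprocity _ χ.2.isClassFunction, e, Nat.cast_zero] at this
    rw [← conj_classInner]
    exact (congrArg (starRingEnd ℂ) this).trans (map_zero _))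
  have e2 := mult_int hs apply_one_eq (z := H.index) (by rw [indFun_one, mul_one, Int.cast_natCast])
  have e3 : ∑ ψ ∈ {irrOne G, χ}, (m ψ : ℤ) * (dg ψ : ℤ) ≤ ∑ ψ : IrrCharacter G, (m ψ : ℤ) * (dg ψ : ℤ) :=
    Finset.sum_le_sum_of_subset_of_nonneg (Finset.subset_univ _) fun _ _ _ => by positivity
  rw [Finset.sum_pair h1.symm, e2, e0, charDegree_irrOne] at e3
  have e4 : (1 : ℤ) ≤ m χ := by exact_mod_cast Nat.one_le_iff_ne_zero.2 e1
  have e5 : (H.index : ℤ) ≤ dg χ := by exact_mod_cast h2
  have e6 : (0 : ℤ) ≤ dg χ := Int.natCast_nonneg _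
  push_cast at e3
  nlinarith

open scoped Classical in
/-- The number of `p`-singular elements in terms of the principal block. -/
theorem inner_sing {K : Type*} [Group K] [Fintype K] {p : ℕ} {x : K} (B : PB K p x) (hp : p.Prime) :
    classInner (fun g : K => (p : ℂ) * if p ∣ orderOf g then 1 else 0) (irrOne K) = B.Y.card := by
  have e : (fun g : K => (p : ℂ) * if p ∣ orderOf g then 1 else 0) =
      (B.Y.card : ℂ) • ∑ χ ∈ B.X, (B.s χ : ℂ) • (χ : K → ℂ) - (B.ε : ℂ) • ∑ μ ∈ B.Y, (μ : K → ℂ) := by
    funext g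
    rw [← B.A_eq hp g]
    simp [Finset.sum_apply]
  rw [e, classInner_sub_left, classInner_smul_left, classInner_smul_left, classInner_sum_left, classInner_sum_left,
    Finset.sum_eq_single (irrOne K) (fun χ _ hne => by rw [classInner_smul_left, classInner_irr, if_neg hne, mul_zero])
      (fun h => (h B.one_mem).elim), Finset.sum_eq_zero fun μ hμ => by
        rw [classInner_irr, if_neg fun h : μ = irrOne K => B.one_notMem_Y (h ▸ hμ)],
    classInner_smul_left, classInner_irr, if_pos rfl, B.s_one]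
  simp

variable {G : Type u} [Group G] [Finite G] [IsSimpleGroup G]

theorem two_cases (D : Nu G) (h : Two D.c) :
    (D.c.v = 6 ∧ ∀ z : G, orderOf z = 2 → 128 ∣ cc z → cc z = 1920) ∨
      (D.c.v = 96 ∧ ∀ r : G, orderOf r = 2 → 5 ∣ cc r → ¬ 81 ∣ cc r) := by
  obtain ⟨he, hc, hF, hv⟩ := h
  have key : ∀ y : G, orderOf y = 2 →
      ¬ valAll 50232960 5 2 D.c.v (cc y) [324] (-323) (fun _ => false) = true := fun y hy k => by
    obtain ⟨T, hT, -⟩ := exists_invol_values D.c.perf hy
    rw [← he, ← hc, ← hF] at k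
    obtain ⟨l, -, hl⟩ := D.c.val_true hy hT k
    simp at hl
  have num := fun (y : G) (hy : orderOf y = 2) =>
    num_two (cc y) (mem_divL _ (by norm_num) _ (by simpa using D.inv_dvd hy))
  obtain ⟨z, -, hz, hz'⟩ := exists_invol_normal (⊤ : Subgroup G) (by rw [Subgroup.card_top, D.c.card]; norm_num)
  have h128 : 128 ∣ cc z := by
    have h1 := (Subgroup.centralizer ({z} : Set G)).index_mul_card
    rw [D.c.card] at h1
    refine (Nat.Coprime.pow_left 7 (Nat.coprime_two_left.2 hz')).dvd_of_dvd_mul_left ?_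
    rw [h1]
    norm_num
  rcases hv with hv | hv | hv | hv
  · refine (key z hz ?_).elim
    rw [hv]
    refine (num z hz).1 h128 fun k => ?_
    have := D.c.dvd_v Nat.prime_two (by norm_num) hz k
    rw [hv] at this
    omega
  · refine Or.inl ⟨hv, fun y hy k => by_contra fun hne => key y hy ?_⟩
    rw [hv]
    exact (num y hy).2.2.1 k hne
  · refine (key z hz ?_).elim
    rw [hv]
    exact (num z hz).2.1 h128
  · refine Or.inr ⟨hv, fun y hy k k' => key y hy ?_⟩
    rw [hv]
    exact (num y hy).2.2.2 k k'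

theorem il (c : PBk G 50232960 5) (hP : Pat c [816, 969, 2584, 2736]) : IL c.x := by
  classical
  intro H hx hi
  have := Fintype.ofFinite G
  have := Fintype.ofFinite H
  have hx5 : orderOf (⟨c.x, hx⟩ : H) = 5 := by rw [← Subgroup.orderOf_coe, c.hx]
  obtain ⟨B⟩ := nonempty_PB Nat.prime_five hx5 fun k => c.sq (k.trans (Subgroup.card_subgroup_dvd_card H))
  have h1 := inner_sing B Nat.prime_five
  have hd : ∀ χ ∈ c.S, classInner (fun h : H => (χ : G → ℂ) h) (irrOne H) = 0 := fun χ hχ => by
    refine inner_res_eq_zero H (fun e => c.one_notMem (e ▸ hχ)) (hi.trans ?_)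
    have : dg χ ∈ c.S.val.map (fun χ => dg χ) := Multiset.mem_map_of_mem _ hχ
    rw [hP.2] at this
    simp only [Multiset.mem_coe, List.mem_cons, List.not_mem_nil, or_false] at this
    omega
  have hS : c.S.card = 4 := by
    have := congrArg Multiset.card hP.2
    simpa using this
  have e : (fun g : H => ((5 : ℕ) : ℂ) * if 5 ∣ orderOf g then 1 else 0) =
      (irrOne H : H → ℂ) + ∑ χ ∈ c.S, (sg 5 (dg χ) : ℂ) • fun h : H => (χ : G → ℂ) h := by
    funext g
    simp only [Pi.add_apply, Finset.sum_apply, Pi.smul_apply, smul_eq_mul, irrOne_apply]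
    split_ifs with hg
    · rw [Finset.sum_congr rfl (g := fun _ => 1) fun χ hχ => ?_]
      · simp [hS]
        norm_num
      · rw [c.val_top hP.1 hχ (by rwa [Subgroup.orderOf_coe]), sg]
        split_ifs <;> simp
    · rw [c.lin_top hP.1 (by rwa [Subgroup.orderOf_coe]), mul_zero]
  rw [e, classInner_add_left, classInner_sum_left, classInner_irr, if_pos rfl, Finset.sum_eq_zero fun χ hχ => by
    rw [classInner_smul_left, hd χ hχ, mul_zero], add_zero] at h1
  have h2 : B.Y.card = 1 := by exact_mod_cast h1.symm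
  have h3 := B.card_Y
  rw [h2, mul_one] at h3
  have h4 := B.card_N
  have h5 : Nat.card ↥(H ⊓ 𝒩(zpowers c.x)) = Nat.card 𝒩(zpowers (⟨c.x, hx⟩ : H)) := by
    rw [← Nat.card_congr (Subgroup.subgroupOfEquivOfLe inf_le_left).toEquiv, inf_subgroupOf_left]
    have h6 : zpowers (⟨c.x, hx⟩ : H) = (zpowers c.x).subgroupOf H := by
      ext y
      simp only [Subgroup.mem_subgroupOf, Subgroup.mem_zpowers_iff, Subtype.ext_iff, SubgroupClass.coe_zpow]
    rw [h6, ← Subgroup.subgroupOf_normalizer_eq (by rwa [Subgroup.zpowers_le])]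
  rw [h5, h4, h3]
  exact dvd_mul_right _ _

end CL.J3O
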