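/-
A simple group of order 50232960: Frobenius–Schur indicators in the principal 5-block.
-/
import Cfsg.Agent.J3O.Defs
import Cfsg.Agent.Char.FSParity
import Cfsg.Agent.Char.Kernel

set_option autoImplicit false

open Cfsg Subgroup CL.Spor CL.Spor.MO CL.Char Finset

namespace CL.J3O

universe u

section FSaux

variable {H : Type*} [Group H] [Fintype H] {x : H}

omit [Fintype H] in
private theorem fs_ord (hx : orderOf x = 5) {u t : H} (hu : u ∈ zpowers x) (h1 : u ≠ 1) (ht : t ∈ 𝒵(x))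
    (h5 : ¬ 5 ∣ orderOf t) : 5 ∣ orderOf (u * t) := by
  have hc : Commute u t := by
    obtain ⟨i, rfl⟩ := hu
    exact Commute.zpow_left (mem_centralizer_singleton_iff.1 ht).symm i
  have hu5 : orderOf u = 5 := by
    have : Fact (Nat.Prime 5) := ⟨by norm_num⟩
    refine orderOf_eq_prime ?_ h1
    obtain ⟨i, rfl⟩ := hu
    show (x ^ i) ^ 5 = 1
    rw [← hx, ← zpow_natCast, ← zpow_mul, mul_comm, zpow_mul, zpow_natCast, pow_orderOf_eq_one, one_zpow]
  rw [hc.orderOf_mul_eq_mul_orderOf_of_coprime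
    (hu5 ▸ (Nat.Prime.coprime_iff_not_dvd (by norm_num)).2 h5), hu5]
  exact dvd_mul_right _ _

open scoped Classical in
private theorem fs_in (hx : orderOf x = 5) {t : H} (ht : t ∈ 𝒵(x)) (h5 : ¬ 5 ∣ orderOf t) {χ : H → ℂ} {s : ℂ}
    (hs : ∀ g, 5 ∣ orderOf g → χ g = s) : ∑ u : zpowers x, χ (u * t) = χ t + 4 * s := by
  rw [← add_sum_erase _ _ (mem_univ 1), sum_congr rfl (g := fun _ => s) fun u hu =>
    hs _ (fs_ord hx u.2 (fun e => ne_of_mem_erase hu (Subtype.ext e)) ht h5), sum_const, card_erase_of_mem (mem_univ _),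
    card_univ, Fintype.card_zpowers, hx]
  simp

open scoped Classical in
private theorem fs_out (hx : orderOf x = 5) [hn : (zpowers x).Normal] {t : H} (ht : t ∉ 𝒵(x)) {χ : H → ℂ}
    (hc : IsClassFunction H χ) : ∑ u : zpowers x, χ (u * t) = 5 * χ t := by
  have : Fact (Nat.Prime 5) := ⟨by norm_num⟩
  have hb : 𝒵(t).subgroupOf (zpowers x) = ⊥ := by
    have : Fact (Nat.card (zpowers x)).Prime := ⟨by rw [Nat.card_zpowers, hx]; norm_num⟩
    refine (eq_bot_or_eq_top_of_prime_card _).resolve_right fun e => ht ?_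
    have : (⟨x, mem_zpowers x⟩ : zpowers x) ∈ 𝒵(t).subgroupOf (zpowers x) := e ▸ mem_top _
    exact mem_centralizer_singleton_iff.2 (mem_centralizer_singleton_iff.1 this).symm
  let f : zpowers x → zpowers x := fun w => ⟨w * (t * (w : H)⁻¹ * t⁻¹), mul_mem w.2 (hn.conj_mem _ (inv_mem w.2) t)⟩
  have hf : Function.Injective f := fun w w' e => by
    have e' : (w : H) * (t * (w : H)⁻¹ * t⁻¹) = w' * (t * (w' : H)⁻¹ * t⁻¹) := congrArg Subtype.val e
    have : w'⁻¹ * w ∈ 𝒵(t).subgroupOf (zpowers x) := by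
      rw [mem_subgroupOf, mem_centralizer_singleton_iff, Subgroup.coe_mul, Subgroup.coe_inv]
      calc _ = (w' : H)⁻¹ * (w * (t * (w : H)⁻¹ * t⁻¹)) * t * w := by group
        _ = _ := by rw [e']; group
    rw [hb, mem_bot, inv_mul_eq_one] at this
    exact this.symm
  rw [← (Finite.injective_iff_bijective.1 hf).sum_comp, sum_congr rfl (g := fun _ => χ t) fun w _ => ?_, sum_const,
    card_univ, Fintype.card_zpowers, hx]
  · simp
  · rw [← hc t w]
    exact congrArg χ (by simp only [f]; group)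

private theorem fs_key (hx : orderOf x = 5) [hn : (zpowers x).Normal] (h25 : ¬ 25 ∣ Nat.card H)
    (hi : Nat.card H = 4 * Nat.card 𝒵(x)) {χ : H → ℂ} (hc : IsClassFunction H χ) {s : ℂ}
    (hs : ∀ g, 5 ∣ orderOf g → χ g = s)
    (he : ∀ K : Subgroup H, ∃ m : ℕ, ∑ᶠ k : K, χ k = Nat.card K * (2 * m)) : ∃ m : ℤ, s = 2 * m := by
  classical
  have h5 : ¬ 5 ∣ (zpowers x).index := fun h => h25 (by
    rw [← (zpowers x).card_mul_index, Nat.card_zpowers, hx]
    exact Nat.mul_dvd_mul_left 5 h)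
  obtain ⟨T, hT⟩ := exists_right_complement'_of_coprime (N := zpowers x) (by
    rw [Nat.card_zpowers, hx]
    exact (Nat.Prime.coprime_iff_not_dvd (by norm_num)).2 h5)
  have ho : ∀ t : T, ¬ 5 ∣ orderOf (t : H) := fun t h =>
    h5 (hT.symm.index_eq_card ▸ h.trans (T.orderOf_dvd_natCard t.2))
  have hsum : ∀ φ : H → ℂ, ∑ g, φ g = ∑ t : T, ∑ u : zpowers x, φ (u * t) := fun φ => by
    rw [← Function.Bijective.sum_comp hT φ, Fintype.sum_prod_type, sum_comm]
    rfl
  have hmem : ∀ (u : zpowers x) (t : H), (u : H) * t ∈ 𝒵(x) ↔ t ∈ 𝒵(x) := fun u t =>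
    Subgroup.mul_mem_cancel_left _ (zpowers_le.2 (mem_centralizer_singleton_iff.2 rfl) u.2)
  have hC : ∀ (φ : H → ℂ) (r : ℂ), (∀ g, 5 ∣ orderOf g → φ g = r) → ∑ k : 𝒵(x), φ k =
      ∑ t : T, (if (t : H) ∈ 𝒵(x) then φ t else 0) + 4 * r * ∑ t : T, (if (t : H) ∈ 𝒵(x) then 1 else 0) :=
    fun φ r h => by
      rw [← sum_subtype (s := univ.filter (· ∈ 𝒵(x))) (by simp), sum_filter, hsum, mul_sum, ← sum_add_distrib]
      refine sum_congr rfl fun t _ => ?_
      simp only [hmem]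
      split_ifs with ht
      · rw [fs_in hx ht (ho t) h, mul_one]
      · simp
  have e1 : ∑ t : T, χ t = ∑ t : T, (if (t : H) ∈ 𝒵(x) then 0 else χ t) +
      ∑ t : T, (if (t : H) ∈ 𝒵(x) then χ t else 0) := by
    rw [← sum_add_distrib]
    exact sum_congr rfl fun t _ => by split_ifs <;> simp
  have e2 := hC χ s hs
  have e3 : ∑ g, χ g = 5 * ∑ t : T, (if (t : H) ∈ 𝒵(x) then 0 else χ t) +
      ∑ t : T, (if (t : H) ∈ 𝒵(x) then χ t else 0) + 4 * s * ∑ t : T, (if (t : H) ∈ 𝒵(x) then 1 else 0) := by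
    rw [hsum, mul_sum, mul_sum, ← sum_add_distrib, ← sum_add_distrib]
    refine sum_congr rfl fun t _ => ?_
    split_ifs with ht
    · rw [fs_in hx ht (ho t) hs]; ring
    · rw [fs_out hx ht hc]; ring
  have e4 := hC (fun _ => 1) 1 fun _ _ => rfl
  rw [sum_const, card_univ, ← Nat.card_eq_fintype_card, nsmul_eq_mul, mul_one] at e4
  have e5 : ((_ : ℕ) : ℂ) = _ := congrArg Nat.cast hi
  have e6 : ((_ : ℕ) : ℂ) = _ := congrArg Nat.cast hT.card_mul_card
  rw [Nat.card_zpowers, hx] at e6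
  push_cast at e5 e6
  obtain ⟨m1, h1⟩ := he T
  obtain ⟨m2, h2⟩ := he 𝒵(x)
  obtain ⟨m3, h3⟩ := he ⊤
  rw [finsum_eq_sum_of_fintype] at h1 h2 h3
  rw [card_top, Fintype.sum_equiv (topEquiv (G := H)).toEquiv (fun i => χ i) χ fun _ => rfl] at h3
  have h0 : (Nat.card H : ℂ) ≠ 0 := natCard_ne_zero
  refine ⟨m2 + m3 - m1, mul_left_cancel₀ h0 ?_⟩
  push_cast
  linear_combination 4 * h2 + h3 - 5 * h1 - 4 * e2 - e3 + 5 * e1 + (s - 2 * m2) * e5 + 4 * s * e4 - 2 * m1 * e6

end FSaux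

variable {G : Type u} [Group G] [Finite G] [IsSimpleGroup G]

omit [IsSimpleGroup G] in
private theorem fs_one [Fintype G] (c : PBk G 50232960 5) (he : c.e = 4) {χ : IrrCharacter G} (hχ : χ ∈ c.S)
    (h : ∀ g, ((χ : G → ℂ) g).im = 0) : fsInd (χ : G → ℂ) = 1 := by
  classical
  refine (fsInd_of_real χ.2 h).resolve_right fun h1 => ?_
  let N := 𝒩(zpowers c.x)
  let x : N := ⟨c.x, le_normalizer (mem_zpowers _)⟩
  have hz : zpowers x = (zpowers c.x).subgroupOf N := by
    rw [← map_subtype_inj, MonoidHom.map_zpowers, subgroupOf_map_subtype, inf_eq_left.2 le_normalizer]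
    rfl
  have hn : (zpowers x).Normal := hz ▸ normal_in_normalizer
  have hC : 𝒵(c.x) ≤ N := by
    refine le_trans ?_ (centralizer_le_normalizer _)
    rw [zpowers_eq_closure, centralizer_closure]
  have hc : 𝒵(x) = 𝒵(c.x).subgroupOf N := by
    ext g
    rw [mem_subgroupOf, mem_centralizer_singleton_iff, mem_centralizer_singleton_iff, Subtype.ext_iff]
    rfl
  obtain ⟨m, hm⟩ := fs_key (x := x) (χ := fun g => (χ : G → ℂ) g) (s := sg 5 (dg χ))
    ((Subgroup.orderOf_mk _ _).trans c.hx) (fun k => c.sq (k.trans (card_subgroup_dvd_card N)))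
    (by rw [hc, Nat.card_congr (subgroupOfEquivOfLe hC).toEquiv, ← he]; exact c.B.card_N)
    (fun g k => χ.2.isClassFunction g k) (fun g hg => c.val_top he hχ (by rwa [Subgroup.orderOf_coe])) fun K => by
      obtain ⟨m, hm⟩ := fsp_even_of_neg (N.subtype.comp K.subtype) χ.2 h1
      rw [classInner_one_right, inv_mul_eq_iff_eq_mul₀ natCard_ne_zero] at hm
      exact ⟨m, by rw [finsum_eq_sum_of_fintype]; exact hm⟩
  have h2 : sg 5 (dg χ) = 2 * m := by exact_mod_cast hm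
  rw [sg] at h2
  split_ifs at h2 <;> omega

set_option linter.unusedSectionVars false in
theorem fs (c : PBk G 50232960 5) (he : c.e = 4) (h : ∀ χ ∈ c.S, ∀ g, ((χ : G → ℂ) g).im = 0) :
    ∑ χ ∈ c.S, sg 5 (dg χ) = 0 := by
  have := Fintype.ofFinite G
  have h0 : (Nat.card G : ℂ) ≠ 0 := natCard_ne_zero
  have h1 : ∀ g : G, ∑ χ ∈ c.S, sg 5 (dg χ) * (χ : G → ℂ) (g * g) = ∑ χ ∈ c.S, sg 5 (dg χ) * (χ : G → ℂ) g :=
    fun g => by
      have hd : orderOf (g * g) ∣ orderOf g := pow_two g ▸ orderOf_pow_dvd 2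
      by_cases hg : 5 ∣ orderOf g
      · have h2 : 5 ∣ orderOf (g * g) := by
          have : orderOf g ∣ 2 * orderOf (g * g) :=
            orderOf_dvd_of_pow_eq_one (by rw [pow_mul, pow_two, pow_orderOf_eq_one])
          exact (Nat.Coprime.dvd_mul_left (by norm_num)).1 (hg.trans this)
        exact sum_congr rfl fun χ hχ => by rw [c.val_top he hχ hg, c.val_top he hχ h2]
      · exact add_left_cancel ((c.lin_top he fun k => hg (k.trans hd)).trans (c.lin_top he hg).symm)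
  have h2 := sum_congr (s₁ := (univ : Finset G)) rfl fun g _ => h1 g
  rw [sum_comm, sum_comm (s := univ)] at h2
  simp only [← mul_sum] at h2
  rw [sum_congr rfl (g := fun χ => (sg 5 (dg χ) : ℂ) * Nat.card G) fun χ hχ => ?_,
    sum_eq_zero (s := c.S) (f := fun χ => (sg 5 (dg χ) : ℂ) * ∑ g, (χ : G → ℂ) g) fun χ hχ => ?_, ← sum_mul] at h2
  · exact_mod_cast (mul_eq_zero.1 h2).resolve_right h0
  · rw [χ.2.sum_eq_zero fun e => c.one_notMem ((Subtype.ext e : χ = irrOne G) ▸ hχ), mul_zero]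
  · have h3 := fs_one c he hχ (h χ hχ)
    rw [fsInd, inv_mul_eq_iff_eq_mul₀ h0, mul_one] at h3
    rw [h3]

end CL.J3O
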