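/-
A simple group of order 50232960: the degree pattern 816, 969, 2584, 2736 with `v = 8` or `v = 18` is impossible.
-/
import Cfsg.Agent.J3O.Defs

set_option autoImplicit false

open Cfsg Subgroup CL.Spor CL.Spor.MO

namespace CL.J3O

universe u

namespace JPx

abbrev V4 : Type := ℤ × ℤ × ℤ × ℤ

def gv (l : List (ℕ × ℤ)) (d : ℕ) : ℤ := (l.map fun x => if x.1 = d then x.2 else 0).sum

def vec (l : List (ℕ × ℤ)) : V4 := (gv l 816, gv l 969, gv l 2584, gv l 2736)

def NN (a b : V4) : ℤ :=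
  46512 + 57 * (a.1 * b.1) - 48 * (a.2.1 * b.2.1) - 18 * (a.2.2.1 * b.2.2.1) + 17 * (a.2.2.2 * b.2.2.2)

def cmp (a b : V4) : Bool := NN a b * NN a b == NN a a * NN b b

def cases : List (List ℕ × ℤ) :=
  [([969, 2584, 2736], -816), ([816, 2584, 2736], 969), ([816, 969, 2736], 2584), ([816, 969, 2584], -2736)]

noncomputable def chk (v m : ℕ) (P : V4 → Bool) : Bool :=
  cases.all fun q => (divL [128, 243, 5]).all fun K => K % m != 0 ||
    valAll 50232960 5 4 v K q.1 q.2 fun l => P (vec l)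

def Z1 : List V4 := [(16, -23, 40, 0), (-32, -23, -56, -48)]

def Z2 : List V4 := [(-64, -71, 104, 96), (-64, 89, -56, 96), (-144, 9, -296, -144)]

theorem c1 : ∀ v ∈ [8, 18], chk v 128 (fun a => Z2.elem a || (v == 8 && Z1.elem a)) = true := by
  decide +kernel

theorem c2 : chk 8 10 (fun a => Z1.all fun z => !cmp z a) = true := by
  decide +kernel

theorem c3 : ∀ v ∈ [8, 18], chk v 2
    (fun a => Nat.blt 48 a.1.natAbs || Nat.blt 57 a.2.1.natAbs || Z2.all fun z => !cmp z a) = true := by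
  decide +kernel

theorem gv_perm {l l' : List (ℕ × ℤ)} (h : l.Perm l') (d : ℕ) : gv l d = gv l' d := (h.map _).sum_eq

theorem exists_list {α β : Type*} (f : α → β) (l : List β) :
    ∀ m : Multiset α, m.map f = l → ∃ L : List α, m = L ∧ L.map f = l := by
  classical
  induction l with
  | nil => exact fun m h => ⟨[], Multiset.map_eq_zero.1 h, rfl⟩
  | cons b l ih =>
    intro m h
    obtain ⟨a, h1, h2, h3⟩ := (Multiset.map_eq_cons f m l b).2 h
    obtain ⟨L, k1, k2⟩ := ih _ h3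
    exact ⟨a :: L, by rw [← Multiset.cons_coe, ← k1, Multiset.cons_erase h1], by rw [List.map_cons, h2, k2]⟩

variable {G : Type u} [Group G] [Finite G]

omit [Finite G] in
theorem mem_cases (c : PBk G 50232960 5) (hP : Pat c [816, 969, 2584, 2736]) : (c.c, c.F) ∈ cases := by
  have h := c.map_dg
  rw [hP.2, hP.1, c.natAbs_F, Multiset.coe_eq_coe] at h
  have hs : c.c.Pairwise (· ≤ ·) := Multiset.pairwise_sort _ _
  have hf : c.B.f ∈ [816, 969, 2584, 2736] := h.mem_iff.2 (by simp)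
  have h1 : c.c.Perm ([816, 969, 2584, 2736].erase c.B.f) := by
    have := (h.trans List.perm_append_comm).erase c.B.f
    simpa using this.symm
  have h2 := c.f_mod
  rw [hP.1] at h2
  rw [PBk.F]
  generalize c.B.f = f at *
  simp only [List.mem_cons, List.not_mem_nil, or_false] at hf
  rcases hf with rfl | rfl | rfl | rfl <;> rw [h1.eq_of_pairwise' hs (by decide)] <;>
    rcases h2 with ⟨e, k⟩ | ⟨e, k⟩ <;> first | (exfalso; omega) | (rw [e]; decide)

theorem q2S (c : PBk G 50232960 5) (he : c.e = 4) : ∃ n : G → ℂ, ∀ a b : G, a * a = 1 → b * b = 1 →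
    (50232960 * (5 * c.v) : ℂ) * (1 + ∑ χ ∈ c.S, sg 5 (dg χ) * ((χ : G → ℂ) a * (χ : G → ℂ) b / dg χ)) = n a * n b := by
  have := Fintype.ofFinite G
  obtain ⟨μ, h1, h2, h3⟩ := c.exists_top he
  have hμ : μ ∈ c.B.Y := h1 ▸ Finset.mem_singleton_self μ
  refine ⟨fun a => (invSet c.x a).card * cc a, fun a b ha hb => ?_⟩
  have h := c.B.q2 c.pp c.p2 c.hx c.sq ha hb hμ
  rw [c.sum_s fun χ => (χ : G → ℂ) a * (χ : G → ℂ) b / dg χ, c.card, c.hv, ← c.B.deg_Y μ hμ, ← c.sign_F,
    charDegree_irrOne, CL.Char.irrOne_apply, CL.Char.irrOne_apply] at h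
  rw [h3, h2]
  push_cast at h ⊢
  linear_combination h

variable [IsSimpleGroup G]

theorem setup (D : Nu G) (hP : Pat D.c [816, 969, 2584, 2736]) : ∃ W : G → V4,
    (∀ u w, orderOf u = 2 → orderOf w = 2 → cmp (W u) (W w) = true) ∧
    (∀ u, orderOf u = 2 → ∀ m P, m ∣ cc u → chk D.c.v m P = true → P (W u) = true) ∧
    (HJ G → ∃ j, orderOf j = 2 ∧ (W j).1.natAbs ≤ 48 ∧ (W j).2.1.natAbs ≤ 57) := by
  obtain ⟨L, hL, k⟩ := exists_list _ _ _ hP.2
  obtain ⟨χ₁, L, rfl, d1, k⟩ := List.map_eq_cons_iff.1 k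
  obtain ⟨χ₂, L, rfl, d2, k⟩ := List.map_eq_cons_iff.1 k
  obtain ⟨χ₃, L, rfl, d3, k⟩ := List.map_eq_cons_iff.1 k
  obtain ⟨χ₄, L, rfl, d4, k⟩ := List.map_eq_cons_iff.1 k
  obtain rfl := List.map_eq_nil_iff.1 k
  choose! T hT _ using fun (u : G) (hu : orderOf u = 2) => exists_invol_values D.c.perf hu
  refine ⟨fun u => (T u χ₁, T u χ₂, T u χ₃, T u χ₄), fun u w hu hw => ?_, fun u hu m P hm h => ?_, fun ⟨j, hj, h⟩ => ?_⟩
  · obtain ⟨n, hn⟩ := q2S D.c hP.1
    have key : ∀ a b : G, orderOf a = 2 → orderOf b = 2 → (5400 * D.c.v : ℂ) *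
        (NN (T a χ₁, T a χ₂, T a χ₃, T a χ₄) (T b χ₁, T b χ₂, T b χ₃, T b χ₄) : ℤ) = n a * n b := fun a b ha hb => by
      rw [← hn a b (by rw [← pow_two, ← ha, pow_orderOf_eq_one]) (by rw [← pow_two, ← hb, pow_orderOf_eq_one]),
        Finset.sum, hL]
      simp only [Multiset.map_coe, Multiset.sum_coe, List.map_cons, List.map_nil, List.sum_cons, List.sum_nil,
        d1, d2, d3, d4, hT a ha, hT b hb, NN, sg]
      norm_num
      ring
    have hv : (5400 * D.c.v : ℂ) * (5400 * D.c.v) ≠ 0 := by simp [D.c.v_ne_zero]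
    rw [cmp, beq_iff_eq, ← Int.cast_inj (α := ℂ), Int.cast_mul, Int.cast_mul]
    apply mul_left_cancel₀ hv
    rw [mul_mul_mul_comm, key u w hu hw, mul_mul_mul_comm _ _ ((_ : ℤ) : ℂ), key u u hu hu, key w w hw hw]
    ring
  · have h1 := List.all_eq_true.1 (List.all_eq_true.1 h _ (mem_cases D.c hP)) _
      (mem_divL _ (by norm_num) _ (by simpa using D.inv_dvd hu))
    rw [Nat.mod_eq_zero_of_dvd hm, ← hP.1] at h1
    obtain ⟨l, k1, k2⟩ := D.c.val_true hu (hT u hu) (by simpa using h1)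
    rw [hL, Multiset.map_coe, Multiset.coe_eq_coe] at k1
    simp only [vec, ← gv_perm k1] at k2
    simpa [gv, d1, d2, d3, d4] using k2
  · have h1 := h χ₁ _ (by rw [d1]; norm_num) (hT j hj χ₁)
    have h2 := h χ₂ _ (by rw [d2]; norm_num) (hT j hj χ₂)
    exact ⟨j, hj, by simp only; omega, by simp only; omega⟩

end JPx

variable {G : Type u} [Group G] [Finite G] [IsSimpleGroup G]

open JPx in
theorem jp (D : Nu G) (hJ : HJ G) (hP : Pat D.c [816, 969, 2584, 2736]) (hv : D.c.v = 8 ∨ D.c.v = 18) : False := by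
  obtain ⟨W, h1, h2, h3⟩ := setup D hP
  obtain ⟨z, -, hz, ho⟩ := exists_invol_normal (⊤ : Subgroup G) (by rw [card_top, D.c.card]; norm_num)
  have h128 : 128 ∣ cc z := by
    have := (centralizer ({z} : Set G)).index_mul_card
    rw [D.c.card] at this
    exact Nat.Coprime.dvd_of_dvd_mul_left (Nat.Coprime.pow_left 7 (Nat.coprime_two_left.2 ho)) (this ▸ by norm_num)
  have hm : D.c.v ∈ [8, 18] := by simpa using hv
  have k1 := h2 z hz _ _ h128 (c1 _ hm)
  simp only [Bool.or_eq_true, Bool.and_eq_true, beq_iff_eq, List.elem_eq_mem, decide_eq_true_eq] at k1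
  rcases k1 with k1 | ⟨h8, k1⟩
  · obtain ⟨j, hj, a1, a2⟩ := h3 hJ
    have k2 := h2 j hj _ _ (hj ▸ orderOf_dvd_card_of_mem (mem_centralizer_singleton_iff.2 rfl)) (c3 _ hm)
    simp only [Bool.or_eq_true, Nat.blt_eq, List.all_eq_true] at k2
    have := (k2.resolve_left (by omega)) _ k1
    rw [h1 z j hz hj] at this
    exact absurd this (by decide)
  · obtain ⟨r, hr, hr2⟩ := exists_mem_orderOf_prime (centralizer {D.c.x}) Nat.prime_two (by rw [D.c.hv, h8]; norm_num)
    have a2 : 2 ∣ cc r := hr2 ▸ orderOf_dvd_card_of_mem (mem_centralizer_singleton_iff.2 rfl)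
    have a5 : 5 ∣ cc r := D.c.hx ▸ orderOf_dvd_card_of_mem
      (mem_centralizer_singleton_iff.2 (mem_centralizer_singleton_iff.1 hr).symm)
    have k2 := h2 r hr2 10 _ (by omega) (h8 ▸ c2)
    have := List.all_eq_true.1 k2 _ k1
    rw [h1 z r hz hr2] at this
    exact absurd this (by decide)

end CL.J3O
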