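/-
A simple group of order 50232960: the principal 19-block.
-/
import Cfsg.Agent.J3O.Cr
import Cfsg.Agent.J3O.P17
import Cfsg.Agent.Spor.MOY2

set_option autoImplicit false
set_option maxRecDepth 100000

open Cfsg Subgroup CL.Char CL.Spor CL.Spor.MO

namespace CL.J3O

universe u

/-- `d` can be the degree of a common character of two principal blocks. -/
def okC (p e q d : ℕ) : Bool :=
  (List.range q).any fun f => Nat.blt 0 f && (q - 1) % f == 0 &&
    (d % q == 1 || d % q == q - 1 || d % q == f || d % q == q - f) && sn p e d * sn q f d == -1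

theorem c19 : ∀ q ∈ caseL AJ 50232960 19, q = (9, 1) ∨ q.2 ≠ 1 ∧ (q = (18, 48) ∨
    degAll DJ 50232960 19 q.1 q.2 (if q.2 % 2 = 0 then 2 * 19 else 1) (fun c F => c.elem 18 || F == q.1 ||
      (q.2 % 5 != 0 && !(F.natAbs :: c).any (okC 19 q.1 5))) = true) := by
  decide +kernel

theorem c19' : ∀ d ∈ DJ, d ∣ 50232960 / (19 * 48) → 2 * 19 < d → (d % 19 = 1 ∨ d % 19 = 18) →
    okC 19 18 17 d = false := by
  decide +kernel

variable {G : Type u} [Group G] [Finite G] [IsSimpleGroup G]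

theorem exists_okC (hC : Cross.{u}) {p q : ℕ} (a : PBk G 50232960 p) (hq : q.Prime) (h2 : q ≠ 2) (h1 : q ∣ 50232960)
    (h3 : ¬ q ^ 2 ∣ 50232960) (hpq : p ≠ q) (hv : ¬ q ∣ a.v) : ∃ χ ∈ a.S, okC p a.e q (dg χ) = true := by
  obtain ⟨b⟩ := nonempty_blk a.card a.nc hq h2 h1 h3
  obtain ⟨χ, k1, k2, k3⟩ := hC G _ p q a b hpq hv
  refine ⟨χ, k1, List.any_eq_true.2 ⟨b.e, List.mem_range.2 b.e_bd.2, ?_⟩⟩
  have := b.mod_of_mem k2
  simp only [Bool.and_eq_true, Nat.blt_eq, beq_iff_eq, Bool.or_eq_true]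
  exact ⟨⟨⟨b.e_bd.1, Nat.mod_eq_zero_of_dvd b.B.e_dvd⟩, by tauto⟩, k3⟩

theorem p19 (hC : Cross.{u}) (a : PBk G 50232960 19) : a.e = 9 ∧ a.v = 1 := by
  rcases c19 _ (a.mem_caseL mem_AJ) with h | ⟨hv, h | h⟩
  · exact Prod.mk.inj h
  · obtain ⟨he, hv⟩ := Prod.mk.inj h
    obtain ⟨χ, k1, k2⟩ := exists_okC hC a (q := 17) (by norm_num) (by norm_num) (by norm_num) (by norm_num)
      (by norm_num) (by rw [hv]; norm_num)
    have h1 := a.lo_lt k1
    have h2 := a.mod_of_mem k1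
    rw [he, c19' _ (mem_DJ a χ fun e => a.one_notMem (e ▸ k1)) (hv ▸ a.deg_dvd k1) (by simpa [hv] using h1)
      (by omega)] at k2
    exact absurd k2 (by simp)
  · have h1 := a.deg_true rfl rfl h pw_DJ (mem_DJ a)
    simp only [Bool.or_eq_true, beq_iff_eq, Bool.and_eq_true, bne_iff_ne, Bool.not_eq_true', List.elem_eq_mem,
      decide_eq_true_eq] at h1
    rcases h1 with (h1 | h1) | ⟨h1, h2⟩
    · rw [PBk.c, Multiset.mem_sort, Multiset.mem_map] at h1
      obtain ⟨χ, k1, k2⟩ := h1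
      exact absurd (by rw [k2]) (deg_ne a hv k1)
    · exact absurd h1 (F_ne a hv)
    · obtain ⟨χ, k1, k2⟩ := exists_okC hC a (q := 5) (by norm_num) (by norm_num) (by norm_num) (by norm_num)
        (by norm_num) fun h => h1 (Nat.mod_eq_zero_of_dvd h)
      refine absurd (h2.symm.trans (List.any_eq_true.2 ⟨dg χ, ?_, k2⟩)) (by simp)
      rcases a.mem_S_iff.1 k1 with k | k
      · exact List.mem_cons_of_mem _ (a.mem_c k)
      · rw [a.B.deg_Y χ k, a.natAbs_F]
        exact List.mem_cons_self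

end CL.J3O
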