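/-
A simple group of order 50232960: the degree patterns of the principal 5-block.
-/
import Cfsg.Agent.J3O.P17
import Cfsg.Agent.Spor.MOY2

set_option autoImplicit false
set_option maxRecDepth 100000

open Cfsg Subgroup CL.Char CL.Spor CL.Spor.MO

namespace CL.J3O

universe u

/-- the test for a self-centralising element of order 17 -/
def patT8 (l : List ℕ) : Prop := ∀ d ∈ l, d % 17 = 0 ∨ d % 17 = 1 ∨ d % 17 = 16 ∨
  (d % 17 = 8 ∨ d % 17 = 9) ∧ ∀ d' ∈ l, d' % 17 = 8 ∨ d' % 17 = 9 → d' = d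

/-- the test for a centraliser of order 153 -/
def patT16 (e : ℕ) (l : List ℕ) : Prop :=
  ∃ d ∈ l, 328320 % d = 0 ∧ (d % 17 = 1 ∨ d % 17 = 16) ∧ sn 5 e d * sn 17 16 d = -1

def patR8 (e : ℕ) (l : List ℕ) : Prop :=
  (e = 4 ∧ l.Perm [76, 76, 171, 324]) ∨ e = 4 ∧ l.Perm [76, 76, 816, 969]

def patR (e v : ℕ) (l : List ℕ) : Prop := (e = 4 ∧ l.Perm [324, 969, 2584, 3876]) ∨
  (e = 4 ∧ l.Perm [171, 324, 2584, 2736]) ∧ (v = 3 ∨ v = 8) ∨
  (e = 4 ∧ l.Perm [324, 646, 646, 969]) ∧ (v = 3 ∨ v = 8 ∨ v = 48) ∨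
  (e = 4 ∧ l.Perm [816, 969, 2584, 2736]) ∧ (v = 3 ∨ v = 8 ∨ v = 18 ∨ v = 108)

def patP (e v : ℕ) (c : List ℕ) (F : ℤ) : Prop :=
  (e = 2 ∧ c = [324] ∧ F = -323 ∧ (v = 1 ∨ v = 6 ∨ v = 16 ∨ v = 96)) ∨ patR e v (fd 5 e c F) ∨
    (patT8 (fd 5 e c F) → patR8 e (fd 5 e c F)) ∧ ¬ patT16 e (fd 5 e c F)

instance patDec (e v : ℕ) (c : List ℕ) (F : ℤ) : Decidable (patP e v c F) := by
  unfold patP patR patR8 patT8 patT16
  infer_instance

theorem pat_c5 : ∀ q ∈ caseL AJ 50232960 5, q.2 % 19 = 0 ∨ q.2 % 17 = 0 ∨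
    degAll EJ 50232960 5 q.1 q.2 (if q.2 % 2 = 0 then 2 * 5 else 1) (fun c F => decide (patP q.1 q.2 c F)) = true := by
  decide +kernel

variable {G : Type u} [Group G] [Finite G] [IsSimpleGroup G]

omit [Finite G] [IsSimpleGroup G] in
theorem pat_mem (c : PBk G 50232960 5) {d : ℕ} : d ∈ fd 5 c.e c.c c.F ↔ ∃ χ ∈ c.S, dg χ = d := by
  rw [← Multiset.mem_coe, fd, ← c.map_dg, Multiset.mem_map]
  rfl

omit [Finite G] [IsSimpleGroup G] in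
theorem pat_of (c : PBk G 50232960 5) {l : List ℕ} (h : c.e = 4 ∧ (fd 5 c.e c.c c.F).Perm l) : Pat c l :=
  ⟨h.1, c.map_dg.trans (Multiset.coe_eq_coe.2 h.2)⟩

omit [IsSimpleGroup G] in
theorem pat_t8 (b : PBk G 50232960 17) (be : b.e = 8) (bv : b.v = 1) (c : PBk G 50232960 5) :
    patT8 (fd 5 c.e c.c c.F) := by
  have key : ∀ d ∈ fd 5 c.e c.c c.F, d % 17 = 8 ∨ d % 17 = 9 → d = b.B.f := fun d hd h => by
    obtain ⟨χ, hχ, rfl⟩ := (pat_mem c).1 hd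
    rcases b.mem_S_iff.1 (b.mem_S bv (fun e => c.one_notMem (e ▸ hχ)) (by omega)) with k | k
    · have := (b.s_eq (b.mem_X0.1 k).2).2
      omega
    · exact b.B.deg_Y χ k
  intro d hd
  obtain ⟨χ, hχ, e⟩ := (pat_mem c).1 hd
  have h := b.deg_mod bv (χ := χ) fun e => c.one_notMem (e ▸ hχ)
  rw [be, e] at h
  by_cases k : d % 17 = 8 ∨ d % 17 = 9
  · exact .inr (.inr (.inr ⟨k, fun d' hd' k' => (key d' hd' k').trans (key d hd k).symm⟩))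
  · omega

theorem pats (hC : Cross.{u}) (D : Nu G) : Pats D := by
  have h17 : ¬ 17 ∣ D.c.v := fun h => by
    have := D.b.dvd_v_comm D.c (by norm_num) h
    rcases D.hb with ⟨-, e⟩ | ⟨-, e⟩ <;> rw [e] at this <;> omega
  rcases pat_c5 _ (D.c.mem_caseL mem_AJ) with h | h | h
  · have := D.a.dvd_v_comm D.c (by norm_num) (Nat.dvd_of_mod_eq_zero h)
    rw [D.av] at this
    omega
  · exact absurd (Nat.dvd_of_mod_eq_zero h) h17
  rcases of_decide_eq_true (D.c.deg_true rfl rfl h pw_EJ (mem_EJ D.a D.ae D.av)) with h | h | ⟨h, h'⟩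
  · exact .inl h
  · exact .inr (.inr (h.imp (pat_of D.c) (Or.imp (And.imp_left (pat_of D.c))
      (Or.imp (And.imp_left (pat_of D.c)) (And.imp_left (pat_of D.c))))))
  rcases D.hb with k | ⟨be, bv⟩
  · exact .inr (.inl ⟨k, (h (pat_t8 D.b k.1 k.2 D.c)).imp (pat_of D.c) (pat_of D.c)⟩)
  · obtain ⟨χ, h1, h2, h3⟩ := hC G _ 5 17 D.c D.b (by norm_num) h17
    have h4 := D.b.deg_dvd h2
    have h5 := D.b.mod_of_mem h2
    rw [bv] at h4
    rw [be] at h3 h5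
    exact absurd ⟨_, (pat_mem D.c).2 ⟨χ, h1, rfl⟩, Nat.mod_eq_zero_of_dvd h4, by omega, h3⟩ h'

end CL.J3O
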