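/-
A simple group of order 50232960: real characters, and an involution inverting an element of order 17.
-/
import Cfsg.Agent.J3O.Defs
import Cfsg.Agent.Cls.SL2Dihedral

set_option autoImplicit false
set_option linter.unusedSectionVars false

open Cfsg Subgroup CL.Spor CL.Spor.MO

namespace CL.J3O

universe u

variable {G : Type u} [Group G] [Finite G]

namespace Re

open Finset CL.Char

/-- the sign character -/
def dihSgn : DihedralGroup 17 →* ℂˣ :=
  MonoidHom.mk' (fun x => match x with | .r _ => 1 | .sr _ => -1) fun a b => by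
    rcases a with a | a <;> rcases b with b | b <;> simp

theorem dih_sum (f : DihedralGroup 17 → ℂ) : ∑ x, f x = ∑ i, f (.r i) + ∑ i, f (.sr i) := by
  rw [← DihedralGroup.equivSum.symm.sum_comp, Fintype.sum_sum_type]
  rfl

theorem dih_bound {θ : DihedralGroup 17 → ℂ} (h : IsCharacter (DihedralGroup 17) θ) {d T : ℤ} (h1 : θ (.r 0) = d)
    (hε : ∀ i, i ≠ 0 → θ (.r i) = 0) (hT : θ (.sr 0) = T) : 17 * T.natAbs ≤ d := by
  have c : ∀ i : ZMod 17, ∃ j : ZMod 17, DihedralGroup.r j * .sr 0 * (DihedralGroup.r j)⁻¹ = .sr i := by decide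
  have e1 : ∑ i, θ (.sr i) = 17 * T := by
    rw [sum_congr rfl (g := fun _ => (T : ℂ)) fun i _ => by
      obtain ⟨j, hj⟩ := c i
      rw [← hj, h.isClassFunction, hT]]
    simp
  have e2 : ∑ i, θ (.r i) = d := by
    rw [← add_sum_erase _ _ (mem_univ 0), h1, sum_congr rfl fun i hi => hε i (ne_of_mem_erase hi)]
    simp
  obtain ⟨m, hm⟩ := h.exists_nat_classInner isCharacter_one
  obtain ⟨n, hn⟩ := h.exists_nat_classInner (isCharacter_unitsHom dihSgn)
  rw [classInner_def, DihedralGroup.nat_card, dih_sum] at hm hn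
  simp only [dihSgn, MonoidHom.mk'_apply, Units.val_one, Units.val_neg, map_one, map_neg, mul_one, mul_neg,
    sum_neg_distrib, e1, e2] at hm hn
  have a1 : d + 17 * T = 34 * m := by
    have : ((d + 17 * T : ℤ) : ℂ) = ((34 * m : ℤ) : ℂ) := by push_cast at hm ⊢; linear_combination 34 * hm
    exact_mod_cast this
  have a2 : d - 17 * T = 34 * n := by
    have : ((d - 17 * T : ℤ) : ℂ) = ((34 * n : ℤ) : ℂ) := by push_cast at hn ⊢; linear_combination 34 * hn
    exact_mod_cast this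
  omega

theorem exists_j (D : Nu G) : ∃ j : G, orderOf j = 2 ∧ j * D.b.x * j⁻¹ = D.b.x⁻¹ := by
  have hC := D.b.hv
  have hN : Nat.card 𝒩(zpowers D.b.x) = D.b.e * _ := D.b.B.card_N
  have x17 : D.b.x ^ 17 = 1 := orderOf_dvd_iff_pow_eq_one.1 D.b.hx.dvd
  obtain ⟨s, hs, h2⟩ := exists_mem_orderOf_prime 𝒩(zpowers D.b.x) Nat.prime_two (by
    rw [hN]; rcases D.hb with ⟨e, -⟩ | ⟨e, -⟩ <;> rw [e] <;> omega)
  refine ⟨s, h2, ?_⟩
  obtain ⟨i, hi⟩ := CL.SL2.exists_pow_val D.b.hx ((mem_normalizer_iff.1 hs D.b.x).1 (mem_zpowers _))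
  have ss : s * s = 1 := by rw [← pow_two, ← h2, pow_orderOf_eq_one]
  have e : D.b.x ^ (i * i).val = D.b.x ^ (1 : ZMod 17).val := by
    rw [ZMod.val_mul, ← pow_eq_pow_mod _ x17, pow_mul, ← hi, conj_pow, ← hi,
      show s * (s * D.b.x * s⁻¹) * s⁻¹ = s * s * D.b.x * (s * s)⁻¹ by group, ss]
    simp [show (1 : ZMod 17).val = 1 from rfl]
  have k : ∀ i : ZMod 17, i * i = 1 → i = 1 ∨ i = -1 := by decide
  rcases k i (CL.SL2.pow_val_inj D.b.hx e) with rfl | rfl
  · have : orderOf s ∣ cc D.b.x := orderOf_dvd_card_of_mem (mem_centralizer_singleton_iff.2 (by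
      rw [show (1 : ZMod 17).val = 1 from rfl, pow_one] at hi
      exact mul_inv_eq_iff_eq_mul.1 hi))
    rw [h2, hC] at this
    rcases D.hb with ⟨-, e⟩ | ⟨-, e⟩ <;> rw [e] at this <;> omega
  · rw [hi, CL.SL2.pow_val_neg x17, show (1 : ZMod 17).val = 1 from rfl, pow_one]

theorem real_one {c : PBk G 50232960 5} {l : List ℕ} (hP : Pat c l) {χ : IrrCharacter G} (h : χ ∈ c.S)
    (h1 : l.count (dg χ) = 1) (g : G) : ((χ : G → ℂ) g).im = 0 := by
  obtain ⟨z, hz⟩ := c.exists_int (fun e => c.one_notMem (e ▸ h)) (fun u hu => c.val_top hP.1 h hu) (by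
    rw [fd, ← Multiset.coe_count, ← c.map_dg, hP.2, Multiset.coe_count, h1]) g
  rw [hz, Complex.intCast_im]

theorem mem_l {c : PBk G 50232960 5} {l : List ℕ} (hP : Pat c l) {χ : IrrCharacter G} (h : χ ∈ c.S) : dg χ ∈ l := by
  rw [← Multiset.mem_coe, ← hP.2]
  exact Multiset.mem_map_of_mem _ h

theorem real76 (D : Nu G) (h : D.b.v = 1) {χ : IrrCharacter G} (hd : dg χ = 76) (g : G) :
    ((χ : G → ℂ) g).im = 0 := by
  have Y : ∀ ψ : IrrCharacter G, dg ψ = 76 → ψ ∈ D.b.B.Y := fun ψ e =>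
    (D.b.mem_S_iff.1 (D.b.mem_S h (fun k => by rw [k, charDegree_irrOne] at e; omega) (by omega))).resolve_left
      fun k => by have := (D.b.s_eq (D.b.mem_X0.1 k).2).2; omega
  refine Complex.conj_eq_iff_im.1 ?_
  by_cases hg : 17 ∣ orderOf g
  · have : Fact (Nat.Prime 17) := ⟨by norm_num⟩
    have o : orderOf g = 17 := Nat.dvd_antisymm (D.b.cc_sing h hg ▸
      orderOf_dvd_card_of_mem (mem_centralizer_singleton_iff.2 rfl)) hg
    obtain ⟨y, ⟨k, rfl⟩, -, hy⟩ := exists_isConj_mem_zpowers (p := 17) (m := 2954880) (D.b.card.trans (by norm_num))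
      (by norm_num) D.b.hx o
    obtain ⟨a, rfl⟩ := isConj_iff.1 hy
    obtain ⟨j, -, hj⟩ := exists_j D
    rw [χ.2.conj_apply, conj_inv, χ.2.isCharacter.isClassFunction, χ.2.isCharacter.isClassFunction]
    simp only
    rw [← inv_zpow, ← hj, conj_zpow, χ.2.isCharacter.isClassFunction]
  · exact D.b.B.Y_reg (Y (galIrr starRingAut χ) (by rw [charDegree_galIrr, hd])) (Y χ hd) hg

end Re

open Re

variable [IsSimpleGroup G]

theorem real1 (D : Nu G) (h : D.b.e = 8 ∧ D.b.v = 1)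
    (hP : Pat D.c [76, 76, 171, 324] ∨ Pat D.c [76, 76, 816, 969]) : ∀ χ ∈ D.c.S, ∀ g, ((χ : G → ℂ) g).im = 0 := by
  intro χ hχ
  by_cases hd : dg χ = 76
  · exact real76 D h.2 hd
  rcases hP with hP | hP <;> refine real_one hP hχ ?_ <;> have := mem_l hP hχ <;>
    simp only [List.mem_cons, List.not_mem_nil, or_false, hd, false_or] at this <;>
    rcases this with e | e <;> rw [e] <;> decide

theorem real2 (D : Nu G) (hP : Pat D.c [324, 969, 2584, 3876]) : ∀ χ ∈ D.c.S, ∀ g, ((χ : G → ℂ) g).im = 0 := by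
  intro χ hχ
  refine real_one hP hχ ?_
  have := mem_l hP hχ
  simp only [List.mem_cons, List.not_mem_nil, or_false] at this
  rcases this with e | e | e | e <;> rw [e] <;> decide

theorem hj (D : Nu G) : HJ G := by
  obtain ⟨j, h2, hj⟩ := exists_j D
  have x17 : D.b.x ^ 17 = 1 := orderOf_dvd_iff_pow_eq_one.1 D.b.hx.dvd
  have jj : j * j = 1 := by rw [← pow_two, ← h2, pow_orderOf_eq_one]
  refine ⟨j, h2, fun χ a hd ha => ?_⟩
  exact_mod_cast dih_bound (d := dg χ) (T := a) (χ.2.isCharacter.comp (CL.SL2.dihedralHom D.b.x j x17 jj hj))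
    (by simp [χ.2.cast_charDegree]) (fun i hi => D.b.val_zero hd (by
      rw [CL.SL2.dihedralHom_r, Nat.Coprime.orderOf_pow (by rw [D.b.hx]; revert i; decide), D.b.hx]))
    (by simp [CL.SL2.dihedralHom_sr, ha])

end CL.J3O
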