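/-
A simple group of order 50232960: the degrees 816, 969, 2584, 2736 do not occur with `|C(x)| = 15`.
-/
import Cfsg.Agent.J3O.Defs
import Cfsg.Agent.Spor.MO22B

set_option autoImplicit false

open Cfsg Subgroup CL.Spor CL.Spor.MO CL.Char

namespace CL.J3O

universe u

variable {G : Type u} [Group G] [Finite G]

private theorem t3_val : ([([969, 2584, 2736], -816), ([816, 2584, 2736], 969), ([816, 969, 2736], 2584),
    ([816, 969, 2584], -2736)].all fun q : List ℕ × ℤ => [128, 384, 1152, 3456, 10368, 31104].all fun K =>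
      valAll 50232960 5 4 3 K q.1 q.2 fun l => decide ((K * K : ℤ) <
        9 * (3348864 + (l.map fun a => sg 5 a.1 * (a.2 * a.2 * (3348864 / a.1 : ℕ))).sum))) = true := by
  decide +kernel

private theorem t3_inv [Fintype G] {x : G} (hx : orderOf x = 5) (hc : cc x = 15)
    (hn : Nat.card 𝒩(zpowers x) = 60) {z : G} (hz : z * z = 1) : (invSet x z).card ≤ 5 := by
  classical
  rcases (invSet x z).eq_empty_or_nonempty with h | ⟨i, hi⟩
  · simp [h]
  have h1 : ∀ i ∈ invSet x z, i * i = 1 ∧ i * x * i⁻¹ = x⁻¹ := fun i hi => by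
    obtain ⟨-, k1, k2⟩ := Finset.mem_filter.1 hi
    obtain ⟨g, rfl⟩ := isConj_iff.1 k1
    exact ⟨by rw [show g * z * g⁻¹ * (g * z * g⁻¹) = g * (z * z) * g⁻¹ by group, hz]; group, k2⟩
  have hC : ∀ g, g ∈ 𝒵(x) ↔ g * x * g⁻¹ = x := fun g => by
    rw [mem_centralizer_singleton_iff, mul_inv_eq_iff_eq_mul]
  have h2 : ∀ a b : G, a * x * a⁻¹ = x⁻¹ → b * x * b⁻¹ = x⁻¹ → a⁻¹ * b ∈ 𝒵(x) := fun a b ha hb => (hC _).2 (by
    calc a⁻¹ * b * x * (a⁻¹ * b)⁻¹ = a⁻¹ * (b * x * b⁻¹) * a := by group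
      _ = x := by rw [hb, ← ha]; group)
  have x5 : x ^ 5 = 1 := hx ▸ pow_orderOf_eq_one x
  obtain ⟨n, hn'⟩ : ∃ n : G, n * n * x * (n * n)⁻¹ = x⁻¹ ∧ n ∈ 𝒩(zpowers x) := by
    by_contra! k
    have k1 : (𝒩(zpowers x) : Set G) ⊆ 𝒵(x) ∪ (i * ·) '' 𝒵(x) := fun n hn => by
      obtain ⟨j, hj, e⟩ := Finset.mem_image.1 (mem_zpowers_iff_mem_range_orderOf.1
        ((mem_normalizer_iff.1 hn x).1 (mem_zpowers x)))
      have k2 : n * n * x * (n * n)⁻¹ = x ^ (j * j) := by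
        rw [pow_mul, e, conj_pow, e]
        group
      rw [hx, Finset.mem_range] at hj
      interval_cases j
      · have := (MulAut.conj n).orderOf_eq x
        simp only [MulAut.conj_apply, ← e, hx] at this
        simp at this
      · exact Or.inl ((hC n).2 (by rw [← e, pow_one]))
      · exact absurd hn (k n (by rw [k2, eq_inv_iff_mul_eq_one, ← pow_succ, x5]))
      · exact absurd hn (k n (by rw [k2, eq_inv_iff_mul_eq_one, ← pow_succ, show 3 * 3 + 1 = 5 * 2 by rfl,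
          pow_mul, x5, one_pow]))
      · exact Or.inr ⟨i⁻¹ * n, h2 i n (h1 i hi).2 (by rw [← e, eq_inv_iff_mul_eq_one, ← pow_succ, x5]),
          by simp⟩
    have k2 := (Set.ncard_le_ncard k1).trans (Set.ncard_union_le _ _)
    have k3 := Set.ncard_image_le (f := (i * ·)) (s := (𝒵(x) : Set G))
    have k4 : (𝒵(x) : Set G).ncard = 15 := hc
    have k5 : (𝒩(zpowers x) : Set G).ncard = 60 := hn
    omega
  obtain ⟨k, hk, k3⟩ := exists_mem_orderOf_prime 𝒵(x) Nat.prime_three (by rw [hc]; norm_num)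
  have h3 : orderOf (k * x) = 15 := by
    rw [Commute.orderOf_mul_eq_mul_orderOf_of_coprime (mem_centralizer_singleton_iff.1 hk) (by
      rw [k3, hx]; norm_num), k3, hx]
  have h4 : zpowers (k * x) = 𝒵(x) := eq_of_le_of_card_ge (zpowers_le.2 (mul_mem hk
    (mem_centralizer_singleton_iff.2 rfl))) (by rw [Nat.card_zpowers, h3, hc])
  set y := k * x
  have h5 : n * y * n⁻¹ ∈ 𝒵(x) := by
    obtain ⟨j, e⟩ := (mem_normalizer_iff.1 (inv_mem hn'.2) x).1 (mem_zpowers x)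
    have e1 := (Commute.zpow_right (mem_centralizer_singleton_iff.1 (h4 ▸ mem_zpowers y : y ∈ 𝒵(x))) j).eq
    simp only at e
    rw [e] at e1
    rw [mem_centralizer_singleton_iff]
    calc n * y * n⁻¹ * x = n * (y * (n⁻¹ * x * n⁻¹⁻¹)) * n⁻¹ := by group
      _ = _ := by rw [e1]; group
  obtain ⟨b, hb⟩ := (mem_powers_iff_mem_zpowers.2 (h4 ▸ h5) : n * y * n⁻¹ ∈ Submonoid.powers y)
  have h6 : ¬ 3 ∣ b := fun ⟨j, hj⟩ => by
    have e := (MulAut.conj n).orderOf_eq y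
    rw [MulAut.conj_apply, ← hb, h3] at e
    have : orderOf (y ^ b) ∣ 5 := orderOf_dvd_of_pow_eq_one (by
      rw [← pow_mul, hj, ← orderOf_dvd_iff_pow_eq_one, h3]; exact ⟨j, by ring⟩)
    rw [show orderOf (y ^ b) = 15 from e] at this
    omega
  have h7 : ∀ w ∈ 𝒵(x), i * w * i⁻¹ = w ^ (b * b) := fun w hw => by
    obtain ⟨a, rfl⟩ := (mem_powers_iff_mem_zpowers.2 (h4 ▸ hw) : w ∈ Submonoid.powers y)
    obtain ⟨c, hc⟩ := (mem_powers_iff_mem_zpowers.2 (h4 ▸ h2 _ _ hn'.1 (h1 i hi).2) : _ ∈ Submonoid.powers y)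
    simp only at hb hc ⊢
    rw [show i = n * n * y ^ c by rw [hc]; group, ← pow_mul, mul_comm a, pow_mul, pow_mul, hb, conj_pow, hb,
      conj_pow, conj_pow]
    group
  have : IsCyclic 𝒵(x) := h4 ▸ inferInstance
  refine le_trans ?_ (IsCyclic.card_pow_eq_one_le (α := 𝒵(x)) (n := 5) (by norm_num))
  refine Finset.card_le_card_of_injOn (fun j => if h : i⁻¹ * j ∈ 𝒵(x) then ⟨_, h⟩ else 1) (fun j hj => ?_)
    fun j hj j' hj' e => ?_
  · have k1 := h2 i j (h1 i hi).2 (h1 j hj).2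
    simp only [dif_pos k1, Finset.coe_filter, Finset.mem_univ, true_and, Set.mem_ofPred_eq]
    have k2 := h7 _ k1
    have k4 : (i⁻¹ * j) ^ (b * b + 1) = 1 := by
      rw [pow_succ, ← k2, ← eq_inv_of_mul_eq_one_left (h1 i hi).1]
      calc i * (i * j) * i * (i * j) = (i * i) * j * (i * i) * j := by group
        _ = 1 := by rw [(h1 i hi).1, one_mul, mul_one, (h1 j hj).1]
    have k5 : orderOf (i⁻¹ * j) ∣ 3 * 5 := (orderOf_dvd_card_of_mem k1).trans hc.dvd
    refine Subtype.ext (orderOf_dvd_iff_pow_eq_one.1 (Nat.Coprime.dvd_of_dvd_mul_left ?_ k5))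
    refine (Nat.Coprime.symm ((Nat.Prime.coprime_iff_not_dvd Nat.prime_three).2 fun e => ?_))
    have k6 := e.trans (orderOf_dvd_of_pow_eq_one k4)
    have k7 : b % 3 = 1 ∨ b % 3 = 2 := by omega
    rw [Nat.dvd_iff_mod_eq_zero, Nat.add_mod, Nat.mul_mod] at k6
    rcases k7 with k7 | k7 <;> simp [k7] at k6
  · simp only [dif_pos (h2 i j (h1 i hi).2 (h1 j hj).2), dif_pos (h2 i j' (h1 i hi).2 (h1 j' hj').2)] at e
    exact mul_left_cancel (Subtype.mk.inj e)

variable [IsSimpleGroup G]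

theorem t3 (D : Nu G) (hP : Pat D.c [816, 969, 2584, 2736]) (hv : D.c.v = 3) : False := by
  classical
  have := Fintype.ofFinite G
  obtain ⟨z, hz, h1⟩ := exists_central_invol (G := G) (k := 6) (m := 392445) D.c.card
  have h2 := D.inv_dvd hz
  have h3 : ¬ 5 ∣ cc z := fun h => by
    have := D.c.dvd_v Nat.prime_two (by norm_num) hz h
    omega
  have h4 : cc z ∈ [128, 384, 1152, 3456, 10368, 31104] := by
    obtain ⟨m, hm⟩ := Nat.dvd_of_mod_eq_zero h1
    rw [hm, show 155520 = 2 ^ (6 + 1) * (3 ^ 5 * 5) by norm_num, Nat.mul_dvd_mul_iff_left (by norm_num)] at h2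
    obtain ⟨j, hj, rfl⟩ := (Nat.dvd_prime_pow Nat.prime_three).1 (Nat.Coprime.dvd_of_dvd_mul_right
      ((Nat.Prime.coprime_iff_not_dvd Nat.prime_five).2 fun k => h3 (hm ▸ k.mul_left _)).symm h2)
    rw [hm]
    interval_cases j <;> simp
  obtain ⟨μ, m1, m2, m3⟩ := D.c.exists_top hP.1
  have m4 : μ ∈ D.c.B.Y := m1 ▸ Finset.mem_singleton_self μ
  have h5 : (D.c.c, D.c.F) ∈ [([969, 2584, 2736], -816), ([816, 2584, 2736], 969), ([816, 969, 2736], 2584),
      ([816, 969, 2584], (-2736 : ℤ))] := by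
    have k1 := D.c.map_dg.symm.trans hP.2
    rw [hP.1, Multiset.coe_eq_coe] at k1
    have k2 := k1.mem_iff.1 (List.mem_append_right _ (List.mem_singleton_self _))
    have k3 : D.c.c.Pairwise (· ≤ ·) := Multiset.pairwise_sort _ _
    have k4 := Int.sign_mul_natAbs D.c.F
    rw [D.c.B.deg_Y μ m4, ← D.c.natAbs_F, eq_comm, neg_eq_iff_eq_neg] at m2
    have k5 := (List.perm_append_singleton _ _).symm.trans k1
    rw [m2] at k4
    simp only [List.mem_cons, List.not_mem_nil, or_false] at k2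
    rcases k2 with k2 | k2 | k2 | k2 <;> rw [k2] at k4 k5 <;>
      rw [← k4, List.Perm.eq_of_pairwise' k3 (by decide) (List.cons_perm_iff_perm_erase.1 k5).2] <;> decide
  obtain ⟨T, hT, -⟩ := exists_invol_values D.c.perf hz
  have h6 := List.all_eq_true.1 (List.all_eq_true.1 t3_val _ h5) _ h4
  rw [← hP.1, ← hv] at h6
  obtain ⟨l, l1, l2⟩ := D.c.val_true hz hT h6
  have hz2 : z * z = 1 := by rw [← pow_two, ← hz, pow_orderOf_eq_one]
  have h7 := D.c.B.q2 D.c.pp D.c.p2 D.c.hx D.c.sq hz2 hz2 m4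
  have h8 := t3_inv D.c.hx (by rw [D.c.hv, hv]) (by rw [D.gp.hn, hv, hP.1]) hz2
  have h9 : ∀ χ ∈ D.c.S, ((sg 5 (dg χ) * (T χ * T χ * (3348864 / dg χ : ℕ)) : ℤ) : ℂ) =
      3348864 * (sg 5 (dg χ) * ((χ : G → ℂ) z * (χ : G → ℂ) z / dg χ)) := fun χ hχ => by
    have k : dg χ ∈ [816, 969, 2584, 2736] := Multiset.mem_coe.1 (hP.2 ▸ Multiset.mem_map_of_mem _ hχ)
    simp only [List.mem_cons, List.not_mem_nil, or_false] at k
    rw [hT]
    rcases k with k | k | k | k <;> rw [k] <;> push_cast <;> ring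
  rw [decide_eq_true_eq, ← Multiset.sum_coe, ← Multiset.map_coe, ← l1, Multiset.map_map] at l2
  have k1 : ((225 * (3348864 + ∑ χ ∈ D.c.S, sg 5 (dg χ) * (T χ * T χ * (3348864 / dg χ : ℕ))) : ℤ) : ℂ) =
      (((invSet D.c.x z).card * (invSet D.c.x z).card * (cc z * cc z) : ℤ) : ℂ) := by
    rw [D.c.sum_s fun χ => (χ : G → ℂ) z * (χ : G → ℂ) z / dg χ, D.c.card, D.c.hv, hv, ← D.c.sign_F,
      ← D.c.B.deg_Y μ m4, charDegree_irrOne, irrOne_apply] at h7
    rw [Int.cast_mul, Int.cast_add, Int.cast_sum, Finset.sum_congr rfl h9, ← Finset.mul_sum, m3, m2]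
    push_cast at h7 ⊢
    linear_combination h7
  have k2 := Int.cast_injective k1
  have k3 : ((invSet D.c.x z).card : ℤ) * (invSet D.c.x z).card ≤ 25 := by
    exact_mod_cast Nat.mul_le_mul h8 h8
  have k4 := mul_le_mul_of_nonneg_right k3 (mul_self_nonneg (cc z : ℤ))
  have k5 : (cc z * cc z : ℤ) < 9 * (3348864 + ∑ χ ∈ D.c.S, sg 5 (dg χ) * (T χ * T χ * (3348864 / dg χ : ℕ))) := l2
  linarith

end CL.J3O
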