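/-
A simple group of order 50232960: two patterns for the principal 5-block are impossible.
-/
import Cfsg.Agent.J3O.P17
import Cfsg.Agent.Spor.MO22B

set_option autoImplicit false
set_option maxRecDepth 100000

open Cfsg Subgroup CL.Char CL.Spor CL.Spor.MO

namespace CL.J3O

universe u

variable {G : Type u} [Group G] [Finite G] [IsSimpleGroup G]

/-- The possible pairs `(c, F)` for a list of degrees. -/
def zzC (l : List ℕ) : List (List ℕ × ℤ) := l.map fun f => (l.erase f, if f % 5 = 4 then (f : ℤ) else -(f : ℤ))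

omit [Finite G] [IsSimpleGroup G] in
theorem zz_mem (c : PBk G 50232960 5) {l : List ℕ} (hP : Pat c l) (hl : l.Pairwise (· ≤ ·)) :
    (c.c, c.F) ∈ zzC l := by
  obtain ⟨he, h⟩ := hP
  have h1 := c.map_dg
  rw [h, he, Multiset.coe_eq_coe, c.natAbs_F] at h1
  have h2 : l.Perm (c.B.f :: c.c) := h1.trans (by simp)
  refine List.mem_map.2 ⟨c.B.f, h2.symm.subset (by simp), Prod.ext ?_ ?_⟩
  · have h3 : (l.erase c.B.f).Perm c.c := by simpa using h2.erase c.B.f
    exact h3.eq_of_pairwise (fun a b _ _ => le_antisymm) (hl.erase _) (Multiset.pairwise_sort _ _)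
  · have h3 := c.f_mod
    rw [he] at h3
    rcases h3 with ⟨e1, e2⟩ | ⟨e1, e2⟩
    · simp [PBk.F, e1, e2]
    · simp [PBk.F, e1, e2]

theorem zz_c1 : ∀ v ∈ [3, 8], ∀ K ∈ KJ, K % 128 = 0 → ∀ q ∈ zzC [171, 324, 2584, 2736],
    valAll 50232960 5 4 v K q.1 q.2 (fun _ => false) = true := by
  decide +kernel

theorem zz_c2 : ∀ v ∈ [3, 8], ∀ K ∈ KJ, K % 128 = 0 → ∀ q ∈ zzC [324, 646, 646, 969],
    valAll 50232960 5 4 v K q.1 q.2 (fun _ => false) = true := by
  decide +kernel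

theorem zz_c3 : ∀ K ∈ KJ, K % 2 = 0 → ∀ q ∈ zzC [324, 646, 646, 969],
    valAll 50232960 5 4 48 K q.1 q.2 (fun l => l.any fun a => a.1 == 646 && Nat.blt 38 a.2.natAbs) = true := by
  decide +kernel

theorem zz1 (D : Nu G) (hP : Pat D.c [171, 324, 2584, 2736]) (hv : D.c.v = 3 ∨ D.c.v = 8) : False := by
  obtain ⟨z, hz, hz'⟩ := exists_central_invol (G := G) (k := 6) (m := 392445) (D.c.card.trans (by norm_num))
  obtain ⟨Z, hZ, -⟩ := exists_invol_values D.c.perf hz
  have h := zz_c1 D.c.v (by simpa using hv) _ (mem_KJ _ (D.inv_dvd hz)) hz' _ (zz_mem D.c hP (by decide))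
  rw [← hP.1] at h
  obtain ⟨-, -, k⟩ := D.c.val_true hz hZ h
  simp at k

theorem zz2 (D : Nu G) (hJ : HJ G) (hP : Pat D.c [324, 646, 646, 969])
    (hv : D.c.v = 3 ∨ D.c.v = 8 ∨ D.c.v = 48) : False := by
  rcases or_assoc.2 hv with hv | hv
  · obtain ⟨z, hz, hz'⟩ := exists_central_invol (G := G) (k := 6) (m := 392445) (D.c.card.trans (by norm_num))
    obtain ⟨Z, hZ, -⟩ := exists_invol_values D.c.perf hz
    have h := zz_c2 D.c.v (by simpa using hv) _ (mem_KJ _ (D.inv_dvd hz)) hz' _ (zz_mem D.c hP (by decide))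
    rw [← hP.1] at h
    obtain ⟨-, -, k⟩ := D.c.val_true hz hZ h
    simp at k
  · obtain ⟨j, hj, hj'⟩ := hJ
    obtain ⟨T, hT, -⟩ := exists_invol_values D.c.perf hj
    have h := zz_c3 _ (mem_KJ _ (D.inv_dvd hj)) (two_dvd_cc hj) _ (zz_mem D.c hP (by decide))
    rw [← hP.1, ← hv] at h
    obtain ⟨l, k1, k2⟩ := D.c.val_true hj hT h
    obtain ⟨a, ha, k3⟩ := List.any_eq_true.1 k2
    simp only [Bool.and_eq_true, beq_iff_eq, Nat.blt_eq] at k3
    have ha' : a ∈ D.c.S.val.map (fun χ => (dg χ, T χ)) := by rw [k1]; exact ha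
    obtain ⟨χ, -, rfl⟩ := Multiset.mem_map.1 ha'
    have := hj' χ (T χ) (by rw [show dg χ = 646 from k3.1]; norm_num) (hT χ)
    have h1 : dg χ = 646 := k3.1
    have h2 : 38 < (T χ).natAbs := k3.2
    omega

end CL.J3O
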